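import Cfsg.Agent.H884.NA.Small

/-!
# S3509, exceptional row: not alternating modulo the centre (helper884)
-/

set_option autoImplicit false
set_option linter.unusedSectionVars false

namespace Cfsg.Agent.H884.NA

open Equiv Equiv.Perm

section sl

variable {F : Type*} [Field F]

/-- the second centre of `SL₂(F)` -/
theorem center_of_comm {g : Matrix.SpecialLinearGroup (Fin 2) F}
    (h : ∀ x : Matrix.SpecialLinearGroup (Fin 2) F,
      g * x * g⁻¹ * x⁻¹ ∈ Subgroup.center (Matrix.SpecialLinearGroup (Fin 2) F)) :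
    g ∈ Subgroup.center (Matrix.SpecialLinearGroup (Fin 2) F) := by
  have key : ∀ x : Matrix.SpecialLinearGroup (Fin 2) F, (x : Matrix (Fin 2) (Fin 2) F).trace = 2 →
      (g : Matrix (Fin 2) (Fin 2) F) * x = x * g := by
    intro x hx
    obtain ⟨r, hr, hr2⟩ := center_scalar (h x)
    have h1 : g * x * g⁻¹ = (g * x * g⁻¹ * x⁻¹) * x := by group
    have h2 : ((g * x * g⁻¹ : Matrix.SpecialLinearGroup (Fin 2) F) : Matrix (Fin 2) (Fin 2) F) =
        r • (x : Matrix (Fin 2) (Fin 2) F) := by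
      rw [h1]
      refine (Matrix.SpecialLinearGroup.coe_mul _ _).trans ?_
      rw [hr2, smul_mul_assoc, one_mul]
    have h3 : ((g * x * g⁻¹ : Matrix.SpecialLinearGroup (Fin 2) F) : Matrix (Fin 2) (Fin 2) F).trace = 2 := by
      have e1 : ((g * x * g⁻¹ : Matrix.SpecialLinearGroup (Fin 2) F) : Matrix (Fin 2) (Fin 2) F) =
          (g : Matrix (Fin 2) (Fin 2) F) * ((x : Matrix (Fin 2) (Fin 2) F) *
            ((g⁻¹ : Matrix.SpecialLinearGroup (Fin 2) F) : Matrix (Fin 2) (Fin 2) F)) := by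
        rw [mul_assoc]
        exact (Matrix.SpecialLinearGroup.coe_mul _ _).trans (congrArg _ (Matrix.SpecialLinearGroup.coe_mul _ _))
      rw [e1, Matrix.trace_mul_comm, mul_assoc]
      have e2 : ((g⁻¹ : Matrix.SpecialLinearGroup (Fin 2) F) : Matrix (Fin 2) (Fin 2) F) *
          (g : Matrix (Fin 2) (Fin 2) F) = 1 := by
        refine (Matrix.SpecialLinearGroup.coe_mul _ _).symm.trans ?_
        rw [inv_mul_cancel]
        rfl
      rw [e2, mul_one, hx]
    rw [h2, Matrix.trace_smul, hx, smul_eq_mul] at h3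
    have hr1 : r = 1 := by
      by_cases h20 : (2 : F) = 0
      · have h4 : (r - 1) * (r - 1) = 0 := by linear_combination hr + (1 - r) * h20
        exact sub_eq_zero.1 (mul_self_eq_zero.1 h4)
      · have h4 : (r - 1) * 2 = 0 := by linear_combination h3
        exact sub_eq_zero.1 ((mul_eq_zero.1 h4).resolve_right h20)
    rw [hr1, one_smul] at h2
    have h5 : g * x * g⁻¹ = x := Subtype.ext h2
    have h6 : g * x = x * g := mul_inv_eq_iff_eq_mul.1 h5
    exact (Matrix.SpecialLinearGroup.coe_mul _ _).symm.trans ((congrArg Subtype.val h6).trans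
      (Matrix.SpecialLinearGroup.coe_mul _ _))
  have hu := key ⟨!![1, 1; 0, 1], by simp⟩ (by simp [Matrix.trace_fin_two]; norm_num)
  have hl := key ⟨!![1, 0; 1, 1], by simp⟩ (by simp [Matrix.trace_fin_two]; norm_num)
  change (g : Matrix (Fin 2) (Fin 2) F) * !![1, 1; 0, 1] = !![1, 1; 0, 1] * (g : Matrix (Fin 2) (Fin 2) F) at hu
  change (g : Matrix (Fin 2) (Fin 2) F) * !![1, 0; 1, 1] = !![1, 0; 1, 1] * (g : Matrix (Fin 2) (Fin 2) F) at hl
  have u00 := congrFun (congrFun hu 0) 0
  have u01 := congrFun (congrFun hu 0) 1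
  have l00 := congrFun (congrFun hl 0) 0
  simp [Matrix.mul_apply, Fin.sum_univ_two] at u00 u01 l00
  have e3 : (g : Matrix (Fin 2) (Fin 2) F) 0 0 = (g : Matrix (Fin 2) (Fin 2) F) 1 1 := by
    linear_combination u01
  refine center_of_scalar (r := (g : Matrix (Fin 2) (Fin 2) F) 0 0) ?_
  ext i j
  fin_cases i <;> fin_cases j
  · simp
  · simpa using l00
  · simpa using u00
  · simpa using e3.symm

end sl

/-- pair property with the order of the field only -/
def PairQ (p q : ℕ) {G : Type*} [Group G] (Y : Subgroup G) : Prop :=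
  IsPGroup p Y ∨ ∃ (F : Type) (_ : Field F) (_ : Fintype F), Fintype.card F = q ∧
    ∃ φ : Matrix.SpecialLinearGroup (Fin 2) F →* G, φ.range = Y ∧ φ.ker ≤ Subgroup.center _

section tr

variable {G : Type*} [Group G]

theorem PairQ.toP {p q : ℕ} {Y : Subgroup G} (h : PairQ p q Y) (F : Type) [Field F] [Fintype F]
    (hF : Fintype.card F = q) : PairP p F Y := by
  rcases h with h | ⟨F', _, _, hF', φ, hφ, hk⟩
  · exact Or.inl h
  · right
    have e : F ≃+* F' := FiniteField.ringEquivOfCardEq (hF.trans hF'.symm)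
    let f : Matrix.SpecialLinearGroup (Fin 2) F →* Matrix.SpecialLinearGroup (Fin 2) F' :=
      Matrix.SpecialLinearGroup.map e.toRingHom
    have hf : ∀ g : Matrix.SpecialLinearGroup (Fin 2) F, ∀ i j, (f g).1 i j = e (g.1 i j) := fun g i j => rfl
    refine ⟨φ.comp f, ?_, ?_⟩
    · rw [← hφ]
      apply le_antisymm
      · rintro _ ⟨g, rfl⟩
        exact ⟨f g, rfl⟩
      · rintro _ ⟨g, rfl⟩
        refine ⟨Matrix.SpecialLinearGroup.map e.symm.toRingHom g, ?_⟩
        change φ (f _) = φ g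
        congr 1
        apply Subtype.ext
        ext i j
        rw [hf]
        exact e.apply_symm_apply _
    · intro g hg
      have h1 : f g ∈ φ.ker := hg
      obtain ⟨r, -, hr⟩ := center_scalar (hk h1)
      apply center_of_scalar (r := e.symm r)
      ext i j
      apply e.injective
      have h2 : e ((g : Matrix (Fin 2) (Fin 2) F) i j) = (f g).1 i j := (hf g i j).symm
      have h3 : (f g).1 i j = (r • (1 : Matrix (Fin 2) (Fin 2) F')) i j := congrFun (congrFun hr i) j
      rw [h2, h3, Matrix.smul_apply, Matrix.smul_apply, smul_eq_mul, smul_eq_mul, map_mul, e.apply_symm_apply]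
      by_cases hij : i = j
      · subst hij; rw [Matrix.one_apply_eq, Matrix.one_apply_eq, map_one]
      · rw [Matrix.one_apply_ne hij, Matrix.one_apply_ne hij, map_zero]

/-- image of the pair under a homomorphism with central kernel -/
theorem PairQ.map {p q : ℕ} {Y : Subgroup G} (h : PairQ p q Y) {H : Type*} [Group H] (ψ : G →* H)
    (hψ : ψ.ker ≤ Subgroup.center G) : PairQ p q (Y.map ψ) := by
  rcases h with h | ⟨F', _, _, hF', φ, hφ, hk⟩
  · exact Or.inl (h.map ψ)
  · refine Or.inr ⟨F', _, _, hF', ψ.comp φ, ?_, ?_⟩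
    · rw [← hφ, MonoidHom.range_comp]
    · intro g hg
      apply center_of_comm
      intro x
      apply hk
      have h1 : φ g ∈ Subgroup.center G := hψ hg
      have h2 : φ x * φ g = φ g * φ x := Subgroup.mem_center_iff.1 h1 (φ x)
      rw [MonoidHom.mem_ker, map_mul, map_mul, map_mul, map_inv, map_inv, ← h2, mul_inv_cancel_right, mul_inv_cancel]

end tr

/-- **F6**, modulo a central subgroup -/
theorem not_alt_quot {p m q : ℕ} [Fact p.Prime] (hm : 5 ≤ m) (hex : ¬ ExcAlt q m) {M : Type*} [Group M]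
    {Q : Type*} [Group Q] (e : Q ≃* alternatingGroup (Fin m)) (π : M →* Q) (hπ : Function.Surjective π)
    (hker : π.ker ≤ Subgroup.center M) (X : Subgroup M) (hXk : ∀ x ∈ X, π x = 1 → x = 1) (hc : Nat.card X = q)
    (hX1 : X ≠ ⊥) (hab : ∀ x ∈ X, ∀ y ∈ X, x * y = y * x) (hp : ∀ x ∈ X, x ^ p = 1)
    (hpair : ∀ t : M, PairQ p q (X ⊔ X.map (MulAut.conj t).toMonoidHom)) : False := by
  classical
  have hpp : p.Prime := Fact.out
  let ψ : M →* Perm (Fin m) := (alternatingGroup (Fin m)).subtype.comp (e.toMonoidHom.comp π)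
  have hψ : ∀ x, ψ x = ((e (π x) : alternatingGroup (Fin m)) : Perm (Fin m)) := fun _ => rfl
  have hψ1 : ∀ x, ψ x = 1 → π x = 1 := by
    intro x hx
    rw [hψ] at hx
    have h1 : e (π x) = 1 := Subtype.ext hx
    exact (map_eq_one_iff e e.injective).1 h1
  have hψk : ψ.ker ≤ Subgroup.center M := fun x hx => hker (hψ1 x hx)
  have hψA : ∀ x, ψ x ∈ alternatingGroup (Fin m) := fun x => (e (π x)).2
  have hψs : ∀ t ∈ alternatingGroup (Fin m), ∃ t₀, ψ t₀ = t := by
    intro t ht
    obtain ⟨t₀, ht₀⟩ := hπ (e.symm ⟨t, ht⟩)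
    refine ⟨t₀, ?_⟩
    rw [hψ, ht₀, MulEquiv.apply_symm_apply]
  let X' : Subgroup (Perm (Fin m)) := X.map ψ
  have hinj : Set.InjOn ψ (X : Set M) := by
    intro x hx y hy hxy
    have h1 : ψ (x * y⁻¹) = 1 := by rw [map_mul, hxy, map_inv, mul_inv_cancel]
    have h2 := hXk _ (mul_mem hx (inv_mem hy)) (hψ1 _ h1)
    exact mul_inv_eq_one.1 h2
  have hcX' : Nat.card X' = q := by
    rw [← hc]
    change Set.ncard (ψ '' (X : Set M)) = _
    rw [hinj.ncard_image]
    rfl
  have hX'p : IsPGroup p X' := by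
    rintro ⟨_, x, hx, rfl⟩
    refine ⟨1, ?_⟩
    apply Subtype.ext
    change (ψ x) ^ p ^ 1 = 1
    rw [pow_one, ← map_pow, hp x hx, map_one]
  obtain ⟨n, hn⟩ := IsPGroup.iff_card.1 hX'p
  have hn0 : n ≠ 0 := by
    rintro rfl
    apply hX1
    rw [pow_zero, hcX', ← hc] at hn
    exact (Subgroup.card_eq_one (H := X)).1 hn
  have : Fintype (GaloisField p n) := Fintype.ofFinite _
  have hF : Fintype.card (GaloisField p n) = q := by
    rw [← Nat.card_eq_fintype_card, GaloisField.card p n hn0, ← hn, hcX']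
  refine not_alt_all (α := Fin m) (p := p) (F := GaloisField p n) (by rw [Fintype.card_fin]; exact hm)
    (by rw [hF, Fintype.card_fin]; exact hex) X' ?_ (by rw [hF, hcX']) ?_ ?_ ?_
  · rintro _ ⟨x, hx, rfl⟩
    exact hψA x
  · rintro _ ⟨x, hx, rfl⟩ _ ⟨y, hy, rfl⟩
    rw [← map_mul, ← map_mul, hab x hx y hy]
  · rintro _ ⟨x, hx, rfl⟩
    rw [← map_pow, hp x hx, map_one]
  · intro t ht
    obtain ⟨t₀, rfl⟩ := hψs t ht
    have h1 := ((hpair t₀).map ψ hψk).toP (GaloisField p n) hF
    have h2 : (X ⊔ X.map (MulAut.conj t₀).toMonoidHom).map ψ = YY X' (ψ t₀) := by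
      have h3 : ψ.comp (MulAut.conj t₀).toMonoidHom = (MulAut.conj (ψ t₀)).toMonoidHom.comp ψ := by
        refine MonoidHom.ext fun x => ?_
        change ψ (t₀ * x * t₀⁻¹) = ψ t₀ * ψ x * (ψ t₀)⁻¹
        rw [map_mul, map_mul, map_inv]
      rw [Subgroup.map_sup, Subgroup.map_map, YY, Subgroup.map_map, h3]
    rwa [h2] at h1

/-- **F6** for a subgroup `M` of a group `G` -/
theorem not_alt_sub {p m q : ℕ} [Fact p.Prime] (hm : 5 ≤ m) (hex : ¬ ExcAlt q m) {G : Type*} [Group G]
    (M : Subgroup G) {Q : Type*} [Group Q] (e : Q ≃* alternatingGroup (Fin m)) (π : M →* Q)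
    (hπ : Function.Surjective π) (hker : π.ker ≤ Subgroup.center M) (X : Subgroup G) (hXM : X ≤ M)
    (hXk : ∀ x : M, (x : G) ∈ X → π x = 1 → x = 1) (hc : Nat.card X = q)
    (hX1 : X ≠ ⊥) (hab : ∀ x ∈ X, ∀ y ∈ X, x * y = y * x) (hp : ∀ x ∈ X, x ^ p = 1)
    (hpair : ∀ t ∈ M, PairQ p q (X ⊔ X.map (MulAut.conj t).toMonoidHom)) : False := by
  have hmap : (X.subgroupOf M).map M.subtype = X := by
    rw [Subgroup.subgroupOf_map_subtype, inf_eq_left]
    exact hXM
  refine not_alt_quot (p := p) (q := q) hm hex e π hπ hker (X.subgroupOf M) (fun x hx h => hXk x hx h) ?_ ?_ ?_ ?_ ?_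
  · rw [← hc]
    exact Nat.card_congr (Subgroup.subgroupOfEquivOfLe hXM).toEquiv
  · intro h
    apply hX1
    rw [← hmap, h, Subgroup.map_bot]
  · intro x hx y hy
    exact Subtype.ext (hab x hx y hy)
  · intro x hx
    exact Subtype.ext (hp x hx)
  · intro t
    have h1 := hpair t t.2
    have h2 : (X.subgroupOf M ⊔ (X.subgroupOf M).map (MulAut.conj t).toMonoidHom).map M.subtype =
        X ⊔ X.map (MulAut.conj (t : G)).toMonoidHom := by
      rw [Subgroup.map_sup, hmap, Subgroup.map_map]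
      conv_rhs => rw [← hmap, Subgroup.map_map]
      rw [hmap]
      rfl
    rw [← h2] at h1
    rcases h1 with h1 | ⟨F, _, _, hF, φ, hφ, hk⟩
    · left
      exact h1.of_equiv (Subgroup.equivMapOfInjective _ M.subtype M.subtype_injective).symm
    · right
      have hφM : ∀ g, φ g ∈ M := by
        intro g
        have h3 : φ g ∈ φ.range := ⟨g, rfl⟩
        rw [hφ] at h3
        obtain ⟨y, -, hy⟩ := h3
        rw [← hy]
        exact y.2
      refine ⟨F, _, _, hF, φ.codRestrict M hφM, ?_, ?_⟩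
      · apply Subgroup.map_injective M.subtype_injective
        rw [← hφ, ← MonoidHom.range_comp]
        rfl
      · intro g hg
        apply hk
        rw [MonoidHom.mem_ker] at hg ⊢
        exact congrArg Subtype.val hg

end Cfsg.Agent.H884.NA
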