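import Cfsg.Agent.H884.NA.Img
import Cfsg.Agent.H398.RG.Base
import Cfsg.Agent.H873.RG.Defs

/-!
# S3509, exceptional row: the component is not alternating (helper884)

* `base_center` : `O_p(K) = 1` ⟹ `p`-elements of the centre of `M = ⟨X^K⟩` are trivial;
* `not_alt_base` : `M / Z(M)` is not `A_n`, outside the exceptional pairs `(q, n)`;
* `nsa_base` : `M / Z(M)` is nonabelian simple and not alternating.
-/

set_option autoImplicit false
set_option linter.unusedSectionVars false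

namespace Cfsg.Agent.H884.NA

open Cfsg Cfsg.Agent.Lib.Cores Cfsg.Agent.H398.RG Cfsg.Agent.H873.RG
open Cfsg.Agent.ChevalleyStructure.SL2Hom (up lo)

variable {G : Type*} [Group G] {p : ℕ} [Fact p.Prime] {K X Y P Q T : Subgroup G}

/-- `p`-elements of the centre of `M` -/
theorem base_center (hXK : X ≤ K) (hcore : pCore p ↥K = ⊥) {z : G} (hz : z ∈ MK K X)
    (hzc : ∀ m ∈ MK K X, m * z = z * m) {k : ℕ} (hzp : z ^ p ^ k = 1) : z = 1 := by
  let Z : Subgroup K :=
    { carrier := {w | (w : G) ∈ MK K X ∧ (∀ m ∈ MK K X, m * w = w * m) ∧ ∃ k, w ^ p ^ k = 1}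
      one_mem' := ⟨one_mem _, fun m _ => by rw [OneMemClass.coe_one, mul_one, one_mul], 0, one_pow _⟩
      mul_mem' := by
        rintro a b ⟨ha1, ha2, i, ha⟩ ⟨hb1, hb2, j, hb⟩
        refine ⟨mul_mem ha1 hb1, fun m hm => ?_, i + j, ?_⟩
        · rw [Subgroup.coe_mul, ← mul_assoc, ha2 m hm, mul_assoc, hb2 m hm, mul_assoc]
        · have hc : Commute a b := Subtype.ext (ha2 b hb1).symm
          rw [hc.mul_pow, pow_add, pow_mul, ha, one_pow, one_mul, mul_comm, pow_mul, hb, one_pow]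
      inv_mem' := by
        rintro a ⟨ha1, ha2, i, ha⟩
        refine ⟨inv_mem ha1, fun m hm => ?_, i, by rw [inv_pow, ha, inv_one]⟩
        have h1 := ha2 m hm
        rw [Subgroup.coe_inv]
        calc m * (a : G)⁻¹ = (a : G)⁻¹ * ((a : G) * m) * (a : G)⁻¹ := by group
          _ = (a : G)⁻¹ * m := by rw [← h1]; group }
  have hZn : Z.Normal := by
    refine ⟨?_⟩
    rintro w ⟨h1, h2, i, h3⟩ g
    refine ⟨conj_MK g.2 h1, fun m hm => ?_, i, ?_⟩
    · have h4 := conj_MK (K.inv_mem g.2) hm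
      rw [inv_inv] at h4
      have h5 := h2 _ h4
      change m * ((g : G) * w * (g : G)⁻¹) = (g : G) * w * (g : G)⁻¹ * m
      calc m * ((g : G) * w * (g : G)⁻¹) = (g : G) * (((g : G)⁻¹ * m * g) * w) * (g : G)⁻¹ := by group
        _ = (g : G) * w * (g : G)⁻¹ * m := by rw [h5]; group
    · rw [← MulAut.conj_apply, ← map_pow, h3, map_one]
  have hZp : IsPGroup p Z := by
    rintro ⟨w, h1, h2, i, h3⟩
    exact ⟨i, Subtype.ext h3⟩
  have h1 := le_pCore hZn hZp
  rw [hcore] at h1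
  have hzK : z ∈ K := MK_le_self hXK hz
  have h2 : (⟨z, hzK⟩ : K) ∈ Z := ⟨hz, hzc, k, Subtype.ext hzp⟩
  exact congrArg Subtype.val (Subgroup.mem_bot.1 (h1 h2))

/-- the hypothesis on the base pair: image of `SL₂(q)` -/
def ImgH (q : ℕ) (X X' : Subgroup G) : Prop :=
  ∃ (F : Type) (_ : Field F) (_ : Fintype F) (φ : Matrix.SpecialLinearGroup (Fin 2) F →* G), Fintype.card F = q ∧
    (∀ y, y ∈ X ↔ ∃ t, φ (up t) = y) ∧ (∀ y, y ∈ X' ↔ ∃ t, φ (lo t) = y) ∧ (∀ t, φ (up t) = 1 → t = 0)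

theorem up_add {F : Type*} [Field F] (s t : F) : up (s + t) = up s * up t := by
  apply Subtype.ext
  change _ = (up s).1 * (up t).1
  ext i j
  fin_cases i <;> fin_cases j <;> simp [up, Matrix.mul_apply, Fin.sum_univ_two, add_comm]

theorem up_zero' {F : Type*} [Field F] : up (0 : F) = 1 := by
  apply Subtype.ext
  ext i j
  fin_cases i <;> fin_cases j <;> simp [up]

theorem up_pow {F : Type*} [Field F] (t : F) (n : ℕ) : up t ^ n = up (n * t) := by
  induction n with
  | zero => rw [pow_zero, Nat.cast_zero, zero_mul, up_zero']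
  | succ n ih => rw [pow_succ, ih, ← up_add, Nat.cast_succ, add_mul, one_mul]

theorem up_inv' {F : Type*} [Field F] (t : F) : (up t)⁻¹ = up (-t) :=
  inv_eq_of_mul_eq_one_right (by rw [← up_add, add_neg_cancel, up_zero'])

/-- properties of `X` -/
theorem imgH_props {q e : ℕ} (hq : q = p ^ e) {X X' : Subgroup G} (h : ImgH q X X') :
    Nat.card X = q ∧ (∀ x ∈ X, ∀ y ∈ X, x * y = y * x) ∧ ∀ x ∈ X, x ^ p = 1 := by
  obtain ⟨F, _, _, φ, hF, h1, h2, h3⟩ := h
  refine ⟨?_, ?_, ?_⟩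
  · have hb : Function.Bijective fun t : F => (⟨φ (up t), (h1 _).2 ⟨t, rfl⟩⟩ : X) := by
      constructor
      · intro s t hst
        have h4 : φ (up s) = φ (up t) := congrArg Subtype.val hst
        have h5 : φ (up (s + -t)) = 1 := by
          rw [up_add, map_mul, ← up_inv', map_inv, h4, mul_inv_cancel]
        have h6 := h3 _ h5
        linear_combination h6
      · rintro ⟨y, hy⟩
        obtain ⟨t, ht⟩ := (h1 y).1 hy
        exact ⟨t, Subtype.ext ht⟩
    rw [← Nat.card_congr (Equiv.ofBijective _ hb), Nat.card_eq_fintype_card, hF]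
  · intro x hx y hy
    obtain ⟨s, rfl⟩ := (h1 x).1 hx
    obtain ⟨t, rfl⟩ := (h1 y).1 hy
    rw [← map_mul, ← map_mul, ← up_add, ← up_add, add_comm]
  · intro x hx
    obtain ⟨s, rfl⟩ := (h1 x).1 hx
    rw [← map_pow, up_pow]
    have h4 : (p : F) = 0 := by
      have h5 : (Fintype.card F : F) = 0 := FiniteField.cast_card_eq_zero F
      rw [hF, hq, Nat.cast_pow] at h5
      refine (pow_eq_zero_iff (n := e) ?_).1 h5
      rintro rfl
      rw [pow_zero] at h5
      exact one_ne_zero h5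
    rw [h4, zero_mul, up_zero', map_one]

/-- **F6** for the component of a base pair -/
theorem not_alt_base (h : Base p K X Y P Q T) {q e n : ℕ} (hq : q = p ^ e) (hI : ImgH q X Y)
    (hn : 5 ≤ n) (hex : ¬ ExcAlt q n) {S : Type*} [Group S] (π : MK K X →* S) (hπ : Function.Surjective π)
    (hker : π.ker ≤ Subgroup.center (MK K X)) (f : S ≃* alternatingGroup (Fin n)) : False := by
  obtain ⟨h1, h2, h3⟩ := imgH_props hq hI
  refine not_alt_sub (p := p) (q := q) hn hex (MK K X) f π hπ hker X (le_MK K X) ?_ h1 h.ne h2 h3 ?_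
  · intro x hx hx1
    have h4 := Subgroup.mem_center_iff.1 (hker hx1)
    apply Subtype.ext
    refine base_center h.leX h.core x.2 (fun m hm => congrArg Subtype.val (h4 ⟨m, hm⟩)) (k := 1) ?_
    rw [pow_one]
    exact h3 x hx
  · intro t ht
    rcases h.pair t (MK_le_self h.leX ht) with h4 | ⟨u, hu, h5, h6⟩
    · exact Or.inl h4
    · have h7 : X ⊔ X.map (MulAut.conj t).toMonoidHom = (X ⊔ Y).map (MulAut.conj u⁻¹).toMonoidHom := by
        change X ⊔ cj t X = cj u⁻¹ (X ⊔ Y)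
        rw [cj_sup, ← h6]
        have h8 : ∀ Z : Subgroup G, cj u⁻¹ (cj u Z) = Z := by
          intro Z
          ext y
          rw [mem_cj, mem_cj]
          have h9 : u⁻¹ * (u⁻¹⁻¹ * y * u⁻¹) * u = y := by group
          rw [h9]
        rw [h8]
        conv_rhs => rw [← h5, h8]
        rw [h5]
      rw [h7]
      exact (pairQ_of_hom Fact.out hq hI).conj u⁻¹

/-- the order of a `p`-subgroup divides the order of the simple quotient -/
theorem card_dvd_quot [Finite K] (hXK : X ≤ K) (hcore : pCore p ↥K = ⊥) {S : Type*} [Group S] (π : MK K X →* S)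
    (hker : π.ker ≤ Subgroup.center (MK K X)) {R : Subgroup G} (hR : R ≤ MK K X)
    (hRp : IsPGroup p R) : Nat.card R ∣ Nat.card S := by
  let ρ : R →* S := π.comp (Subgroup.inclusion hR)
  have hρ : Function.Injective ρ := by
    rw [injective_iff_map_eq_one]
    intro x hx
    have h4 := Subgroup.mem_center_iff.1 (hker (show π (Subgroup.inclusion hR x) = 1 from hx))
    obtain ⟨k, hk⟩ := hRp x
    apply Subtype.ext
    exact base_center hXK hcore (hR x.2) (fun m hm => congrArg Subtype.val (h4 ⟨m, hm⟩)) (k := k)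
      (congrArg Subtype.val hk)
  have h1 := Subgroup.card_subgroup_dvd_card ρ.range
  rwa [Nat.card_congr (MonoidHom.ofInjective hρ).toEquiv]

theorem pow_cases {k q n : ℕ} {p : ℕ} (hp : p.Prime) {e : ℕ} (hq : q = p ^ e) (hex : ExcAlt q n)
    (hd : p ^ k ∣ Nat.factorial n / 2) : p ^ k ≤ q ∨ (q = 2 ∧ p ^ k ≤ 64) := by
  have key : ∀ c : ℕ, c.Prime → ∀ j, q = c ^ j → j ≠ 0 → p = c := by
    intro c hc j hj hj0
    have h1 : c ∣ p ^ e := by rw [← hq, hj]; exact dvd_pow_self c hj0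
    exact ((Nat.prime_dvd_prime_iff_eq hc hp).1 (hc.dvd_of_dvd_pow h1)).symm
  have key2 : ∀ c a : ℕ, p = c → ¬ c ^ (a + 1) ∣ Nat.factorial n / 2 → 2 ≤ c → p ^ k ≤ c ^ a := by
    intro c a hc h hc2
    subst hc
    apply Nat.pow_le_pow_right (by omega)
    by_contra h1
    exact h ((pow_dvd_pow p (by omega)).trans hd)
  rcases hex with ⟨h1, h2⟩ | ⟨h1, h2⟩ | ⟨h1, h2⟩ | ⟨h1, h2⟩
  · left
    have hp2 := key 2 Nat.prime_two 2 (by rw [h1]; norm_num) (by norm_num)
    refine (key2 2 2 hp2 ?_ le_rfl).trans (by rw [h1]; norm_num)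
    rw [h2]; decide
  · left
    have hp2 := key 5 Nat.prime_five 1 (by rw [h1]; norm_num) (by norm_num)
    refine (key2 5 1 hp2 ?_ (by norm_num)).trans (by rw [h1]; norm_num)
    rw [h2]; decide
  · left
    have hp2 := key 3 Nat.prime_three 2 (by rw [h1]; norm_num) (by norm_num)
    refine (key2 3 2 hp2 ?_ (by norm_num)).trans (by rw [h1]; norm_num)
    rw [h2]; decide
  · right
    have hp2 := key 2 Nat.prime_two 1 (by rw [h1]; norm_num) (by norm_num)
    refine ⟨h1, (key2 2 6 hp2 ?_ (by norm_num)).trans (by norm_num)⟩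
    rw [h2]
    norm_num [Nat.factorial]

/-- `M / Z(M)` is not an alternating group -/
theorem not_alt_base' [Finite K] (h : Base p K X Y P Q T) {q e n : ℕ} (hq : q = p ^ e) (hI : ImgH q X Y)
    (hex : (q ≠ 2 ∧ q ≠ 4 ∧ q ≠ 5 ∧ q ≠ 9) ∨
      ∃ R ≤ MK K X, IsPGroup p R ∧ q < Nat.card R ∧ (q = 2 → 64 < Nat.card R))
    (hn : 5 ≤ n) {S : Type*} [Group S] (π : MK K X →* S) (hπ : Function.Surjective π)
    (hker : π.ker ≤ Subgroup.center (MK K X)) (f : S ≃* alternatingGroup (Fin n)) : False := by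
  by_cases hE : ExcAlt q n
  · rcases hex with ⟨h1, h2, h3, h4⟩ | ⟨R, hR, hRp, h1, h2⟩
    · rcases hE with h | h | h | h
      · exact h2 h.1
      · exact h3 h.1
      · exact h4 h.1
      · exact h1 h.1
    · have hd := card_dvd_quot h.leX h.core π hker hR hRp
      have hnt : Nontrivial (Fin n) := by
        obtain ⟨k, rfl⟩ : ∃ k, n = k + 2 := ⟨n - 2, by omega⟩
        infer_instance
      rw [Nat.card_congr f.toEquiv, nat_card_alternatingGroup, Nat.card_fin] at hd
      have : Finite R := Set.Finite.subset (Set.toFinite (K : Set G)) (hR.trans (MK_le_self h.leX))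
      obtain ⟨k, hk⟩ := IsPGroup.iff_card.1 hRp
      rw [hk] at hd h1 h2
      rcases pow_cases Fact.out hq hE hd with h5 | ⟨h5, h6⟩
      · omega
      · have := h2 h5
        omega
  · exact not_alt_base h hq hI hn hE π hπ hker f

/-- **F6** for Box U -/
theorem nsa_base [Finite K] (h : Base p K X Y P Q T) (hc : Cond K X Y) {q e : ℕ} (hq : q = p ^ e) (hI : ImgH q X Y)
    (hex : (q ≠ 2 ∧ q ≠ 4 ∧ q ≠ 5 ∧ q ≠ 9) ∨
      ∃ R ≤ MK K X, IsPGroup p R ∧ q < Nat.card R ∧ (q = 2 → 64 < Nat.card R)) :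
    NSA (MK K X ⧸ Subgroup.center (MK K X)) := by
  obtain ⟨-, -, -, -, -, h1, h2⟩ := h.all hc
  refine ⟨h1, h2, ?_⟩
  rintro ⟨n, hn, ⟨f⟩⟩
  exact not_alt_base' h hq hI hex hn (QuotientGroup.mk' _) (QuotientGroup.mk'_surjective _)
    (by rw [QuotientGroup.ker_mk']) f

end Cfsg.Agent.H884.NA
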