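import Cfsg.Agent.H884.NA.Kill

/-!
# S3509, exceptional row: cases by the prime (helper884)
-/

set_option autoImplicit false
set_option linter.unusedSectionVars false
set_option maxRecDepth 100000

namespace Cfsg.Agent.H884.NA

open Equiv Equiv.Perm

variable {α : Type*} [Fintype α] [DecidableEq α] {F : Type*} [Field F]

theorem support_two {x : Perm α} (hA : x ∈ alternatingGroup α) (hx2 : x ^ 2 = 1) (hx1 : x ≠ 1) :
    4 ∣ x.support.card ∧ 0 < x.support.card := by
  have ho : orderOf x = 2 := orderOf_eq_prime hx2 hx1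
  obtain ⟨n, hn⟩ := cycleType_prime_order (σ := x) (by rw [ho]; exact Nat.prime_two)
  have hs : x.support.card = (n + 1) * 2 := by
    rw [← sum_cycleType, hn, Multiset.sum_replicate, ho]; rfl
  have hsg : sign x = (-1) ^ ((n + 1) * 2 + (n + 1)) := by
    rw [sign_of_cycleType, hn, Multiset.sum_replicate, Multiset.card_replicate, ho]; rfl
  rw [mem_alternatingGroup.1 hA] at hsg
  have hev : Even (n + 1) := by
    by_contra hodd
    rw [Nat.not_even_iff_odd] at hodd
    have h1 : Odd ((n + 1) * 2 + (n + 1)) := by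
      obtain ⟨k, hk⟩ := hodd
      exact ⟨(n + 1) + k, by omega⟩
    rw [h1.neg_one_pow] at hsg
    exact absurd hsg (by decide)
  obtain ⟨k, hk⟩ := hev
  refine ⟨⟨k, by omega⟩, by omega⟩

theorem case_two [CharP F 2] (hm : 7 ≤ Fintype.card α) {X : Subgroup (Perm α)} (hA : X ≤ alternatingGroup α)
    (hpair : ∀ t ∈ alternatingGroup α, PairP 2 F (YY X t)) {x : Perm α} (hx : x ∈ X) (hx2 : x ^ 2 = 1) (hx1 : x ≠ 1)
    (hne : ¬ (x.support.card = 8 ∧ Fintype.card α = 8)) : False := by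
  have : Fact (Nat.Prime 2) := ⟨Nat.prime_two⟩
  obtain ⟨h4, h0⟩ := support_two (hA hx) hx2 hx1
  have hle : x.support.card ≤ Fintype.card α := Finset.card_le_univ _
  by_cases h3 : 3 + x.support.card ≤ Fintype.card α
  · obtain ⟨ι, hι⟩ := exists_emb (n := 1) Nat.prime_two hx2 2 3 (by omega) h3
    exact kill_cfg hpair hx hι c2a s2a 3 (by norm_num) a2a b2a d2a
  · by_cases h1 : 1 + x.support.card ≤ Fintype.card α
    · obtain ⟨ι, hι⟩ := exists_emb (n := 1) Nat.prime_two hx2 3 1 (by omega) h1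
      exact kill_cfg hpair hx hι c2b s2b 3 (by norm_num) a2b b2b d2b
    · obtain ⟨ι, hι⟩ := exists_emb (n := 1) Nat.prime_two hx2 5 0 (by omega) (by omega)
      exact kill_cfg hpair hx hι c2c s2c 3 (by norm_num) a2c b2c d2c

theorem case_three [CharP F 3] (hm : 7 ≤ Fintype.card α) {X : Subgroup (Perm α)}
    (hpair : ∀ t ∈ alternatingGroup α, PairP 3 F (YY X t)) {x : Perm α} (hx : x ∈ X) (hx3 : x ^ 3 = 1)
    (hs : 3 < x.support.card) : False := by
  have : Fact (Nat.Prime 3) := ⟨Nat.prime_three⟩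
  have hle : x.support.card ≤ Fintype.card α := Finset.card_le_univ _
  by_cases h1 : 1 + x.support.card ≤ Fintype.card α
  · obtain ⟨ι, hι⟩ := exists_emb (n := 2) Nat.prime_three hx3 2 1 (by omega) h1
    exact kill_cfg hpair hx hι c3a s3a 2 (by norm_num) a3a b3a d3a
  · obtain ⟨ι, hι⟩ := exists_emb (n := 2) Nat.prime_three hx3 3 0 (by omega) (by omega)
    exact kill_cfg hpair hx hι c3b s3b 2 (by norm_num) a3b b3b d3b

theorem pow_ι {I : Type*} {ι : I ↪ α} {x : Perm α} {x₀ : Perm I} (h : ∀ i, x (ι i) = ι (x₀ i)) (j : ℕ) :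
    ∀ i, (x ^ j) (ι i) = ι ((x₀ ^ j) i) := by
  induction j with
  | zero => intro i; rfl
  | succ j ih =>
    intro i
    rw [pow_succ', mul_apply, ih, h, pow_succ', mul_apply]

theorem case_five [CharP F 5] (hm : 7 ≤ Fintype.card α) {X : Subgroup (Perm α)}
    (hpair : ∀ t ∈ alternatingGroup α, PairP 5 F (YY X t)) {x : Perm α} (hx : x ∈ X) (hx5 : x ^ 5 = 1)
    (hx1 : x ≠ 1) : False := by
  have : Fact (Nat.Prime 5) := ⟨Nat.prime_five⟩
  have hle : x.support.card ≤ Fintype.card α := Finset.card_le_univ _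
  have h0 : 0 < x.support.card := Finset.card_pos.2 (by
    rw [Finset.nonempty_iff_ne_empty]
    exact fun h => hx1 (support_eq_empty_iff.1 h))
  by_cases h5 : 5 < x.support.card
  · obtain ⟨ι, hι⟩ := exists_emb (n := 4) Nat.prime_five hx5 2 0 (by omega) (by omega)
    exact kill_cfg hpair hx hι c5a s5a 3 (by norm_num) a5a b5a d5a
  · obtain ⟨ι, hι⟩ := exists_emb (n := 4) Nat.prime_five hx5 1 2 (by omega) (by omega)
    have hY := hpair (V ι c5b)⁻¹ (inv_mem (V_mem ι s5b))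
    have hxY : x ∈ YY X (V ι c5b)⁻¹ := mem_YY_left hx
    have hg : ∀ j, V ι (g5 j) ∈ YY X (V ι c5b)⁻¹ := by
      intro j
      rw [← V_conj (pow_ι hι j), ← V_comm hι]
      exact mul_mem (mul_mem (pow_mem hxY j) (mul_mem (mem_YY_right hx) (inv_mem hxY))) (inv_mem (pow_mem hxY j))
    have h1 : V ι (g5 0 * g5 0 * g5 2) ∈ YY X (V ι c5b)⁻¹ := by
      have h := mul_mem (mul_mem (hg 0) (hg 0)) (hg 2)
      rw [← map_mul (V ι) (g5 0), ← map_mul (V ι) (g5 0 * g5 0)] at h
      exact h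
    have h2 : V ι (g5 1 * g5 4 * g5 4) ∈ YY X (V ι c5b)⁻¹ := by
      have h := mul_mem (mul_mem (hg 1) (hg 4)) (hg 4)
      rw [← map_mul (V ι) (g5 1), ← map_mul (V ι) (g5 1 * g5 4)] at h
      exact h
    rcases forb33 hY (by norm_num) h1 h2 (by rw [← map_pow, a5b, map_one]) (by rw [← map_pow, b5b, map_one])
      (by rw [← map_mul, ← map_mul, d5b]) (fun h => a5b' (V_inj ι (h.trans (map_one _).symm)))
      (fun h => b5b' (V_inj ι (h.trans (map_one _).symm))) with h3 | h3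
    · exact e5b (V_inj ι h3)
    · rw [← map_mul] at h3
      exact f5b (V_inj ι h3)

/-! ### large primes -/

theorem V_swap {I : Type*} [Fintype I] [DecidableEq I] (ι : I ↪ α) (i j : I) : V ι (swap i j) = swap (ι i) (ι j) := by
  ext a
  by_cases ha : a ∈ Set.range ι
  · obtain ⟨k, rfl⟩ := ha
    rw [V_apply, swap_apply_def, swap_apply_def]
    by_cases h1 : k = i
    · subst h1; simp
    · rw [if_neg h1, if_neg (fun h => h1 (ι.injective h))]
      by_cases h2 : k = j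
      · subst h2; simp
      · rw [if_neg h2, if_neg (fun h => h2 (ι.injective h))]
  · rw [V_not ι _ ha, swap_apply_of_ne_of_ne]
    · rintro rfl; exact ha ⟨i, rfl⟩
    · rintro rfl; exact ha ⟨j, rfl⟩

/-- words for large primes -/
abbrev Z7 (a b c d : Fin 7) : Perm (Fin 7) := (swap a b * swap b c)⁻¹ * (swap b c * swap c d)

abbrev v7 : Perm (Fin 7) := Z7 0 1 2 3 * Z7 1 2 3 4 * (Z7 0 1 2 3)⁻¹

abbrev u7 : Perm (Fin 7) := Z7 2 3 4 5 * Z7 3 4 5 6 * (Z7 2 3 4 5)⁻¹

theorem v7a : v7 ^ 3 = 1 := by decide +kernel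
theorem u7a : u7 ^ 3 = 1 := by decide +kernel
theorem v7b : v7 ≠ 1 := by decide +kernel
theorem u7b : u7 ≠ 1 := by decide +kernel
theorem vu7 : v7 * u7 = u7 * v7 := by decide +kernel
theorem vu7a : u7 ≠ v7 := by decide +kernel
theorem vu7b : u7 ≠ v7 * v7 := by decide +kernel

theorem case_seven {p : ℕ} [Fact p.Prime] [CharP F p] (h7 : 7 ≤ p) {X : Subgroup (Perm α)}
    (hpair : ∀ t ∈ alternatingGroup α, PairP p F (YY X t)) {x : Perm α} (hx : x ∈ X) (hxp : x ^ p = 1)
    (hx1 : x ≠ 1) : False := by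
  have hp : p.Prime := Fact.out
  obtain ⟨a, ha⟩ : ∃ a, x a ≠ a := by
    by_contra h
    push Not at h
    exact hx1 (Equiv.ext h)
  obtain ⟨n, rfl⟩ : ∃ n, p = n + 1 := ⟨p - 1, by omega⟩
  let ι : Fin 7 ↪ α := ⟨fun i => (x ^ (i : ℕ)) a, by
    intro i j hij
    change (x ^ (i : ℕ)) a = (x ^ (j : ℕ)) a at hij
    apply Fin.ext
    by_contra hne
    apply ha
    apply fix_of_zpow hp hxp (k := (i : ℤ) - j)
    · intro hd
      have h3 := i.isLt
      have h4 := j.isLt
      have h5 : (i : ℤ) - j = 0 := by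
        apply Int.eq_zero_of_abs_lt_dvd hd
        rw [abs_lt]
        constructor <;> (push_cast; omega)
      omega
    · rw [sub_eq_neg_add, zpow_add, mul_apply, zpow_natCast, hij, zpow_neg, zpow_natCast]
      exact (x ^ (j : ℕ)).symm_apply_apply _⟩
  let e : ℕ → Perm α := fun k => swap ((x ^ k) a) ((x ^ (k + 1)) a)
  have he : ∀ k, x * e k * x⁻¹ = e (k + 1) := by
    intro k
    change x * swap _ _ * x⁻¹ = swap _ _
    rw [← swap_apply_apply, ← mul_apply, ← mul_apply, ← pow_succ', ← pow_succ']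
  have hVe : ∀ i j : Fin 7, (j : ℕ) = i + 1 → V ι (swap i j) = e i := by
    intro i j hij
    rw [V_swap]
    change swap ((x ^ (i : ℕ)) a) ((x ^ (j : ℕ)) a) = _
    rw [hij]
  let c : Perm α := e 0 * e 1
  have hcA : c ∈ alternatingGroup α := by
    change e 0 * e 1 ∈ _
    have h01 : V ι (swap 0 1) = e 0 := hVe 0 1 rfl
    have h12 : V ι (swap 1 2) = e 1 := hVe 1 2 rfl
    rw [← h01, ← h12, ← map_mul]
    exact V_mem ι (by decide +kernel)
  have hY := hpair c⁻¹ (inv_mem hcA)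
  have hxY : x ∈ YY X c⁻¹ := mem_YY_left hx
  let T : ℕ → Perm α := fun k => (e k * e (k + 1))⁻¹ * (e (k + 1) * e (k + 2))
  have hT : ∀ k, T k ∈ YY X c⁻¹ := by
    intro k
    induction k with
    | zero =>
      have h1 : c⁻¹ * x * c * x⁻¹ ∈ YY X c⁻¹ := mul_mem (mem_YY_right hx) (inv_mem hxY)
      have h2 : c⁻¹ * x * c * x⁻¹ = T 0 := by
        change (e 0 * e 1)⁻¹ * x * (e 0 * e 1) * x⁻¹ = (e 0 * e 1)⁻¹ * (e 1 * e 2)
        rw [← he 0, ← he 1]
        rw [← he 0]
        group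
      rwa [h2] at h1
    | succ k ih =>
      have h1 : x * T k * x⁻¹ ∈ YY X c⁻¹ := mul_mem (mul_mem hxY ih) (inv_mem hxY)
      have h2 : x * T k * x⁻¹ = T (k + 1) := by
        change x * ((e k * e (k + 1))⁻¹ * (e (k + 1) * e (k + 2))) * x⁻¹ =
          (e (k + 1) * e (k + 1 + 1))⁻¹ * (e (k + 1 + 1) * e (k + 1 + 2))
        have e1 := he k
        have e2 := he (k + 1)
        have e3 : x * e (k + 2) * x⁻¹ = e (k + 1 + 2) := he (k + 2)
        have e5 : x * ((e k * e (k + 1))⁻¹ * (e (k + 1) * e (k + 2))) * x⁻¹ =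
            ((x * e k * x⁻¹) * (x * e (k + 1) * x⁻¹))⁻¹ * ((x * e (k + 1) * x⁻¹) * (x * e (k + 2) * x⁻¹)) := by group
        rw [e5, e1, e2, e3]
      rwa [h2] at h1
  have hVT : ∀ a b c d : Fin 7, (b : ℕ) = a + 1 → (c : ℕ) = a + 2 → (d : ℕ) = a + 3 →
      V ι (Z7 a b c d) = T a := by
    intro a b c d hb hc hd
    rw [map_mul, map_inv, map_mul, map_mul, hVe a b hb, hVe b c (by omega), hVe c d (by omega), hb, hc]
  have h1 : V ι v7 ∈ YY X c⁻¹ := by
    rw [map_mul, map_mul, map_inv, hVT 0 1 2 3 rfl rfl rfl, hVT 1 2 3 4 rfl rfl rfl]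
    exact mul_mem (mul_mem (hT _) (hT _)) (inv_mem (hT _))
  have h2 : V ι u7 ∈ YY X c⁻¹ := by
    rw [map_mul, map_mul, map_inv, hVT 2 3 4 5 rfl rfl rfl, hVT 3 4 5 6 rfl rfl rfl]
    exact mul_mem (mul_mem (hT _) (hT _)) (inv_mem (hT _))
  rcases forb33 hY (by omega) h1 h2 (by rw [← map_pow, v7a, map_one]) (by rw [← map_pow, u7a, map_one])
    (by rw [← map_mul, ← map_mul, vu7]) (fun h => v7b (V_inj ι (h.trans (map_one _).symm)))
    (fun h => u7b (V_inj ι (h.trans (map_one _).symm))) with h3 | h3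
  · exact vu7a (V_inj ι h3)
  · rw [← map_mul] at h3
    exact vu7b (V_inj ι h3)

end Cfsg.Agent.H884.NA
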