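import Cfsg.Agent.H884.NA.Forb3

/-!
# S3509, exceptional row: configurations (helper884)
-/

set_option autoImplicit false
set_option linter.unusedSectionVars false

namespace Cfsg.Agent.H884.NA

open Equiv Equiv.Perm

section via

variable {α I : Type*} [Fintype α] [DecidableEq α] [Fintype I] [DecidableEq I] (ι : I ↪ α)

/-- the action on the configuration -/
noncomputable def V : Perm I →* Perm α := viaEmbeddingHom ι

theorem V_apply (σ : Perm I) (i : I) : V ι σ (ι i) = ι (σ i) := viaEmbedding_apply σ ι i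

theorem V_not (σ : Perm I) {a : α} (ha : a ∉ Set.range ι) : V ι σ a = a := viaEmbedding_apply_of_notMem σ ι a ha

theorem V_inj : Function.Injective (V ι) := viaEmbeddingHom_injective ι

theorem V_sign (σ : Perm I) : sign (V ι σ) = sign σ := by
  rw [V, viaEmbeddingHom_apply, viaEmbedding, sign_extendDomain]

theorem V_mem {σ : Perm I} (h : sign σ = 1) : V ι σ ∈ alternatingGroup α := by
  rw [mem_alternatingGroup, V_sign, h]

variable {ι}

theorem inv_ι {x : Perm α} {x₀ : Perm I} (h : ∀ i, x (ι i) = ι (x₀ i)) (i : I) : x⁻¹ (ι i) = ι (x₀⁻¹ i) := by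
  rw [inv_eq_iff_eq, h]
  congr 1
  exact (x₀.apply_symm_apply i).symm

/-- conjugation by `x` -/
theorem V_conj {x : Perm α} {x₀ : Perm I} (h : ∀ i, x (ι i) = ι (x₀ i)) (σ : Perm I) :
    x * V ι σ * x⁻¹ = V ι (x₀ * σ * x₀⁻¹) := by
  ext a
  rw [mul_apply, mul_apply]
  by_cases ha : a ∈ Set.range ι
  · obtain ⟨i, rfl⟩ := ha
    rw [inv_ι h, V_apply, h, V_apply]
    rfl
  · have h1 : x⁻¹ a ∉ Set.range ι := by
      rintro ⟨i, hi⟩
      apply ha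
      refine ⟨x₀ i, ?_⟩
      rw [← h, hi]
      exact x.apply_symm_apply a
    rw [V_not ι _ h1, V_not ι _ ha]
    exact x.apply_symm_apply a

/-- the basic element -/
theorem V_comm {x : Perm α} {x₀ : Perm I} (h : ∀ i, x (ι i) = ι (x₀ i)) (c₀ : Perm I) :
    (V ι c₀)⁻¹ * x * V ι c₀ * x⁻¹ = V ι (c₀⁻¹ * x₀ * c₀ * x₀⁻¹) := by
  have h1 := V_conj h c₀
  calc (V ι c₀)⁻¹ * x * V ι c₀ * x⁻¹ = (V ι c₀)⁻¹ * (x * V ι c₀ * x⁻¹) := by group
    _ = V ι (c₀⁻¹ * x₀ * c₀ * x₀⁻¹) := by rw [h1, ← map_inv, ← map_mul]; group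

end via

section main

variable {α : Type*} [Fintype α] [DecidableEq α] {p : ℕ} [Fact p.Prime] {F : Type*} [Field F] [CharP F p]

/-- the pair -/
def YY (X : Subgroup (Perm α)) (t : Perm α) : Subgroup (Perm α) := X ⊔ X.map (MulAut.conj t).toMonoidHom

theorem mem_YY_left {X : Subgroup (Perm α)} {t x : Perm α} (hx : x ∈ X) : x ∈ YY X t :=
  Subgroup.mem_sup_left hx

theorem mem_YY_right {X : Subgroup (Perm α)} {c x : Perm α} (hx : x ∈ X) : c⁻¹ * x * c ∈ YY X c⁻¹ := by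
  refine Subgroup.mem_sup_right ⟨x, hx, ?_⟩
  change c⁻¹ * x * c⁻¹⁻¹ = _
  rw [inv_inv]

/-- configuration with an element of order `p k` -/
theorem kill_cfg {X : Subgroup (Perm α)} (hpair : ∀ t ∈ alternatingGroup α, PairP p F (YY X t)) {x : Perm α}
    (hx : x ∈ X) {I : Type*} [Fintype I] [DecidableEq I] {ι : I ↪ α} {x₀ : Perm I} (h : ∀ i, x (ι i) = ι (x₀ i))
    (c₀ : Perm I) (hc : sign c₀ = 1) (k : ℕ) (hk : k.Coprime p)
    (h1 : (c₀⁻¹ * x₀ * c₀ * x₀⁻¹) ^ (p * k) = 1) (h2 : (c₀⁻¹ * x₀ * c₀ * x₀⁻¹) ^ k ≠ 1)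
    (h3 : (c₀⁻¹ * x₀ * c₀ * x₀⁻¹) ^ p * x₀ ≠ x₀ * (c₀⁻¹ * x₀ * c₀ * x₀⁻¹) ^ p) : False := by
  obtain ⟨w₀, hw₀⟩ : ∃ w₀, w₀ = c₀⁻¹ * x₀ * c₀ * x₀⁻¹ := ⟨_, rfl⟩
  rw [← hw₀] at h1 h2 h3
  have hY := hpair (V ι c₀)⁻¹ (inv_mem (V_mem ι hc))
  have hw : V ι w₀ ∈ YY X (V ι c₀)⁻¹ := by
    rw [hw₀, ← V_comm h]
    exact mul_mem (mem_YY_right hx) (inv_mem (mem_YY_left hx))
  have hxY : x ∈ YY X (V ι c₀)⁻¹ := mem_YY_left hx
  have h4 := forb_cent hY (z := V ι w₀ ^ k) (u := V ι w₀ ^ p) (g := x) (pow_mem hw k) (pow_mem hw p) hxY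
    (by rw [← pow_mul, mul_comm, ← map_pow, h1, map_one])
    (by rw [← map_pow]; exact fun h => h2 (V_inj ι (h.trans (map_one _).symm)))
    (by rw [← pow_add, ← pow_add, add_comm])
    (k := k) (by rw [← pow_mul, ← map_pow, h1, map_one]) hk
  apply h3
  have h5 := V_conj h (w₀ ^ p)
  rw [map_pow, ← h4, mul_inv_cancel_right, ← map_pow] at h5
  have h6 := V_inj ι h5
  conv_lhs => rw [h6]
  rw [inv_mul_cancel_right]

end main

end Cfsg.Agent.H884.NA
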