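import Cfsg.Agent.H884.NA.BaseNA

/-!
# S3509, exceptional row: the exceptional isomorphisms (helper884)

`count_kill` : `M / Z(M)` is not `A_n` for the exceptional pairs `(q, n)`, if a subgroup `V` of `K` of order at least `q ^ 2`
(at least `106` for `q = 2`) has no nontrivial element commuting with a given nontrivial element of the opposite root group.
-/

set_option autoImplicit false
set_option linter.unusedSectionVars false
set_option maxRecDepth 100000

namespace Cfsg.Agent.H884.NA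

open Equiv Equiv.Perm
open Cfsg Cfsg.Agent.Lib.Cores Cfsg.Agent.H398.RG

theorem cnt4 : (Finset.univ.filter fun g : Perm (Fin 5) => sign g = 1 ∧ g ^ 2 = 1 ∧ g ≠ 1).card = 15 := by
  decide +kernel

theorem cnt5 : (Finset.univ.filter fun g : Perm (Fin 5) => sign g = 1 ∧ g ^ 5 = 1 ∧ g ≠ 1).card = 24 := by
  decide +kernel

theorem cnt9 : (Finset.univ.filter fun g : Perm (Fin 6) => sign g = 1 ∧ g ^ 3 = 1 ∧ g ≠ 1).card = 80 := by
  decide +kernel

theorem cnt2 : (Finset.univ.filter fun g : Perm (Fin 8) => g.cycleType = Multiset.replicate 4 2).card = 105 := by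
  rw [Equiv.Perm.card_of_cycleType, if_pos (by simp)]
  simp
  decide

/-- the homomorphism to the permutations -/
def psi {M Q : Type*} [Group M] [Group Q] {m : ℕ} (e : Q ≃* alternatingGroup (Fin m)) (π : M →* Q) : M →* Perm (Fin m) :=
  (alternatingGroup (Fin m)).subtype.comp (e.toMonoidHom.comp π)

section psi

variable {M Q : Type*} [Group M] [Group Q] {m : ℕ} (e : Q ≃* alternatingGroup (Fin m)) (π : M →* Q)

theorem psi_one {x : M} (hx : psi e π x = 1) : π x = 1 := by
  have h1 : e (π x) = 1 := Subtype.ext hx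
  exact (map_eq_one_iff e e.injective).1 h1

theorem psi_mem (x : M) : psi e π x ∈ alternatingGroup (Fin m) := (e (π x)).2

theorem pair_image {p q : ℕ} (hπ : Function.Surjective π) (hker : π.ker ≤ Subgroup.center M) (X : Subgroup M)
    (hpair : ∀ t : M, PairQ p q (X ⊔ X.map (MulAut.conj t).toMonoidHom)) (F : Type) [Field F] [Fintype F]
    (hF : Fintype.card F = q) : ∀ t ∈ alternatingGroup (Fin m), PairP p F (YY (X.map (psi e π)) t) := by
  intro t ht
  obtain ⟨t₀, ht₀⟩ := hπ (e.symm ⟨t, ht⟩)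
  have h0 : psi e π t₀ = t := by
    change ((e (π t₀) : alternatingGroup (Fin m)) : Perm (Fin m)) = t
    rw [ht₀, MulEquiv.apply_symm_apply]
  have hψk : (psi e π).ker ≤ Subgroup.center M := fun x hx => hker (psi_one e π hx)
  have h1 := ((hpair t₀).map (psi e π) hψk).toP F hF
  have h3 : (psi e π).comp (MulAut.conj t₀).toMonoidHom = (MulAut.conj (psi e π t₀)).toMonoidHom.comp (psi e π) := by
    refine MonoidHom.ext fun x => ?_
    change psi e π (t₀ * x * t₀⁻¹) = psi e π t₀ * psi e π x * (psi e π t₀)⁻¹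
    rw [map_mul, map_mul, map_inv]
  have h2 : (X ⊔ X.map (MulAut.conj t₀).toMonoidHom).map (psi e π) = YY (X.map (psi e π)) t := by
    rw [Subgroup.map_sup, Subgroup.map_map, YY, Subgroup.map_map, h3, h0]
  rwa [h2] at h1

end psi

section

variable {G : Type*} [Group G] {p : ℕ} [Fact p.Prime] {K X Y P Q T : Subgroup G}

theorem cj_cj_inv (u : G) (Z : Subgroup G) : cj u⁻¹ (cj u Z) = Z := by
  ext y
  rw [mem_cj, mem_cj]
  have h9 : u⁻¹ * (u⁻¹⁻¹ * y * u⁻¹) * u = y := by group
  rw [h9]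

theorem cj_mul' (u v : G) (Z : Subgroup G) : cj (u * v) Z = cj u (cj v Z) := by
  ext y
  rw [mem_cj, mem_cj, mem_cj]
  have h9 : (u * v)⁻¹ * y * (u * v) = v⁻¹ * (u⁻¹ * y * u) * v := by group
  rw [h9]

/-- the pairs of conjugates -/
theorem base_pairQ (h : Base p K X Y P Q T) {q e : ℕ} (hq : q = p ^ e) (hI : ImgH q X Y) {g t : G} (hg : g ∈ K)
    (ht : t ∈ K) : PairQ p q (cj g X ⊔ cj t (cj g X)) := by
  have h1 : cj g X ⊔ cj t (cj g X) = cj g (X ⊔ cj (g⁻¹ * t * g) X) := by
    rw [cj_sup, ← cj_mul', ← cj_mul']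
    have e1 : g * (g⁻¹ * t * g) = t * g := by group
    rw [e1]
  rw [h1]
  have hc : g⁻¹ * t * g ∈ K := mul_mem (mul_mem (inv_mem hg) ht) hg
  have h2 : PairQ p q (X ⊔ cj (g⁻¹ * t * g) X) := by
    rcases h.pair _ hc with h4 | ⟨u, hu, h5, h6⟩
    · exact Or.inl h4
    · have h7 : X ⊔ cj (g⁻¹ * t * g) X = cj u⁻¹ (X ⊔ Y) := by
        rw [cj_sup, ← h6, cj_cj_inv]
        have h8 : cj u⁻¹ X = X := by
          conv_lhs => rw [← h5]
          exact cj_cj_inv u X
        rw [h8]
      rw [h7]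
      exact (pairQ_of_hom Fact.out hq hI).conj u⁻¹
  exact h2.conj g

/-- **The exceptional isomorphisms.** -/
theorem count_kill [Finite K] (h : Base p K X Y P Q T) {q e n : ℕ} (hq : q = p ^ e) (hI : ImgH q X Y)
    (hE : ExcAlt q n) {S : Type*} [Group S] (π : MK K X →* S) (hπ : Function.Surjective π)
    (hker : π.ker ≤ Subgroup.center (MK K X)) (f : S ≃* alternatingGroup (Fin n)) (V : Subgroup G) (hVK : V ≤ K)
    {y : G} (hy : y ∈ Y) (hy1 : y ≠ 1) (hV : ∀ u ∈ V, u * y = y * u → u = 1) (hcard : q ^ 2 ≤ Nat.card V)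
    (hcard2 : q = 2 → 106 ≤ Nat.card V) : False := by
  classical
  have hpp : p.Prime := Fact.out
  obtain ⟨h1, h2, h3⟩ := imgH_props hq hI
  obtain ⟨k, hk, hkY⟩ := h.conjY
  have hYM : Y ≤ MK K X := by rw [← hkY]; exact cj_le_MK hk
  have hyp : y ^ p = 1 := by
    rw [← hkY, mem_cj] at hy
    have h4 := h3 _ hy
    have h5 : (k⁻¹ * y * k) ^ p = k⁻¹ * y ^ p * k := by
      have := (MulAut.conj k⁻¹).toMonoidHom.map_pow y p
      simpa using this.symm
    rw [h5] at h4
    calc y ^ p = k * (k⁻¹ * y ^ p * k) * k⁻¹ := by group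
      _ = 1 := by rw [h4]; group
  have hz : ∀ u : V, (u : G) * y * (u : G)⁻¹ ∈ MK K X := fun u => conj_MK (hVK u.2) (hYM hy)
  have hzp : ∀ u : V, ((u : G) * y * (u : G)⁻¹) ^ p = 1 := by
    intro u
    have := (MulAut.conj (u : G)).toMonoidHom.map_pow y p
    have h5 : ((u : G) * y * (u : G)⁻¹) ^ p = (u : G) * y ^ p * (u : G)⁻¹ := by
      simpa [MulAut.conj_apply] using this.symm
    rw [h5, hyp]; group
  have hz1 : ∀ u : V, (u : G) * y * (u : G)⁻¹ ≠ 1 := by
    intro u hu
    apply hy1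
    calc y = (u : G)⁻¹ * ((u : G) * y * (u : G)⁻¹) * u := by group
      _ = 1 := by rw [hu]; group
  -- injectivity on elements of exponent `p`
  have hinj0 : ∀ a b : MK K X, (a : G) ^ p = 1 → (b : G) ^ p = 1 → π a = π b → a = b := by
    intro a b ha hb hab
    have h4 : a * b⁻¹ ∈ π.ker := by rw [MonoidHom.mem_ker, map_mul, hab, map_inv, mul_inv_cancel]
    have h5 := Subgroup.mem_center_iff.1 (hker h4)
    obtain ⟨c, hc⟩ : ∃ c, c = a * b⁻¹ := ⟨_, rfl⟩
    rw [← hc] at h5
    have h6 : a = c * b := by rw [hc]; group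
    have h7 : a ^ p = c ^ p * b ^ p := by
      rw [h6]
      exact (show Commute c b from (h5 b).symm).mul_pow p
    have h8 : (c : G) ^ p = 1 := by
      have e1 : (a : G) ^ p = (c : G) ^ p * (b : G) ^ p := congrArg Subtype.val h7
      rw [ha, hb, mul_one] at e1
      exact e1.symm
    have h9 : (c : G) = 1 := base_center h.leX h.core c.2 (fun m hm => congrArg Subtype.val (h5 ⟨m, hm⟩)) (k := 1)
      (by rw [pow_one]; exact h8)
    have h10 : c = 1 := Subtype.ext h9
    rw [h6, h10, one_mul]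
  obtain ⟨Φ, hΦ⟩ : ∃ Φ : V → Perm (Fin n), ∀ u, Φ u = psi f π ⟨_, hz u⟩ := ⟨_, fun _ => rfl⟩
  have hΦinj : Function.Injective Φ := by
    intro u v huv
    rw [hΦ, hΦ] at huv
    have h4 : f (π ⟨_, hz u⟩) = f (π ⟨_, hz v⟩) := Subtype.ext huv
    have h5 := hinj0 _ _ (hzp u) (hzp v) (f.injective h4)
    have h6 : (u : G) * y * (u : G)⁻¹ = (v : G) * y * (v : G)⁻¹ := congrArg Subtype.val h5
    have h7 : ((v : G)⁻¹ * u) * y = y * ((v : G)⁻¹ * u) := by
      calc ((v : G)⁻¹ * u) * y = (v : G)⁻¹ * ((u : G) * y * (u : G)⁻¹) * u := by group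
        _ = y * ((v : G)⁻¹ * u) := by rw [h6]; group
    have h8 := hV _ (mul_mem (inv_mem v.2) u.2) h7
    exact Subtype.ext (inv_mul_eq_one.1 h8).symm
  have hΦ1 : ∀ u, Φ u ≠ 1 := by
    intro u hu
    rw [hΦ] at hu
    have h4 : π ⟨_, hz u⟩ = π 1 := by rw [map_one]; exact psi_one f π hu
    have h5 := hinj0 _ _ (hzp u) (by rw [OneMemClass.coe_one, one_pow]) h4
    exact hz1 u (congrArg Subtype.val h5)
  have hΦp : ∀ u, Φ u ^ p = 1 := by
    intro u
    rw [hΦ, ← map_pow]
    have h4 : (⟨_, hz u⟩ : MK K X) ^ p = 1 := Subtype.ext (hzp u)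
    rw [h4, map_one]
  have hΦA : ∀ u, sign (Φ u) = 1 := fun u => by rw [hΦ]; exact mem_alternatingGroup.1 (psi_mem f π _)
  have hVfin : Finite V := Set.Finite.subset (Set.toFinite (K : Set G)) hVK
  have hbound : ∀ (s : Finset (Perm (Fin n))), (∀ u, Φ u ∈ s) → Nat.card V ≤ s.card := by
    intro s hs
    have h4 : Function.Injective fun u : V => (⟨Φ u, hs u⟩ : s) := by
      intro u v huv
      have h6 : Φ u = Φ v := congrArg Subtype.val huv
      exact hΦinj h6
    have h5 := Nat.card_le_card_of_injective _ h4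
    rwa [Nat.card_eq_fintype_card (α := s), Fintype.card_coe] at h5
  have key : ∀ c : ℕ, c.Prime → ∀ j, q = c ^ j → j ≠ 0 → p = c := by
    intro c hc j hj hj0
    have h1 : c ∣ p ^ e := by rw [← hq, hj]; exact dvd_pow_self c hj0
    exact ((Nat.prime_dvd_prime_iff_eq hc hpp).1 (hc.dvd_of_dvd_pow h1)).symm
  rcases hE with ⟨e1, e2⟩ | ⟨e1, e2⟩ | ⟨e1, e2⟩ | ⟨e1, e2⟩
  · have hp2 := key 2 Nat.prime_two 2 (by rw [e1]; norm_num) (by norm_num)
    subst e2 hp2
    have h4 := hbound (Finset.univ.filter fun g : Perm (Fin 5) => sign g = 1 ∧ g ^ 2 = 1 ∧ g ≠ 1) (fun u =>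
      Finset.mem_filter.2 ⟨Finset.mem_univ _, hΦA u, hΦp u, hΦ1 u⟩)
    rw [cnt4] at h4
    rw [e1] at hcard
    omega
  · have hp2 := key 5 Nat.prime_five 1 (by rw [e1]; norm_num) (by norm_num)
    subst e2 hp2
    have h4 := hbound (Finset.univ.filter fun g : Perm (Fin 5) => sign g = 1 ∧ g ^ 5 = 1 ∧ g ≠ 1) (fun u =>
      Finset.mem_filter.2 ⟨Finset.mem_univ _, hΦA u, hΦp u, hΦ1 u⟩)
    rw [cnt5] at h4
    rw [e1] at hcard
    omega
  · have hp2 := key 3 Nat.prime_three 2 (by rw [e1]; norm_num) (by norm_num)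
    subst e2 hp2
    have h4 := hbound (Finset.univ.filter fun g : Perm (Fin 6) => sign g = 1 ∧ g ^ 3 = 1 ∧ g ≠ 1) (fun u =>
      Finset.mem_filter.2 ⟨Finset.mem_univ _, hΦA u, hΦp u, hΦ1 u⟩)
    rw [cnt9] at h4
    rw [e1] at hcard
    omega
  · have hp2 := key 2 Nat.prime_two 1 (by rw [e1]; norm_num) (by norm_num)
    subst e2 hp2
    have h4 := hbound (Finset.univ.filter fun g : Perm (Fin 8) => g.cycleType = Multiset.replicate 4 2) (fun u => by
      refine Finset.mem_filter.2 ⟨Finset.mem_univ _, ?_⟩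
      have hg : (u : G) * k ∈ K := mul_mem (hVK u.2) hk
      have hle : cj ((u : G) * k) X ≤ MK K X := cj_le_MK hg
      have hmem : (u : G) * y * (u : G)⁻¹ ∈ cj ((u : G) * k) X := by
        rw [cj_mul', hkY, mem_cj]
        have e3 : (u : G)⁻¹ * ((u : G) * y * (u : G)⁻¹) * u = y := by group
        rw [e3]
        exact hy
      have hpairM : ∀ t : MK K X, PairQ 2 q ((cj ((u : G) * k) X).subgroupOf (MK K X) ⊔
          ((cj ((u : G) * k) X).subgroupOf (MK K X)).map (MulAut.conj t).toMonoidHom) := by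
        intro t
        have h5 := base_pairQ h hq hI hg (MK_le_self h.leX t.2)
        have hle2 : cj (t : G) (cj ((u : G) * k) X) ≤ MK K X := by
          rw [← cj_mul']
          exact cj_le_MK (mul_mem (MK_le_self h.leX t.2) hg)
        have h6 : (cj ((u : G) * k) X).subgroupOf (MK K X) ⊔
            ((cj ((u : G) * k) X).subgroupOf (MK K X)).map (MulAut.conj t).toMonoidHom =
            (cj ((u : G) * k) X ⊔ cj (t : G) (cj ((u : G) * k) X)).subgroupOf (MK K X) := by
          have h7 : ((cj ((u : G) * k) X).subgroupOf (MK K X)).map (MulAut.conj t).toMonoidHom =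
              (cj (t : G) (cj ((u : G) * k) X)).subgroupOf (MK K X) := subgroupOf_cj t _
          rw [h7]
          apply Subgroup.map_injective (Subgroup.subtype_injective (MK K X))
          rw [Subgroup.map_sup, Subgroup.map_subgroupOf_eq_of_le hle, Subgroup.map_subgroupOf_eq_of_le hle2,
            Subgroup.map_subgroupOf_eq_of_le (sup_le hle hle2)]
        rw [h6]
        rcases h5 with h5 | ⟨F, _, _, hF, φ, hφ, hkφ⟩
        · exact Or.inl h5.comap_subtype
        · right
          have hm : ∀ A, φ A ∈ MK K X := fun A => (sup_le hle hle2) (by rw [← hφ]; exact ⟨A, rfl⟩)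
          refine ⟨F, _, _, hF, φ.codRestrict (MK K X) hm, ?_, ?_⟩
          · ext ⟨x, hx⟩
            rw [Subgroup.mem_subgroupOf, ← hφ]
            constructor
            · rintro ⟨A, hA⟩
              exact ⟨A, congrArg Subtype.val hA⟩
            · rintro ⟨A, hA⟩
              exact ⟨A, Subtype.ext hA⟩
          · intro A hA
            exact hkφ (congrArg Subtype.val hA)
      have h7 := pair_image f π hπ hker _ hpairM (ZMod 2) (by rw [ZMod.card, e1])
      have h8 : (Φ u).support.card = 8 := by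
        by_contra h9
        refine case_two (F := ZMod 2) (X := ((cj ((u : G) * k) X).subgroupOf (MK K X)).map (psi f π))
          (by rw [Fintype.card_fin]; norm_num) ?_ h7 (x := Φ u) ⟨⟨_, hz u⟩, hmem, (hΦ u).symm⟩ (hΦp u) (hΦ1 u)
          (fun h10 => h9 h10.1)
        rintro _ ⟨a, -, rfl⟩
        exact psi_mem f π a
      have ho : orderOf (Φ u) = 2 := orderOf_eq_prime (hΦp u) (hΦ1 u)
      obtain ⟨j, hj⟩ := cycleType_prime_order (σ := Φ u) (by rw [ho]; exact Nat.prime_two)
      rw [← sum_cycleType, hj, Multiset.sum_replicate, ho, smul_eq_mul] at h8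
      rw [hj, ho]
      congr 1
      omega)
    rw [cnt2] at h4
    have := hcard2 e1
    omega

end

end Cfsg.Agent.H884.NA
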