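import Cfsg.Agent.H884.NA.Cfg

/-!
# S3509, exceptional row: finding configurations (helper884)
-/

set_option autoImplicit false
set_option linter.unusedSectionVars false

namespace Cfsg.Agent.H884.NA

open Equiv Equiv.Perm

variable {α : Type*} [Fintype α] [DecidableEq α]

/-- the standard element on `J` cycles of length `n + 1` and `L` fixed points -/
def x0 (n J L : ℕ) : Perm ((Fin J × Fin (n + 1)) ⊕ Fin L) :=
  Equiv.sumCongr (Equiv.prodCongr (Equiv.refl _) (finRotate (n + 1))) (Equiv.refl _)

theorem fix_of_zpow {x : Perm α} {n : ℕ} (hp : (n + 1).Prime) (hx : x ^ (n + 1) = 1) {a : α} {k : ℤ}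
    (hk : ¬ ((n + 1 : ℕ) : ℤ) ∣ k) (h : (x ^ k) a = a) : x a = a := by
  have hc : IsCoprime k ((n + 1 : ℕ) : ℤ) := by
    rw [isCoprime_comm]
    exact (Nat.prime_iff_prime_int.1 hp).irreducible.coprime_iff_not_dvd.2 hk
  obtain ⟨u, v, huv⟩ := hc
  have h1 : x = (x ^ k) ^ u := by
    have h2 : x ^ (u * k + v * ((n + 1 : ℕ) : ℤ)) = x := by rw [huv, zpow_one]
    rw [zpow_add, mul_comm v, zpow_mul x _ v, zpow_natCast, hx, one_zpow, mul_one, mul_comm u, zpow_mul] at h2
    exact h2.symm
  rw [h1]
  exact zpow_apply_eq_self_of_apply_eq_self h u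

theorem reps {x : Perm α} {n : ℕ} (hx : x ^ (n + 1) = 1) : ∀ J : ℕ, (J = 0 ∨ (n + 1) * (J - 1) < x.support.card) →
    ∃ a : Fin J → α, (∀ j, x (a j) ≠ a j) ∧ ∀ i j, x.SameCycle (a i) (a j) → i = j
  | 0, _ => ⟨fun i => i.elim0, fun i => i.elim0, fun i => i.elim0⟩
  | J + 1, h => by
    have h1 : (n + 1) * J < x.support.card := by
      rcases h with h | h
      · omega
      · simpa using h
    obtain ⟨a, ha1, ha2⟩ := reps hx J (by
      rcases Nat.eq_zero_or_pos J with h | h
      · exact Or.inl h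
      · right
        refine lt_of_le_of_lt (Nat.mul_le_mul_left _ (by omega)) h1)
    let U : Finset α := Finset.univ.image fun je : Fin J × Fin (n + 1) => (x ^ (je.2 : ℕ)) (a je.1)
    have hU : U.card ≤ J * (n + 1) := by
      refine Finset.card_image_le.trans ?_
      rw [Finset.card_univ, Fintype.card_prod, Fintype.card_fin, Fintype.card_fin]
    obtain ⟨b, hb, hbU⟩ : ∃ b ∈ x.support, b ∉ U := by
      by_contra hcon
      push Not at hcon
      have := Finset.card_le_card (fun b hb => hcon b hb : x.support ⊆ U)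
      rw [mul_comm] at h1
      omega
    have hbn : ∀ j, ¬ x.SameCycle (a j) b := by
      rintro j ⟨k, hk⟩
      apply hbU
      have h2 : x ^ k = x ^ (k % ((n + 1 : ℕ) : ℤ)) := zpow_eq_zpow_emod k (by rw [zpow_natCast, hx])
      have h3 : 0 ≤ k % ((n + 1 : ℕ) : ℤ) := Int.emod_nonneg _ (by positivity)
      have h4 : k % ((n + 1 : ℕ) : ℤ) < ((n + 1 : ℕ) : ℤ) := Int.emod_lt_of_pos _ (by positivity)
      obtain ⟨e, he⟩ := Int.eq_ofNat_of_zero_le h3
      rw [he] at h4
      refine Finset.mem_image.2 ⟨(j, ⟨e, by exact_mod_cast h4⟩), Finset.mem_univ _, ?_⟩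
      change (x ^ e) (a j) = b
      rw [← hk, h2, he]
      simp
    refine ⟨Fin.cons b a, ?_, ?_⟩
    · intro j
      refine Fin.cases ?_ (fun j => ?_) j
      · exact mem_support.1 hb
      · exact ha1 j
    · intro i j
      refine Fin.cases ?_ (fun i => ?_) i
      · refine Fin.cases (fun _ => rfl) (fun j hj => ?_) j
        exact absurd hj.symm (hbn j)
      · refine Fin.cases (fun hj => ?_) (fun j hj => ?_) j
        · exact absurd hj (hbn i)
        · rw [ha2 i j hj]

theorem exists_emb {x : Perm α} {n : ℕ} (hp : (n + 1).Prime) (hx : x ^ (n + 1) = 1) (J L : ℕ)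
    (hJ : J = 0 ∨ (n + 1) * (J - 1) < x.support.card) (hL : L + x.support.card ≤ Fintype.card α) :
    ∃ ι : (Fin J × Fin (n + 1)) ⊕ Fin L ↪ α, ∀ i, x (ι i) = ι (x0 n J L i) := by
  obtain ⟨a, ha1, ha2⟩ := reps hx J hJ
  obtain ⟨f, hf⟩ : ∃ f : Fin L ↪ α, ∀ l, x (f l) = f l := by
    have h1 : L ≤ Fintype.card {c : α // x c = c} := by
      have h2 : Fintype.card {c : α // x c = c} = (Finset.univ.filter fun c => x c = c).card := Fintype.card_subtype _
      have h3 : x.support = Finset.univ.filter fun c => ¬ x c = c := by ext c; simp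
      have h4 := Finset.card_filter_add_card_filter_not (s := (Finset.univ : Finset α)) (fun c => x c = c)
      rw [← h3, Finset.card_univ] at h4
      omega
    obtain ⟨f⟩ : Nonempty (Fin L ↪ {c : α // x c = c}) :=
      Function.Embedding.nonempty_of_card_le (by rw [Fintype.card_fin]; exact h1)
    exact ⟨f.trans (Function.Embedding.subtype _), fun l => (f l).2⟩
  have hfix : ∀ (e : ℕ) (j : Fin J) (l : Fin L), (x ^ e) (a j) ≠ f l := by
    intro e j l h
    apply ha1 j
    have h1 := hf l
    rw [← h, ← mul_apply, ← pow_succ', pow_succ, mul_apply] at h1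
    exact (x ^ e).injective h1
  refine ⟨⟨Sum.elim (fun je => (x ^ (je.2 : ℕ)) (a je.1)) f, ?_⟩, ?_⟩
  · rintro (⟨j, e⟩ | l) (⟨j', e'⟩ | l') h
    · change (x ^ (e : ℕ)) (a j) = (x ^ (e' : ℕ)) (a j') at h
      have h1 : x.SameCycle (a j) (a j') := by
        refine ⟨(e : ℤ) - e', ?_⟩
        rw [sub_eq_neg_add, zpow_add, mul_apply, zpow_natCast, h, zpow_neg, zpow_natCast]
        exact (x ^ (e' : ℕ)).symm_apply_apply _
      obtain rfl := ha2 j j' h1
      have h2 : (e : ℕ) = e' := by
        by_contra hne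
        apply ha1 j
        apply fix_of_zpow hp hx (k := (e : ℤ) - e')
        · intro hd
          have h3 := e.isLt
          have h4 := e'.isLt
          have h5 : (e : ℤ) - e' = 0 := by
            apply Int.eq_zero_of_abs_lt_dvd hd
            rw [abs_lt]
            constructor <;> (push_cast; omega)
          omega
        · rw [sub_eq_neg_add, zpow_add, mul_apply, zpow_natCast, h, zpow_neg, zpow_natCast]
          exact (x ^ (e' : ℕ)).symm_apply_apply _
      rw [Fin.ext h2]
    · exact absurd h (hfix _ _ _)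
    · exact absurd h.symm (hfix _ _ _)
    · exact congrArg Sum.inr (f.injective h)
  · rintro (⟨j, e⟩ | l)
    · change x ((x ^ (e : ℕ)) (a j)) = (x ^ ((finRotate (n + 1) e : Fin (n + 1)) : ℕ)) (a j)
      rw [← mul_apply, ← pow_succ', coe_finRotate]
      split_ifs with h
      · rw [h, Fin.val_last, hx, pow_zero]
      · rfl
    · exact hf l

end Cfsg.Agent.H884.NA
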