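import Cfsg.Agent.H169.RG.Pair
import Cfsg.Agent.H460.OT.BruComb
import Cfsg.Agent.H123.ExcComb
import Cfsg.Agent.H461.E2.Sup

/-!
# S3509, exceptional row: the unipotent radical of a top root (helper884)

`H : Tow ..`, `Dt : CW ..`, `Bβ : Top .. β`;
`Sb` : the positive roots `a` of `Sx t` with `⟨a, β^∨⟩ > 0`;
* `Sb_zcl`, `Sb_theta` : closed under integral combinations, `θ`-stable;
* `mem_Sb_of_sub` : contains the `a ∈ Sx t` such that `β - a` is a root;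
* `eq_one_of_comm` : an element of `Sup X Sb` commuting with a nontrivial element of `X_{-β}` is trivial.
-/

set_option autoImplicit false
set_option linter.unusedSectionVars false

namespace Cfsg.Agent.H884.NA

open CoxeterSystem Cfsg.Agent.ChevalleyStructure.CoxeterGeom Cfsg.Agent.Tits.Roots Cfsg.Agent.Tits.Core
  Cfsg.Agent.Tits.RootComb Cfsg.Agent.Tits.Exchange Cfsg.Agent.Nodes.Reps Cfsg.Agent.Nodes.BNOf
  Cfsg.Agent.Nodes.StabComb Cfsg.Agent.Nodes.Bruhat Cfsg.Agent.Nodes.OppDec Cfsg.Agent.Nodes.LeviDec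
  Cfsg.Agent.Nodes.NormalForm Cfsg.Agent.Nodes.SubComb Cfsg.Agent.Nodes.Coroot Cfsg.Agent.KFacts.RgdField
  Cfsg.Agent.BpExc.TorCent Cfsg.Agent.BpExc.Tow Cfsg.Agent.BpExc.Fr Cfsg.Agent.BpExc.Pair Cfsg.Agent.H28.RG
  Cfsg.Agent.H169.RG Cfsg.Agent.H460.OT Cfsg.Agent.H461.E2.Sup

variable {I W Y : Type*} [Fintype I] [DecidableEq I] [Group W] [Finite W] [Group Y] {M : CoxeterMatrix I}
  {cs : CoxeterSystem M W} {A : I → I → ℤ} {h : IsCartan M A} {p : ℕ}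
  {J : Type*} [Preorder J] {T : J → Subgroup Y} {n : I → Y} {X : J → (I → ℤ) → Subgroup Y}
  {F : Type*} [Field F] {xx : (I → ℤ) → F → Y} {χ : (I → ℤ) → Y → F}
  {α : MulAut Y} {θ : (I → ℤ) ≃+ (I → ℤ)} {t : Y} {β : I → ℤ}

/-- the positive roots of `Sx t` with `⟨a, β^∨⟩ > 0` -/
def Sb (cs : CoxeterSystem M W) (h : IsCartan M A) (χ : (I → ℤ) → Y → F) (t : Y) (β : I → ℤ) : Set (I → ℤ) :=
  {a | a ∈ Sx cs h χ t ∧ 0 ≤ a ∧ 0 < cpr cs h a β}

theorem add_root_of_neg {x y : I → ℤ} (hx : IsRoot cs h x) (hy : IsRoot cs h y) (hxy : x ≠ -y)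
    (hc : cpr cs h x y < 0) : IsRoot cs h (x + y) := by
  have h1 := isRoot_sub_of_pos hx hy.neg hxy (by rw [cpr_neg_right cs h x hy]; omega)
  rwa [sub_neg_eq_add] at h1

theorem Sx_comb {T : Subgroup Y} (hA : ChAdd cs h T χ) (ht : t ∈ T) {x y z : I → ℤ} (hx : x ∈ Sx cs h χ t)
    (hy : y ∈ Sx cs h χ t) (hz : IsRoot cs h z) {i j : ℕ} (hzz : z = i • x + j • y) : z ∈ Sx cs h χ t := by
  obtain ⟨φ, h0, hadd, hφ⟩ := hA t ht
  have hs : ∀ (x : I → ℤ) (i : ℕ), φ x = 1 → φ (i • x) = 1 := by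
    intro x i hx
    induction i with
    | zero => rw [zero_smul, h0]
    | succ i ih => rw [succ_nsmul, hadd, ih, hx, one_mul]
  have hx1 : φ x = 1 := by rw [← hφ x hx.1]; exact hx.2
  have hy1 : φ y = 1 := by rw [← hφ y hy.1]; exact hy.2
  refine ⟨hz, ?_⟩
  rw [hφ z hz, hzz, hadd, hs x i hx1, hs y j hy1, one_mul]

theorem Sx_sub {T : Subgroup Y} (hA : ChAdd cs h T χ) (ht : t ∈ T) {x y z : I → ℤ} (hx : x ∈ Sx cs h χ t)
    (hy : y ∈ Sx cs h χ t) (hz : IsRoot cs h z) {j : ℤ} (hzz : z = x - j • y) : z ∈ Sx cs h χ t := by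
  obtain ⟨φ, h0, hadd, hφ⟩ := hA t ht
  have hx1 : φ x = 1 := by rw [← hφ x hx.1]; exact hx.2
  have hy1 : φ y = 1 := by rw [← hφ y hy.1]; exact hy.2
  have hneg : ∀ x : I → ℤ, φ x = 1 → φ (-x) = 1 := by
    intro x hx
    have h1 := hadd x (-x)
    rwa [add_neg_cancel, h0, hx, one_mul, eq_comm] at h1
  have hs : ∀ (x : I → ℤ) (i : ℕ), φ x = 1 → φ (i • x) = 1 := by
    intro x i hx
    induction i with
    | zero => rw [zero_smul, h0]
    | succ i ih => rw [succ_nsmul, hadd, ih, hx, one_mul]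
  have hz1 : φ (j • y) = 1 := by
    obtain ⟨k, rfl | rfl⟩ := j.eq_nat_or_neg
    · rw [natCast_zsmul]; exact hs y k hy1
    · rw [neg_smul, natCast_zsmul]; exact hneg _ (hs y k hy1)
  refine ⟨hz, ?_⟩
  rw [hφ z hz, hzz, sub_eq_add_neg, hadd, hx1, hneg _ hz1, one_mul]

variable (Dt : CW cs h T X χ θ t) (Bβ : Top cs h χ θ t β)

include Dt Bβ

theorem Sb_pos : Sb cs h χ t β ⊆ RGD.Pos cs h := fun _ ha => ⟨ha.1.1, ha.2.1⟩

theorem Sb_zcl : ZCl cs h (Sb cs h χ t β) := by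
  rintro x ⟨hx1, hx2, hx3⟩ y ⟨hy1, hy2, hy3⟩ z hz ⟨i, j, hi, hj, rfl⟩
  refine ⟨Sx_comb Dt.hA Dt.ht hx1 hy1 hz rfl, add_nonneg (nsmul_nonneg hx2 i) (nsmul_nonneg hy2 j), ?_⟩
  rw [cpr_add cs h _ _ Bβ.mem.1, ← natCast_zsmul, ← natCast_zsmul, cpr_smul cs h _ _ Bβ.mem.1,
    cpr_smul cs h _ _ Bβ.mem.1]
  have hi' : (0 : ℤ) < i := by exact_mod_cast hi
  have hj' : (0 : ℤ) < j := by exact_mod_cast hj
  positivity

theorem Sb_theta (hg : ∀ a, IsRoot cs h (θ a) ↔ IsRoot cs h a) : ∀ a ∈ Sb cs h χ t β, θ a ∈ Sb cs h χ t β := by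
  rintro a ⟨h1, h2, h3⟩
  refine ⟨(Dt.hS a).2 h1, Dt.hpos a h1 h2, ?_⟩
  have h4 := Cfsg.Agent.H123.ExcComb.cpr_g hg h1.1 Bβ.mem.1
  rw [Bβ.fix] at h4
  rw [h4]
  exact h3

theorem beta_mem_Sb : β ∈ Sb cs h χ t β := ⟨Bβ.mem, Bβ.pos, by rw [cpr_self cs h Bβ.mem.1]; norm_num⟩

theorem Sb_neg {a : I → ℤ} (ha : a ∈ Sb cs h χ t β) : a - cpr cs h a β • β ≤ 0 := by
  obtain ⟨h1, h2, h3⟩ := ha
  have hr := isRoot_refl cs h h1.1 Bβ.mem.1
  rcases hr.pos_or_neg with h4 | h4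
  · exfalso
    have h5 : a - cpr cs h a β • β ∈ Sx cs h χ t := Sx_sub Dt.hA Dt.ht h1 Bβ.mem hr rfl
    have h6 : cpr cs h (a - cpr cs h a β • β) β < 0 := by
      rw [sub_eq_add_neg, cpr_add cs h _ _ Bβ.mem.1, cpr_neg cs h _ Bβ.mem.1, cpr_smul cs h _ _ Bβ.mem.1,
        cpr_self cs h Bβ.mem.1]
      omega
    have h7 := add_root_of_neg hr Bβ.mem.1 (by
      intro h8
      rw [h8] at h4
      exact Bβ.mem.1.not_pos_neg Bβ.pos (neg_nonneg.1 h4)) h6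
    refine Bβ.top _ h5 h4 ?_
    rwa [add_comm] at h7
  · exact h4

theorem mem_Sb_of_sub {a : I → ℤ} (ha : a ∈ Sx cs h χ t) (hr : IsRoot cs h (β - a)) : a ∈ Sb cs h χ t β := by
  have hneg : -a ∈ Sx cs h χ t := by
    have := Sx_sub Dt.hA Dt.ht (x := a) (y := a) (z := -a) (j := 2) ha ha ha.1.neg (by module)
    exact this
  have h0 : 0 ≤ a := by
    rcases ha.1.pos_or_neg with h1 | h1
    · exact h1
    · exfalso
      refine Bβ.top (-a) hneg (neg_nonneg.2 h1) ?_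
      rwa [← sub_eq_add_neg]
  refine ⟨ha, h0, ?_⟩
  by_contra hcon
  push Not at hcon
  have hab : a ≠ -β := by
    intro h1
    rw [h1] at h0
    exact Bβ.mem.1.not_pos_neg Bβ.pos (neg_nonneg.1 h0)
  have hnr : ¬ IsRoot cs h (a + β) := by
    rw [add_comm]
    exact Bβ.top a ha h0
  rcases lt_or_eq_of_le hcon with h1 | h1
  · exact hnr (add_root_of_neg ha.1 Bβ.mem.1 hab h1)
  · apply hnr
    have h2 : IsRoot cs h (a - β) := by
      have := hr.neg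
      rwa [neg_sub] at this
    have h3 := isRoot_refl cs h h2 Bβ.mem.1
    have h4 : cpr cs h (a - β) β = -2 := by
      rw [sub_eq_add_neg, cpr_add cs h _ _ Bβ.mem.1, cpr_neg cs h _ Bβ.mem.1, cpr_self cs h Bβ.mem.1, h1]
      norm_num
    rw [h4] at h3
    have h5 : a - β - (-2 : ℤ) • β = a + β := by module
    rwa [h5] at h3

theorem Sb_up : RGD.Sup (XL X) (Sb cs h χ t β) ≤ Up cs h X χ t :=
  RGD.Sup_mono (S := Sb cs h χ t β) (S' := SP cs h χ t) fun _ ha => ⟨ha.1, ha.2.1⟩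

/-- **No commuting elements.** -/
theorem eq_one_of_comm (H : Tow cs h p T n X) {u y : Y} (hu : u ∈ RGD.Sup (XL X) (Sb cs h χ t β))
    (hy : y ∈ XL X (-β)) (hy1 : y ≠ 1) (huy : u * y = y * u) : u = 1 := by
  obtain ⟨w, i, hβ⟩ := id Bβ.mem.1
  obtain ⟨g, -, hg⟩ := H.exists_rp w
  -- to the simple root
  have hsr := isRoot_sr cs h i
  have h1 : g⁻¹ * y * g ∈ XL X (-sr i) := by
    have h2 := H.conj_rp hg hsr.neg
    rw [map_neg, ← hβ] at h2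
    rw [← h2] at hy
    have h3 : y = g * (g⁻¹ * y * g) * g⁻¹ := by group
    rw [h3] at hy
    exact conj_mem_cj.1 hy
  obtain ⟨j, hj⟩ := H.mem_XL.1 h1
  obtain ⟨a, ha, t', ht', b, hb, he⟩ := (H.rgd j).rk1 i _ hj (by
    intro h2
    apply hy1
    calc y = g * (g⁻¹ * y * g) * g⁻¹ := by group
      _ = 1 := by rw [h2]; group)
  have hXβ : ∀ {c : Y}, c ∈ X j (sr i) → g * c * g⁻¹ ∈ XL X β := by
    intro c hc
    have h2 := H.conj_rp hg hsr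
    rw [← hβ] at h2
    rw [← h2]
    exact conj_mem_cj.2 (le_XL j _ hc)
  have hk : Rp cs H.nsys (rfl' cs w i) (g * (t' * n i) * g⁻¹) := by
    have h2 : Rp cs H.nsys (w * (1 * cs.simple i) * w⁻¹) (g * (t' * n i) * g⁻¹) :=
      (hg.mul ((rp_of_mem (le_TL j ht')).mul (rp_simple cs H.nsys i))).mul hg.inv
    rwa [one_mul] at h2
  have hca := comm_UpW Dt Bβ (Sb_up Dt Bβ hu) (hXβ ha)
  have hcb := comm_UpW Dt Bβ (Sb_up Dt Bβ hu) (hXβ hb)
  obtain ⟨k, hkk⟩ : ∃ k, k = g * (t' * n i) * g⁻¹ := ⟨_, rfl⟩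
  obtain ⟨x1, hx1⟩ : ∃ x, x = g * a * g⁻¹ := ⟨_, rfl⟩
  obtain ⟨x2, hx2⟩ : ∃ x, x = g * b * g⁻¹ := ⟨_, rfl⟩
  rw [← hkk] at hk
  rw [← hx1] at hca
  rw [← hx2] at hcb
  have hyk : y = x1 * k * x2 := by
    calc y = g * (g⁻¹ * y * g) * g⁻¹ := by group
      _ = x1 * k * x2 := by rw [he, hx1, hx2, hkk]; group
  rw [hyk] at huy
  have h3 : u * k = k * u := by
    have h4 : x1 * (u * k) * x2 = x1 * (k * u) * x2 := by
      calc x1 * (u * k) * x2 = (x1 * u) * k * x2 := by group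
        _ = u * x1 * k * x2 := by rw [hca]
        _ = u * (x1 * k * x2) := by group
        _ = x1 * k * x2 * u := huy
        _ = x1 * k * (x2 * u) := by group
        _ = x1 * k * (u * x2) := by rw [hcb]
        _ = x1 * (k * u) * x2 := by group
    exact mul_left_cancel (mul_right_cancel h4)
  have h4 : k * u * k⁻¹ = u := by rw [← h3, mul_inv_cancel_right]
  have h5 : k * u * k⁻¹ ∈ RGD.Sup (XL X) (Neg cs h) := by
    refine conj_SupL H hk (S := Sb cs h χ t β) (fun x hx => hx.1.1) (fun x hx => ?_) hu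
    refine ⟨hx.1.1.act _, ?_⟩
    rw [rep_rfl'_eq, ← hβ]
    exact Sb_neg Dt Bβ hx
  rw [h4] at h5
  exact eq_one_of_pos_neg H (Up_le (Sb_up Dt Bβ hu)) h5

end Cfsg.Agent.H884.NA
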