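import Cfsg.Agent.H169.RG.MPsi
import Cfsg.Agent.H461.E2.Fix
import Cfsg.Agent.H884.NA.Frm
import Cfsg.Agent.H884.NA.Cnt

/-!
# S3509, exceptional row: the exceptional isomorphisms, in the frame (helper884)

`no_alt` : `M / Z(M)` is not `A_j` for the exceptional pairs `(r ^ e, j)`, if the number of the `a ∈ Sx t` such that `β - a` is a
root is at least five (`r ^ e = 2`), one (`r ^ e = 4, 5, 9`).
-/

set_option autoImplicit false
set_option linter.unusedSectionVars false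

namespace Cfsg.Agent.H884.NA

open CoxeterSystem Cfsg Cfsg.Lie Cfsg.Lie.ChevalleyDatum
open Cfsg.Agent.ChevalleyStructure Cfsg.Agent.ChevalleyStructure.Elts Cfsg.Agent.ChevalleyStructure.CoxeterGeom
  Cfsg.Agent.ChevalleyStructure.CoxeterGeomTypes Cfsg.Agent.ChevalleyStructure.NPerm
open Cfsg.Agent.Tits.Roots Cfsg.Agent.Tits.Core Cfsg.Agent.Nodes Cfsg.Agent.Nodes.Reps Cfsg.Agent.Nodes.BNOf
  Cfsg.Agent.Nodes.RGDChev Cfsg.Agent.Nodes.Bruhat Cfsg.Agent.Nodes.NormalForm Cfsg.Agent.Nodes.Coroot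
open Cfsg.Agent.KFacts.RgdField Cfsg.Agent.KFacts.RgdChevCoord
open Cfsg.Agent.BpExc Cfsg.Agent.BpExc.TorCent Cfsg.Agent.BpExc.TorChev Cfsg.Agent.BpExc.Tow
  Cfsg.Agent.BpExc.TowChev Cfsg.Agent.BpExc.Fr Cfsg.Agent.BpExc.Pair Cfsg.Agent.BpExc.LangFr Cfsg.Agent.GpExc.Field
  Cfsg.Agent.BpExc.NInst Cfsg.Agent.BpExc.NChev
open Cfsg.Agent.H469.Exc Cfsg.Agent.H316.U6 Cfsg.Agent.H28.RG Cfsg.Agent.H441.RG Cfsg.Agent.H169.RG
open Cfsg.Agent.H398.RG (MK Cond Base)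

variable {D : ChevalleyDatum} {l : ℕ} {M : CoxeterMatrix (Fin l)} {hp : IsType D l M} {r : ℕ} [hr : Fact r.Prime]
  {e : ℕ} {α : MulAut ↥(D.group (KK r))} {θ : (Fin l → ℤ) ≃+ (Fin l → ℤ)} {t : ↥(D.group (KK r))}

theorem two_smul_ne {I W : Type*} [Fintype I] [DecidableEq I] [Group W] {M : CoxeterMatrix I}
    {cs : CoxeterSystem M W} {A : I → I → ℤ} {h : IsCartan M A} {β a : I → ℤ} (hβ : IsRoot cs h β) : β - a ≠ a := by
  intro h1
  obtain ⟨w, i, hw⟩ := hβ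
  have h2 : β = a + a := sub_eq_iff_eq_add.1 h1
  have h3 : (sr i : I → ℤ) = rep cs h w⁻¹ a + rep cs h w⁻¹ a := by
    rw [← map_add, ← h2, hw, rep_inv_apply]
  have h4 := congrFun h3 i
  simp [sr] at h4
  omega

variable (d : Wk.DFr hp M.toCoxeterSystem r e α θ t) {β : Fin l → ℤ}
  (Bβ : Top M.toCoxeterSystem hp.isCartan (ch hp) θ t β)

include d Bβ

theorem gam_even : Even {a | a ∈ Sx M.toCoxeterSystem hp.isCartan (ch hp) t ∧
    IsRoot M.toCoxeterSystem hp.isCartan (β - a)}.ncard := by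
  classical
  have := finite_W hp M.toCoxeterSystem
  have hD := cwD d
  have hfin : {a | a ∈ Sx M.toCoxeterSystem hp.isCartan (ch hp) t ∧
      IsRoot M.toCoxeterSystem hp.isCartan (β - a)}.Finite :=
    (RGD.finite_roots (cs := M.toCoxeterSystem) (h := hp.isCartan)).subset fun a ha => ha.1.1
  rw [Set.ncard_eq_toFinset_card _ hfin]
  have h1 : ∑ _a ∈ hfin.toFinset, (1 : ZMod 2) = 0 := by
    refine Finset.sum_involution (fun a _ => β - a) (fun a _ => by decide) (fun a _ _ => ?_) (fun a ha => ?_)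
      (fun a _ => sub_sub_cancel β a)
    · exact two_smul_ne Bβ.mem.1
    · rw [Set.Finite.mem_toFinset] at ha ⊢
      refine ⟨Sx_sub hD.hA hD.ht Bβ.mem ha.1 ha.2 (j := 1) (by rw [one_smul]), ?_⟩
      rw [sub_sub_cancel]
      exact ha.1.1
  rw [Finset.sum_const, nsmul_eq_mul, mul_one] at h1
  exact (ZMod.natCast_eq_zero_iff_even).1 h1

theorem sb_card : {a | a ∈ Sx M.toCoxeterSystem hp.isCartan (ch hp) t ∧
    IsRoot M.toCoxeterSystem hp.isCartan (β - a)}.ncard + 1 ≤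
      (Sb M.toCoxeterSystem hp.isCartan (ch hp) t β).ncard := by
  have := finite_W hp M.toCoxeterSystem
  have hD := cwD d
  have hfin : (Sb M.toCoxeterSystem hp.isCartan (ch hp) t β).Finite :=
    (RGD.finite_roots (cs := M.toCoxeterSystem) (h := hp.isCartan)).subset fun a ha => ha.1.1
  have hβ : β ∉ {a | a ∈ Sx M.toCoxeterSystem hp.isCartan (ch hp) t ∧
      IsRoot M.toCoxeterSystem hp.isCartan (β - a)} := by
    rintro ⟨-, h1⟩
    rw [sub_self] at h1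
    exact h1.ne_zero rfl
  rw [← Set.ncard_insert_of_notMem hβ ((RGD.finite_roots (cs := M.toCoxeterSystem) (h := hp.isCartan)).subset
    fun a ha => ha.1.1)]
  refine Set.ncard_le_ncard ?_ hfin
  rintro a (rfl | ha)
  · exact beta_mem_Sb hD Bβ
  · exact mem_Sb_of_sub hD Bβ ha.1 ha.2

/-- **The exceptional isomorphisms do not occur.** -/
theorem no_alt [Finite ↥(fixC α t)]
    (hQ : (r ^ e = 2 → 5 ≤ {a | a ∈ Sx M.toCoxeterSystem hp.isCartan (ch hp) t ∧
        IsRoot M.toCoxeterSystem hp.isCartan (β - a)}.ncard) ∧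
      (r ^ e = 4 ∨ r ^ e = 5 ∨ r ^ e = 9 → 1 ≤ {a | a ∈ Sx M.toCoxeterSystem hp.isCartan (ch hp) t ∧
        IsRoot M.toCoxeterSystem hp.isCartan (β - a)}.ncard)) :
    ∀ j, ExcAlt (r ^ e) j → ¬ Nonempty ((↥(MK (H169.RG.KT hp α t) (XF l α β)) ⧸
      Subgroup.center ↥(MK (H169.RG.KT hp α t) (XF l α β))) ≃* alternatingGroup (Fin j)) := by
  rintro j hE ⟨f⟩
  have := finite_W hp M.toCoxeterSystem
  have hD := cwD d
  have hfin : Finite ↥(H169.RG.KT hp α t) := Finite.of_injective _ (Subgroup.inclusion_injective (KT_le d))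
  have hB := baseF d Bβ
  have hI : ImgH (r ^ e) (XF l α β) (XF l α (-β)) := (imgK_XF d Bβ).img
  have H := tow (k := KK r) hp M.toCoxeterSystem (locFin r) r
  obtain ⟨k, hk, hkY⟩ := hB.conjY
  obtain ⟨x, hx, hx1⟩ : ∃ x ∈ XF l α β, x ≠ 1 := by
    by_contra hcon
    push Not at hcon
    exact hB.ne ((Subgroup.eq_bot_iff_forall _).2 hcon)
  have hy : k * x * k⁻¹ ∈ XF l α (-β) := by
    rw [← hkY]
    exact ⟨x, hx, rfl⟩
  have hy1 : k * x * k⁻¹ ≠ 1 := fun h1 => hx1 (by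
    calc x = k⁻¹ * (k * x * k⁻¹) * k := by group
      _ = 1 := by rw [h1]; group)
  have hcV := H461.E2.Fix.card_fix (hp := hp) (locFin r) r d.he d.frob d.fr (Sb_pos hD Bβ) (Sb_zcl hD Bβ)
    (Sb_theta hD Bβ d.fr.root)
  have hsb := sb_card d Bβ
  have hev := gam_even d Bβ
  have hq1 : 1 < r ^ e := Nat.one_lt_pow d.he.ne' hr.out.one_lt
  refine count_kill hB (q := r ^ e) (e := e) rfl hI hE (QuotientGroup.mk' _) (QuotientGroup.mk'_surjective _)
    (by rw [QuotientGroup.ker_mk']) f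
    (RGD.Sup (XX D l (KK r)) (Sb M.toCoxeterSystem hp.isCartan (ch hp) t β) ⊓ fixedSubgroup α) ?_ hy hy1 ?_ ?_ ?_
  · refine le_trans ?_ (le_sup_left.trans le_sup_left : PK hp M.toCoxeterSystem α t ≤ H169.RG.KT hp α t)
    exact inf_le_inf_right _ (RGD.Sup_mono fun _ ha => ⟨ha.1, ha.2.1⟩)
  · intro u hu huy
    refine eq_one_of_comm hD Bβ H (y := k * x * k⁻¹) ?_ ?_ hy1 huy
    · rw [XL_eq hp (locFin r)]
      exact hu.1
    · rw [XL_eq hp (locFin r)]
      exact hy.1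
  · rw [hcV]
    apply Nat.pow_le_pow_right (by omega)
    rcases hE with ⟨h1, -⟩ | ⟨h1, -⟩ | ⟨h1, -⟩ | ⟨h1, -⟩
    · have := hQ.2 (Or.inl h1); omega
    · have := hQ.2 (Or.inr (Or.inl h1)); omega
    · have := hQ.2 (Or.inr (Or.inr h1)); omega
    · have := hQ.1 h1; omega
  · intro h2
    rw [hcV, h2]
    have h3 := hQ.1 h2
    have h4 : 7 ≤ (Sb M.toCoxeterSystem hp.isCartan (ch hp) t β).ncard := by
      obtain ⟨m, hm⟩ := hev
      omega
    exact le_trans (by norm_num) (Nat.pow_le_pow_right (by norm_num : 0 < 2) h4)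

end Cfsg.Agent.H884.NA
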