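import Cfsg.Agent.H884.NA.SL2

/-!
# S3509, exceptional row: forbidden configurations (helper884)
-/

set_option autoImplicit false
set_option linter.unusedSectionVars false
set_option linter.style.haveILetI false

namespace Cfsg.Agent.H884.NA

open Matrix

variable {p : ℕ} [Fact p.Prime] {F : Type*} [Field F] [CharP F p] {G : Type*} [Group G]

theorem eq_one_of_coprime {Y : Subgroup G} (hY : IsPGroup p Y) {u : G} (hu : u ∈ Y) {k : ℕ} (hk : u ^ k = 1)
    (hkp : k.Coprime p) : u = 1 := by
  obtain ⟨n, hn⟩ := hY ⟨u, hu⟩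
  have h1 : u ^ p ^ n = 1 := by
    have := congrArg Subtype.val hn
    simpa using this
  have h2 : orderOf u ∣ 1 := by
    have h3 := Nat.dvd_gcd (orderOf_dvd_of_pow_eq_one hk) (orderOf_dvd_of_pow_eq_one h1)
    rwa [Nat.Coprime.pow_right n hkp] at h3
  rw [Nat.dvd_one] at h2
  exact orderOf_eq_one_iff.1 h2

/-- in `SL₂(F)`: `a ^ p = 1`, `a ≠ 1`, `b` commutes with `a`, `b ^ k` central, `k` prime to `p`: `b` is central -/
theorem central_of_comm {a b : SpecialLinearGroup (Fin 2) F} (hap : a ^ p = 1) (ha1 : a ≠ 1) (hab : a * b = b * a)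
    {k : ℕ} (hbk : b ^ k ∈ Subgroup.center (SpecialLinearGroup (Fin 2) F)) (hkp : k.Coprime p) :
    b ∈ Subgroup.center (SpecialLinearGroup (Fin 2) F) := by
  have hp : p.Prime := Fact.out
  obtain ⟨A, hA⟩ : ∃ A : Matrix (Fin 2) (Fin 2) F, A = a := ⟨_, rfl⟩
  obtain ⟨B, hB⟩ : ∃ B : Matrix (Fin 2) (Fin 2) F, B = b := ⟨_, rfl⟩
  have hAp : A ^ p = 1 := by
    rw [hA]
    exact (Matrix.SpecialLinearGroup.coe_pow a p).symm.trans (congrArg Subtype.val hap)
  have hA1 : A ≠ 1 := by
    intro h
    apply ha1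
    apply Subtype.ext
    rw [← hA, h]; rfl
  have hAB : A * B = B * A := by
    have := congrArg Subtype.val hab
    rw [hA, hB]
    exact this
  have hBd : B.det = 1 := by rw [hB]; exact b.2
  have hN2 : (A - 1) * (A - 1) = 0 := by
    apply sq_zero_of_pow (k := p) hp.ne_zero
    have h1 : Commute A (1 : Matrix (Fin 2) (Fin 2) F) := Commute.one_right A
    rw [sub_pow_char_of_commute p h1, hAp, one_pow, sub_self]
  obtain ⟨N, hN⟩ : ∃ N, N = A - 1 := ⟨_, rfl⟩
  rw [← hN] at hN2
  have hN0 : N ≠ 0 := by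
    intro h
    apply hA1
    rw [hN] at h
    exact sub_eq_zero.1 h
  obtain ⟨htr, hdet⟩ := tr_det_of_sq hN2
  have hNB : N * B = B * N := by
    rw [hN, sub_mul, mul_sub, hAB, one_mul, mul_one]
  have hns : ¬ (N 0 1 = 0 ∧ N 1 0 = 0 ∧ N 0 0 = N 1 1) := by
    rintro ⟨h1, h2, h3⟩
    apply hN0
    rw [Matrix.det_fin_two, h1, h3] at hdet
    have h4 : N 1 1 = 0 := by
      have : N 1 1 * N 1 1 = 0 := by linear_combination hdet
      exact mul_self_eq_zero.1 this
    ext i j
    fin_cases i <;> fin_cases j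
    · simp [h3, h4]
    · simp [h1]
    · simp [h2]
    · simp [h4]
  obtain ⟨α, β, hBe⟩ := comm2 hNB hns
  have hα : α * α = 1 := by
    have h1 : B.det = α * α := by
      rw [hBe, Matrix.det_fin_two]
      rw [Matrix.det_fin_two] at hdet
      rw [Matrix.trace_fin_two] at htr
      simp
      linear_combination α * β * htr + β * β * hdet
    rw [← h1, hBd]
  have hB2 : B * B = 1 + (2 * α * β) • N := by
    rw [hBe, add_mul, mul_add, mul_add, smul_mul_smul_comm, smul_mul_smul_comm, smul_mul_smul_comm,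
      smul_mul_smul_comm, hN2, smul_zero, add_zero, hα, one_smul, one_mul, one_mul, mul_one, add_assoc, ← add_smul]
    congr 2
    ring
  have hBk : (B * B) ^ k = 1 := by
    have h1 := center_sq hbk
    have h2 : (b * b) ^ k = 1 := by
      rw [← pow_two, ← pow_mul, mul_comm, pow_mul, pow_two, h1]
    have h3 := congrArg Subtype.val h2
    rw [hB]
    exact h3
  rw [hB2, one_add_pow hN2, add_eq_left, smul_eq_zero] at hBk
  have hk0 : (k : F) ≠ 0 := by
    intro h
    rw [CharP.cast_eq_zero_iff F p] at h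
    exact hp.one_lt.ne' (Nat.eq_one_of_dvd_coprimes hkp h dvd_rfl)
  have hα0 : α ≠ 0 := by rintro rfl; simp at hα
  have h2β : (2 : F) * β = 0 := by
    rcases hBk with h | h
    · have h1 : (2 * β) * ((k : F) * α) = 0 := by linear_combination h
      exact (mul_eq_zero.1 h1).resolve_right (mul_ne_zero hk0 hα0)
    · exact absurd h hN0
  by_cases hp2 : p = 2
  · subst hp2
    have h1 : b * b = 1 := by
      apply Subtype.ext
      change (b : Matrix (Fin 2) (Fin 2) F) * b = 1
      rw [← hB, hB2]
      have : 2 * α * β = 0 := by linear_combination α * h2β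
      rw [this, zero_smul, add_zero]
    have h2 : b ^ k = 1 := center_two hbk
    have h3 : b = 1 := by
      have hk2 : k % 2 = 1 := Nat.odd_iff.1 (Nat.coprime_two_right.1 hkp)
      have h4 : b ^ k = b := by
        conv_lhs => rw [← Nat.div_add_mod k 2, hk2, pow_add, pow_mul, pow_two, h1, one_pow, one_mul, pow_one]
      rw [← h4, h2]
    rw [h3]
    exact Subgroup.one_mem _
  · have h20 : (2 : F) ≠ 0 := by
      intro h
      have h1 : ((2 : ℕ) : F) = 0 := by exact_mod_cast h
      rw [CharP.cast_eq_zero_iff F p] at h1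
      have h2 := Nat.le_of_dvd (by norm_num) h1
      have h3 := hp.two_le
      omega
    have hβ : β = 0 := (mul_eq_zero.1 h2β).resolve_left h20
    apply center_of_scalar (r := α)
    rw [← hB, hBe, hβ, zero_smul, add_zero]

/-- **forbidden 1** -/
theorem forb_cent {Y : Subgroup G} (hY : PairP p F Y) {z u g : G} (hz : z ∈ Y) (hu : u ∈ Y) (hg : g ∈ Y)
    (hzp : z ^ p = 1) (hz1 : z ≠ 1) (hzu : z * u = u * z) {k : ℕ} (huk : u ^ k = 1) (hk : k.Coprime p) :
    u * g = g * u := by
  have hp : p.Prime := Fact.out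
  rcases hY with hY | ⟨φ, rfl, hker⟩
  · rw [eq_one_of_coprime hY hu huk hk, one_mul, mul_one]
  · obtain ⟨a, rfl⟩ := hz
    obtain ⟨b, rfl⟩ := hu
    obtain ⟨c, rfl⟩ := hg
    have hak : a ^ p ∈ φ.ker := by rw [MonoidHom.mem_ker, map_pow, hzp]
    have hbk : b ^ k ∈ φ.ker := by rw [MonoidHom.mem_ker, map_pow, huk]
    have hb : b ∈ Subgroup.center (SpecialLinearGroup (Fin 2) F) := by
      by_cases hp2 : p = 2
      · subst hp2
        have h1 : a ^ 2 = 1 := center_two (hker hak)
        have h2 : a * b * a⁻¹ * b⁻¹ ∈ φ.ker := by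
          rw [MonoidHom.mem_ker, map_mul, map_mul, map_mul, map_inv, map_inv, hzu]
          group
        have h3 := center_two (hker h2)
        have h4 : a * b = b * a := by
          have := congrArg (· * b * a) h3
          simpa [mul_assoc] using this
        refine central_of_comm (p := 2) h1 ?_ h4 (hker hbk) hk
        rintro rfl
        exact hz1 (map_one φ)
      · have hodd : p % 2 = 1 := hp.eq_two_or_odd.resolve_left hp2
        have h1 : (a * a) ^ p = 1 := by
          rw [← pow_two, ← pow_mul, mul_comm, pow_mul, pow_two]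
          exact center_sq (hker hak)
        have h1' : a * a ≠ 1 := by
          intro h
          apply hz1
          have h2 : φ a ^ 2 = 1 := by rw [← map_pow, pow_two, h, map_one]
          have h3 : orderOf (φ a) ∣ Nat.gcd 2 p := Nat.dvd_gcd (orderOf_dvd_of_pow_eq_one h2)
            (orderOf_dvd_of_pow_eq_one hzp)
          rw [Nat.Coprime.gcd_eq_one (Nat.coprime_two_left.2 (Nat.odd_iff.2 hodd)), Nat.dvd_one] at h3
          exact orderOf_eq_one_iff.1 h3
        have h2 : (a * a) * b * (a * a)⁻¹ * b⁻¹ ∈ φ.ker := by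
          rw [MonoidHom.mem_ker, map_mul, map_mul, map_mul, map_inv, map_inv, map_mul]
          have h5 : φ a * φ a * φ b = φ b * (φ a * φ a) := by rw [mul_assoc, hzu, ← mul_assoc, hzu, mul_assoc]
          rw [h5]
          group
        obtain ⟨e, he⟩ : ∃ e, e = (a * a) * b * (a * a)⁻¹ * b⁻¹ := ⟨_, rfl⟩
        rw [← he] at h2
        have hec := hker h2
        have he2 := center_sq hec
        have hconj : b * (a * a) * b⁻¹ = e⁻¹ * (a * a) := by rw [he]; simp [mul_assoc]
        have hep : e⁻¹ ^ p = 1 := by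
          have h3 : (b * (a * a) * b⁻¹) ^ p = 1 := by rw [conj_pow, h1]; group
          have h6 : Commute e⁻¹ (a * a) := by
            have := (Subgroup.mem_center_iff.1 hec (a * a)).symm
            exact Commute.inv_left this
          rw [hconj, h6.mul_pow, h1, mul_one] at h3
          exact h3
        have he1 : e = 1 := by
          have h3 : e⁻¹ ^ 2 = 1 := by rw [inv_pow, pow_two, he2, inv_one]
          have h4 : orderOf e⁻¹ ∣ Nat.gcd 2 p := Nat.dvd_gcd (orderOf_dvd_of_pow_eq_one h3)
            (orderOf_dvd_of_pow_eq_one hep)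
          rw [Nat.Coprime.gcd_eq_one (Nat.coprime_two_left.2 (Nat.odd_iff.2 hodd)), Nat.dvd_one] at h4
          exact inv_eq_one.1 (orderOf_eq_one_iff.1 h4)
        have h4 : (a * a) * b = b * (a * a) := by
          rw [he1, inv_one, one_mul] at hconj
          calc (a * a) * b = (b * (a * a) * b⁻¹) * b := by rw [hconj]
            _ = b * (a * a) := by group
        exact central_of_comm h1 h1' h4 (hker hbk) hk
    rw [← map_mul, ← map_mul, Subgroup.mem_center_iff.1 hb c]

/-- **forbidden 2**: characteristic 2, elements of order 4 and of odd order -/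
theorem forb_four [CharP F 2] {Y : Subgroup G} (hY : PairP 2 F Y) {w v : G} (hw : w ∈ Y) (hv : v ∈ Y)
    (hw4 : w ^ 4 = 1) (hv3 : v ^ 3 = 1) (hv1 : v ≠ 1) : w ^ 2 = 1 := by
  haveI : Fact (Nat.Prime 2) := ⟨Nat.prime_two⟩
  rcases hY with hY | ⟨φ, rfl, hker⟩
  · exact absurd (eq_one_of_coprime hY hv hv3 (by norm_num)) hv1
  · obtain ⟨a, rfl⟩ := hw
    have ha : a ^ 4 = 1 := center_two (hker (by rw [MonoidHom.mem_ker, map_pow, hw4]))
    have h1 : a * a = 1 := by
      obtain ⟨A, hA⟩ : ∃ A : Matrix (Fin 2) (Fin 2) F, A = a := ⟨_, rfl⟩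
      have hA4 : A ^ 4 = 1 := by
        rw [hA]
        exact (Matrix.SpecialLinearGroup.coe_pow a 4).symm.trans (congrArg Subtype.val ha)
      have h2 : (A - 1) * (A - 1) = 0 := by
        apply sq_zero_of_pow (k := 2 ^ 2) (by norm_num)
        have h1 : Commute A (1 : Matrix (Fin 2) (Fin 2) F) := Commute.one_right A
        rw [sub_pow_char_pow_of_commute 2 2 h1]
        change A ^ 4 - _ = 0
        rw [hA4, one_pow, sub_self]
      have h3 : A * A = 1 := by
        have h4 : (2 : Matrix (Fin 2) (Fin 2) F) = 0 := by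
          have h5 : ((2 : ℕ) : Matrix (Fin 2) (Fin 2) F) = 0 := CharP.cast_eq_zero _ 2
          exact_mod_cast h5
        have h6 : (A - 1) * (A - 1) = A * A - 2 * A + 1 := by noncomm_ring
        rw [h6, h4, zero_mul, sub_zero] at h2
        have h7 : A * A = -1 := eq_neg_of_add_eq_zero_left h2
        rw [h7]
        have h8 : (1 : Matrix (Fin 2) (Fin 2) F) + 1 = 0 := by rw [one_add_one_eq_two, h4]
        exact (eq_neg_of_add_eq_zero_left h8).symm
      apply Subtype.ext
      change (a : Matrix (Fin 2) (Fin 2) F) * a = 1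
      rw [← hA, h3]
    rw [← map_pow, pow_two, h1, map_one]

end Cfsg.Agent.H884.NA
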