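import Cfsg.Agent.H884.NA.Forb

/-!
# S3509, exceptional row: no `C₃ × C₃` in characteristic `≠ 3` (helper884)
-/

set_option autoImplicit false
set_option linter.unusedSectionVars false

namespace Cfsg.Agent.H884.NA

open Matrix

variable {F : Type*} [Field F]

theorem not_scalar3 {A : Matrix (Fin 2) (Fin 2) F} (hd : A.det = 1) (h3 : A ^ 3 = 1) (h1 : A ≠ 1) :
    ¬ (A 0 1 = 0 ∧ A 1 0 = 0 ∧ A 0 0 = A 1 1) := by
  rintro ⟨e1, e2, e3⟩
  apply h1
  have hA : A = A 1 1 • 1 := by
    ext i j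
    fin_cases i <;> fin_cases j
    · simp [e3]
    · simp [e1]
    · simp [e2]
    · simp
  rw [Matrix.det_fin_two, e1, e3] at hd
  have h4 : A 1 1 ^ 3 = 1 := by
    rw [hA] at h3
    have h5 := congrFun (congrFun h3 1) 1
    rw [smul_pow, one_pow] at h5
    simpa using h5
  have h6 : A 1 1 = 1 := by
    linear_combination h4 - A 1 1 * hd
  rw [hA, h6, one_smul]

theorem tr3 {A : Matrix (Fin 2) (Fin 2) F} (hd : A.det = 1) (h3 : A ^ 3 = 1) (h1 : A ≠ 1) : A.trace = -1 := by
  have hns := not_scalar3 hd h3 h1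
  have h2 : A * A = A.trace • A - 1 := by rw [ch2, hd, one_smul]
  obtain ⟨t, ht⟩ : ∃ t, t = A.trace := ⟨_, rfl⟩
  rw [← ht] at h2 ⊢
  have h4 : (t * t - 1) • A - t • (1 : Matrix (Fin 2) (Fin 2) F) = 1 := by
    have h5 : A ^ 3 = (A * A) * A := by rw [pow_succ, pow_two]
    rw [h5, h2, sub_mul, smul_mul_assoc, h2, one_mul, smul_sub, smul_smul] at h3
    refine Eq.trans ?_ h3
    rw [sub_smul, one_smul]
    abel
  have e00 := congrFun (congrFun h4 0) 0
  have e01 := congrFun (congrFun h4 0) 1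
  have e10 := congrFun (congrFun h4 1) 0
  have e11 := congrFun (congrFun h4 1) 1
  simp at e00 e01 e10 e11
  by_cases ht1 : t * t - 1 = 0
  · rw [ht1] at e00
    linear_combination -e00
  · exfalso
    apply hns
    have e01' := e01.resolve_left ht1
    have e10' := e10.resolve_left ht1
    refine ⟨e01', e10', ?_⟩
    have h5 : (t * t - 1) * (A 0 0 - A 1 1) = 0 := by linear_combination e00 - e11
    exact sub_eq_zero.1 ((mul_eq_zero.1 h5).resolve_left ht1)

theorem eq_or3 (h30 : (3 : F) ≠ 0) {A B : Matrix (Fin 2) (Fin 2) F} (hdA : A.det = 1) (hdB : B.det = 1)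
    (hA3 : A ^ 3 = 1) (hB3 : B ^ 3 = 1) (hA1 : A ≠ 1) (hB1 : B ≠ 1) (hAB : A * B = B * A) :
    B = A ∨ B = A * A := by
  have tA := tr3 hdA hA3 hA1
  have tB := tr3 hdB hB3 hB1
  obtain ⟨α, β, hB⟩ := comm2 hAB (not_scalar3 hdA hA3 hA1)
  have h1 : 2 * α - β = -1 := by
    have h2 : B.trace = 2 * α + β * A.trace := by
      rw [hB, Matrix.trace_add, Matrix.trace_smul, Matrix.trace_smul, Matrix.trace_one]
      simp
      ring
    rw [tA, tB] at h2
    linear_combination -h2
  have h2 : α * α - α * β + β * β = 1 := by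
    have h3 : B.det = α * α + α * β * A.trace + β * β * A.det := by
      rw [hB, Matrix.det_fin_two, Matrix.det_fin_two, Matrix.trace_fin_two]
      simp
      ring
    rw [hdB, hdA, tA] at h3
    linear_combination -h3
  have h3 : 3 * (α * (α + 1)) = 0 := by
    have hβ : β = 2 * α + 1 := by linear_combination -h1
    rw [hβ] at h2
    linear_combination h2
  rcases mul_eq_zero.1 ((mul_eq_zero.1 h3).resolve_left h30) with h4 | h4
  · left
    have hβ : β = 1 := by rw [h4] at h1; linear_combination -h1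
    rw [hB, h4, hβ, zero_smul, zero_add, one_smul]
  · right
    have hα : α = -1 := eq_neg_of_add_eq_zero_left h4
    have hβ : β = -1 := by rw [hα] at h1; linear_combination -h1
    rw [hB, ch2 A, hα, hβ, tA, hdA]
    module

variable {p : ℕ} [Fact p.Prime] [CharP F p] {G : Type*} [Group G]

theorem lift3 {φ : SpecialLinearGroup (Fin 2) F →* G}
    (hker : φ.ker ≤ Subgroup.center (SpecialLinearGroup (Fin 2) F)) {a : SpecialLinearGroup (Fin 2) F}
    (h : φ a ^ 3 = 1) : ∃ b, φ b = φ a ∧ b ^ 3 = 1 := by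
  have h1 := center_sq (hker (show a ^ 3 ∈ φ.ker by rw [MonoidHom.mem_ker, map_pow, h]))
  refine ⟨a ^ 4, ?_, ?_⟩
  · rw [map_pow, pow_succ, h, one_mul]
  · calc (a ^ 4) ^ 3 = (a ^ 3 * a ^ 3) * (a ^ 3 * a ^ 3) := by
          rw [← pow_mul, ← pow_add, ← pow_add]
      _ = 1 := by rw [h1, one_mul]

/-- **forbidden 3** -/
theorem forb33 {Y : Subgroup G} (hY : PairP p F Y) (hp3 : p ≠ 3) {g h : G} (hg : g ∈ Y) (hh : h ∈ Y)
    (hg3 : g ^ 3 = 1) (hh3 : h ^ 3 = 1) (hgh : g * h = h * g) (hg1 : g ≠ 1) (hh1 : h ≠ 1) :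
    h = g ∨ h = g * g := by
  have hp : p.Prime := Fact.out
  rcases hY with hY | ⟨φ, rfl, hker⟩
  · have hcop : Nat.Coprime 3 p := (Nat.coprime_primes Nat.prime_three hp).2 (Ne.symm hp3)
    exact absurd (eq_one_of_coprime hY hg hg3 hcop) hg1
  · obtain ⟨a₀, rfl⟩ := hg
    obtain ⟨b₀, rfl⟩ := hh
    obtain ⟨a, ha, ha3⟩ := lift3 hker hg3
    obtain ⟨b, hb, hb3⟩ := lift3 hker hh3
    rw [← ha] at hg1 hgh ⊢
    rw [← hb] at hh1 hgh ⊢
    have h30 : (3 : F) ≠ 0 := by
      intro h
      have h1 : ((3 : ℕ) : F) = 0 := by exact_mod_cast h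
      rw [CharP.cast_eq_zero_iff F p] at h1
      exact hp3 ((Nat.prime_dvd_prime_iff_eq hp Nat.prime_three).1 h1)
    obtain ⟨e, he⟩ : ∃ e, e = a * b * a⁻¹ * b⁻¹ := ⟨_, rfl⟩
    have hek : e ∈ φ.ker := by
      rw [he, MonoidHom.mem_ker, map_mul, map_mul, map_mul, map_inv, map_inv, hgh]
      group
    have hec := hker hek
    have he2 := center_sq hec
    have hconj : b * a * b⁻¹ = e⁻¹ * a := by rw [he]; simp [mul_assoc]
    have he3 : e⁻¹ ^ 3 = 1 := by
      have h3 : (b * a * b⁻¹) ^ 3 = 1 := by rw [conj_pow, ha3]; group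
      have h6 : Commute e⁻¹ a := Commute.inv_left (Subgroup.mem_center_iff.1 hec a).symm
      rw [hconj, h6.mul_pow, ha3, mul_one] at h3
      exact h3
    have he1 : e = 1 := by
      have h3 : e⁻¹ ^ 2 = 1 := by rw [inv_pow, pow_two, he2, inv_one]
      have h4 : e⁻¹ = 1 := by
        have h5 : e⁻¹ ^ 3 = e⁻¹ ^ 2 * e⁻¹ := pow_succ _ _
        rw [h3, he3, one_mul] at h5
        exact h5.symm
      exact inv_eq_one.1 h4
    have hab : a * b = b * a := by
      rw [he1, inv_one, one_mul] at hconj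
      calc a * b = (b * a * b⁻¹) * b := by rw [hconj]
        _ = b * a := by group
    have key := eq_or3 h30 (A := a.1) (B := b.1) a.2 b.2
      ((Matrix.SpecialLinearGroup.coe_pow a 3).symm.trans (congrArg Subtype.val ha3))
      ((Matrix.SpecialLinearGroup.coe_pow b 3).symm.trans (congrArg Subtype.val hb3))
      (fun h => hg1 (by rw [show a = 1 from Subtype.ext h, map_one]))
      (fun h => hh1 (by rw [show b = 1 from Subtype.ext h, map_one])) (congrArg Subtype.val hab)
    rcases key with h | h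
    · left; rw [show b = a from Subtype.ext h]
    · right
      rw [show b = a * a from Subtype.ext h, map_mul]

end Cfsg.Agent.H884.NA
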