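import Cfsg.Agent.H884.NA.SLker
import Cfsg.Agent.ChevalleyStructure.SL2Hom

/-!
# S3509, exceptional row: images of `SL₂(q)` (helper884)
-/

set_option autoImplicit false
set_option linter.unusedSectionVars false

namespace Cfsg.Agent.H884.NA

section img

variable {G : Type*} [Group G]

/-- the kernel of a homomorphism from `SL₂(q)` injective on a root group is central, or the image is a `p`-group -/
theorem ker_or {F : Type*} [Field F] [Fintype F] {p e : ℕ} (hp : p.Prime) (hq : Fintype.card F = p ^ e)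
    (φ : Matrix.SpecialLinearGroup (Fin 2) F →* G)
    (hU : ∀ t, φ (Cfsg.Agent.Lib.SL2Mat.up t) = 1 → t = 0) :
    φ.ker ≤ Subgroup.center _ ∨ IsPGroup p φ.range := by
  classical
  have hN : φ.ker.Normal := inferInstance
  have hU' : ∀ t : F, Cfsg.Agent.Lib.SL2Mat.up t ∈ φ.ker → t = 0 := fun t ht => hU t ht
  by_cases hs : ∃ s : F, s ≠ 0 ∧ s ^ 4 ≠ 1
  · exact Or.inl (big hN hU' hs)
  push Not at hs
  have h1 : Fintype.card F - 1 ∣ 4 := by
    rw [← FiniteField.forall_pow_eq_one_iff]
    intro x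
    apply Units.ext
    rw [Units.val_pow_eq_pow_val, Units.val_one]
    exact hs _ x.ne_zero
  have h2 : 1 < Fintype.card F := Fintype.one_lt_card
  have h0 : (Fintype.card F : F) = 0 := FiniteField.cast_card_eq_zero F
  have hpow : ∀ s : F, s ≠ 0 → s ^ (Fintype.card F - 1) = 1 := fun s hs => FiniteField.pow_card_sub_one_eq_one s hs
  have h3 : Fintype.card F = 2 ∨ Fintype.card F = 3 ∨ Fintype.card F = 5 := by
    have h4 : Fintype.card F - 1 ≤ 4 := Nat.le_of_dvd (by norm_num) h1
    obtain ⟨k, hk⟩ : ∃ k, Fintype.card F = k + 1 := ⟨Fintype.card F - 1, by omega⟩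
    rw [hk] at h1 h4 h2 ⊢
    rw [Nat.add_sub_cancel] at h1 h4
    interval_cases k <;> omega
  have hpc : ∀ c : ℕ, c.Prime → Fintype.card F = c → p = c := by
    intro c hc h
    rw [h] at hq
    have h5 : p ∣ c := by
      rw [hq]
      refine dvd_pow_self p ?_
      rintro rfl
      rw [pow_zero] at hq
      exact hc.one_lt.ne' hq
    exact (Nat.prime_dvd_prime_iff_eq hp hc).1 h5
  rcases h3 with h3 | h3 | h3
  · by_cases hne : φ.ker ≤ Subgroup.center _
    · exact Or.inl hne
    · right
      have hp2 : p = 2 := hpc 2 Nat.prime_two h3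
      subst hp2
      rintro ⟨_, a, rfl⟩
      refine ⟨1, Subtype.ext ?_⟩
      rw [h3] at h0 hpow
      have h4 := two hN hU' (by exact_mod_cast h0) (fun s => by
        by_cases h : s = 0
        · exact Or.inl h
        · right; simpa using hpow s h) hne a
      change (φ a) ^ 2 ^ 1 = 1
      rw [pow_one, ← map_pow]
      exact h4
  · by_cases hne : φ.ker ≤ Subgroup.center _
    · exact Or.inl hne
    · right
      have hp3 : p = 3 := hpc 3 Nat.prime_three h3
      subst hp3
      rintro ⟨_, a, rfl⟩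
      refine ⟨1, Subtype.ext ?_⟩
      rw [h3] at h0 hpow
      have h4 := three hN hU' (by exact_mod_cast h0) (fun s hs => by
        rw [← pow_two]
        exact hpow s hs) hne a
      change (φ a) ^ 3 ^ 1 = 1
      rw [pow_one, ← map_pow]
      exact h4
  · left
    rw [h3] at h0
    exact five hN hU' (by exact_mod_cast h0)

open Cfsg.Agent.ChevalleyStructure.SL2Hom (up lo mem_closure_SL2) in
/-- the pair property from a homomorphism -/
theorem pairQ_of_hom {p q e : ℕ} (hp : p.Prime) (hq : q = p ^ e) {X X' : Subgroup G}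
    (h : ∃ (F : Type) (_ : Field F) (_ : Fintype F) (φ : Matrix.SpecialLinearGroup (Fin 2) F →* G),
      Fintype.card F = q ∧ (∀ y, y ∈ X ↔ ∃ t, φ (up t) = y) ∧ (∀ y, y ∈ X' ↔ ∃ t, φ (lo t) = y) ∧
        (∀ t, φ (up t) = 1 → t = 0)) : PairQ p q (X ⊔ X') := by
  obtain ⟨F, _, _, φ, hF, h1, h2, h3⟩ := h
  have hr : φ.range = X ⊔ X' := by
    apply le_antisymm
    · rw [MonoidHom.range_eq_map, Subgroup.map_le_iff_le_comap]
      intro g _
      refine (Subgroup.closure_le _).2 ?_ (mem_closure_SL2 g)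
      rintro x (⟨t, rfl⟩ | ⟨t, rfl⟩)
      · exact Subgroup.mem_sup_left ((h1 _).2 ⟨t, rfl⟩)
      · exact Subgroup.mem_sup_right ((h2 _).2 ⟨t, rfl⟩)
    · refine sup_le ?_ ?_
      · intro y hy
        obtain ⟨t, rfl⟩ := (h1 y).1 hy
        exact ⟨_, rfl⟩
      · intro y hy
        obtain ⟨t, rfl⟩ := (h2 y).1 hy
        exact ⟨_, rfl⟩
  rcases ker_or hp (hF.trans hq) φ (fun t ht => h3 t ht) with h4 | h4
  · exact Or.inr ⟨F, _, _, hF, φ, hr, h4⟩
  · left
    rw [← hr]
    exact h4

/-- conjugate pairs -/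
theorem PairQ.conj {p q : ℕ} {Y : Subgroup G} (h : PairQ p q Y) (u : G) :
    PairQ p q (Y.map (MulAut.conj u).toMonoidHom) := by
  apply h.map
  intro x hx
  have h1 : x = 1 := (MulAut.conj u).injective ((show (MulAut.conj u).toMonoidHom x = 1 from hx).trans
    (map_one (MulAut.conj u)).symm)
  rw [h1]
  exact one_mem _

end img

end Cfsg.Agent.H884.NA
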