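import Cfsg.Agent.H884.NA.Rest

/-!
# S3509, exceptional row: not an alternating group (helper884)
-/

set_option autoImplicit false
set_option linter.unusedSectionVars false
set_option maxRecDepth 100000

namespace Cfsg.Agent.H884.NA

open Equiv Equiv.Perm

/-- counting orbits -/
theorem card_dvd_support {α : Type*} [Fintype α] [DecidableEq α] (X : Subgroup (Perm α)) (s : ℕ)
    (h : ∀ z ∈ X, z ≠ 1 → z.support.card = s) (hne : ∃ z ∈ X, z ≠ 1) : Nat.card X ∣ s := by
  classical
  have hs : s ≤ Fintype.card α := by
    obtain ⟨z, hz, hz1⟩ := hne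
    rw [← h z hz hz1]
    exact Finset.card_le_univ _
  have hfix : ∀ z : X, Fintype.card (MulAction.fixedBy α z) + (z : Perm α).support.card = Fintype.card α := by
    intro z
    have h1 : Fintype.card (MulAction.fixedBy α z) = (((z : Perm α).support)ᶜ).card := by
      rw [Fintype.card_of_finset' ((z : Perm α).supportᶜ)]
      intro a
      rw [Finset.mem_compl, notMem_support]
      rfl
    rw [h1, add_comm]
    exact Finset.card_add_card_compl _
  have hb := MulAction.sum_card_fixedBy_eq_card_orbits_mul_card_group X α
  have h2 : ∑ z : X, Fintype.card (MulAction.fixedBy α z) = Fintype.card X * (Fintype.card α - s) + s := by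
    rw [← Finset.add_sum_erase _ _ (Finset.mem_univ (1 : X))]
    have h3 : ∑ z ∈ Finset.univ.erase (1 : X), Fintype.card (MulAction.fixedBy α z) =
        (Fintype.card X - 1) * (Fintype.card α - s) := by
      rw [Finset.sum_const_nat (m := Fintype.card α - s)]
      · rw [Finset.card_erase_of_mem (Finset.mem_univ _), Finset.card_univ]
      · intro z hz
        have h4 := hfix z
        rw [h z z.2 (fun h5 => (Finset.ne_of_mem_erase hz) (Subtype.ext h5))] at h4
        omega
    have h5 : Fintype.card (MulAction.fixedBy α (1 : X)) = Fintype.card α := by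
      have h6 := hfix 1
      rw [OneMemClass.coe_one, support_one, Finset.card_empty] at h6
      omega
    rw [h3, h5]
    have h7 : 0 < Fintype.card X := Fintype.card_pos
    obtain ⟨k, hk⟩ : ∃ k, Fintype.card X = k + 1 := ⟨Fintype.card X - 1, by omega⟩
    rw [hk, Nat.add_sub_cancel, add_mul, one_mul]
    omega
  rw [h2] at hb
  rw [Nat.card_eq_fintype_card]
  have h8 : Fintype.card X ∣ Fintype.card X * (Fintype.card α - s) + s := by
    rw [hb]; exact Dvd.intro_left _ rfl
  exact (Nat.dvd_add_right (Dvd.intro _ rfl)).1 h8

/-- **F6**: the pair property is impossible in an alternating group of degree at least seven -/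
theorem not_alt_perm {α : Type*} [Fintype α] [DecidableEq α] {p : ℕ} [Fact p.Prime] {F : Type*} [Field F]
    [Fintype F] [CharP F p] (hm : 7 ≤ Fintype.card α) (h8 : Fintype.card F = 2 → Fintype.card α ≠ 8)
    (X : Subgroup (Perm α)) (hA : X ≤ alternatingGroup α) (hc : Nat.card X = Fintype.card F)
    (hab : ∀ x ∈ X, ∀ y ∈ X, x * y = y * x) (hp : ∀ x ∈ X, x ^ p = 1)
    (hpair : ∀ t ∈ alternatingGroup α, PairP p F (YY X t)) : False := by
  classical
  have hpp : p.Prime := Fact.out
  have hF : 1 < Nat.card X := by rw [hc]; exact Fintype.one_lt_card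
  obtain ⟨x, hx, hx1⟩ : ∃ x ∈ X, x ≠ 1 := by
    by_contra h
    push Not at h
    rw [(Subgroup.eq_bot_iff_forall X).2 h, Subgroup.card_bot] at hF
    omega
  rcases hpp.eq_two_or_odd with h2 | hodd
  · subst h2
    by_cases hex : ∃ x ∈ X, x ≠ 1 ∧ ¬ (x.support.card = 8 ∧ Fintype.card α = 8)
    · obtain ⟨x, hx, hx1, hne⟩ := hex
      exact case_two hm hA hpair hx (hp x hx) hx1 hne
    · push Not at hex
      have hα : Fintype.card α = 8 := (hex x hx hx1).2
      have hF2 : Fintype.card F ≠ 2 := fun h => h8 h hα
      obtain ⟨y, hy, hy1, hxy⟩ : ∃ y ∈ X, y ≠ 1 ∧ x ≠ y := by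
        by_contra h
        push Not at h
        apply hF2
        rw [← hc]
        have h1 : (X : Set (Perm α)) = {1, x} := by
          ext z
          constructor
          · intro hz
            by_cases hz1 : z = 1
            · exact Or.inl hz1
            · exact Or.inr (h z hz hz1).symm
          · rintro (rfl | rfl)
            · exact X.one_mem
            · exact hx
        have h2 : Nat.card X = ({1, x} : Set (Perm α)).ncard := by
          rw [← h1]; rfl
        rw [h2, Set.ncard_pair (Ne.symm hx1)]
      refine case_eight hα hpair hx hy (hp x hx) (hp y hy) hx1 hy1 hxy (hab x hx y hy) ?_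
      intro z hz hz1 a ha
      have h1 := (hex z hz hz1).1
      have h2 : z.support = Finset.univ := Finset.eq_univ_of_card _ (h1.trans hα.symm)
      have h3 : a ∈ z.support := by rw [h2]; exact Finset.mem_univ _
      exact mem_support.1 h3 ha
  · by_cases h3 : p = 3
    · subst h3
      by_cases hex : ∃ x ∈ X, 3 < x.support.card
      · obtain ⟨x, hx, hs⟩ := hex
        exact case_three hm hpair hx (hp x hx) hs
      · push Not at hex
        have h3 : ∀ z ∈ X, z ≠ 1 → z.support.card = 3 := by
          intro z hz hz1
          apply le_antisymm (hex z hz)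
          have ho : orderOf z = 3 := orderOf_eq_prime (hp z hz) hz1
          obtain ⟨n, hn⟩ := cycleType_prime_order (σ := z) (by rw [ho]; exact Nat.prime_three)
          rw [← sum_cycleType, hn, Multiset.sum_replicate, ho, smul_eq_mul]
          omega
        have hd := card_dvd_support X 3 h3 ⟨x, hx, hx1⟩
        have hq : Fintype.card F = 3 := by
          rw [← hc]
          rcases (Nat.dvd_prime Nat.prime_three).1 hd with h | h
          · omega
          · exact h
        exact case_three' hq (by omega) hpair hx (hp x hx) hx1 (hex x hx)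
    · by_cases h5 : p = 5
      · subst h5
        exact case_five hm hpair hx (hp x hx) hx1
      · have h7 : 7 ≤ p := by
          by_contra hlt
          have h1 : p < 7 := by omega
          have h2 := hpp.two_le
          interval_cases p <;> omega
        exact case_seven h7 hpair hx (hp x hx) hx1

theorem not_alt {p m : ℕ} [Fact p.Prime] {F : Type*} [Field F] [Fintype F] [CharP F p] (hm : 7 ≤ m)
    (h8 : Fintype.card F = 2 → m ≠ 8) (X : Subgroup (Perm (Fin m))) (hA : X ≤ alternatingGroup (Fin m))
    (hc : Nat.card X = Fintype.card F) (hab : ∀ x ∈ X, ∀ y ∈ X, x * y = y * x) (hp : ∀ x ∈ X, x ^ p = 1)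
    (hpair : ∀ t ∈ alternatingGroup (Fin m), IsPGroup p ↥(X ⊔ X.map (MulAut.conj t).toMonoidHom) ∨
      ∃ φ : Matrix.SpecialLinearGroup (Fin 2) F →* Perm (Fin m), φ.range = X ⊔ X.map (MulAut.conj t).toMonoidHom ∧
        φ.ker ≤ Subgroup.center _) : False :=
  not_alt_perm (by rw [Fintype.card_fin]; exact hm) (by rw [Fintype.card_fin]; exact h8) X hA hc hab hp hpair

end Cfsg.Agent.H884.NA
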