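import Cfsg.Agent.H884.NA.Cases

/-!
# S3509, exceptional row: remaining cases (helper884)
-/

set_option autoImplicit false
set_option linter.unusedSectionVars false
set_option maxRecDepth 100000

namespace Cfsg.Agent.H884.NA

open Equiv Equiv.Perm

variable {α : Type*} [Fintype α] [DecidableEq α] {F : Type*} [Field F]

/-! ### `p = 2`, eight points -/

abbrev I8 := Fin 2 × Fin 2 × Fin 2

abbrev x8 : Perm I8 := Equiv.prodCongr (Equiv.refl _) (Equiv.prodCongr (finRotate 2) (Equiv.refl _))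

abbrev y8 : Perm I8 := Equiv.prodCongr (Equiv.refl _) (Equiv.prodCongr (Equiv.refl _) (finRotate 2))

abbrev c8 : Perm I8 := swap (0, 0, 0) (0, 1, 0) * swap (0, 1, 0) (1, 1, 1)

theorem s8 : sign c8 = 1 := by decide +kernel
theorem a8 : (x8 * (c8⁻¹ * y8 * c8)) ^ 4 = 1 := by decide +kernel
theorem a8' : (x8 * (c8⁻¹ * y8 * c8)) ^ 2 ≠ 1 := by decide +kernel
theorem b8 : (y8 * (c8⁻¹ * y8 * c8)) ^ 3 = 1 := by decide +kernel
theorem b8' : (y8 * (c8⁻¹ * y8 * c8)) ≠ 1 := by decide +kernel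

theorem eq_V {I : Type*} [Fintype I] [DecidableEq I] {ι : I ↪ α} (hs : Function.Surjective ι) {x : Perm α}
    {x₀ : Perm I} (h : ∀ i, x (ι i) = ι (x₀ i)) : x = V ι x₀ := by
  ext a
  obtain ⟨i, rfl⟩ := hs a
  rw [h, V_apply]

theorem case_eight [CharP F 2] (h8 : Fintype.card α = 8) {X : Subgroup (Perm α)}
    (hpair : ∀ t ∈ alternatingGroup α, PairP 2 F (YY X t)) {x y : Perm α} (hx : x ∈ X) (hy : y ∈ X)
    (hx2 : x ^ 2 = 1) (hy2 : y ^ 2 = 1) (hx1 : x ≠ 1) (hy1 : y ≠ 1) (hxy : x ≠ y) (hc : x * y = y * x)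
    (hf : ∀ z ∈ X, z ≠ 1 → ∀ a, z a ≠ a) : False := by
  let κ : ℤ → ℤ → Perm α := fun i j => x ^ i * y ^ j
  have hκX : ∀ i j, κ i j ∈ X := fun i j => mul_mem (zpow_mem hx i) (zpow_mem hy j)
  have hκs : ∀ i j i' j', (κ i' j')⁻¹ * κ i j = κ (i - i') (j - j') := by
    intro i j i' j'
    change (x ^ i' * y ^ j')⁻¹ * (x ^ i * y ^ j) = x ^ (i - i') * y ^ (j - j')
    have hcc : Commute x y := hc
    have h1 : Commute (x ^ i') (y ^ j') := (hcc.zpow_left i').zpow_right j'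
    rw [h1.eq, mul_inv_rev, sub_eq_neg_add, sub_eq_neg_add, zpow_add, zpow_add, zpow_neg, zpow_neg]
    have h2 : Commute (y ^ j')⁻¹ (x ^ i) := ((hcc.zpow_left i).zpow_right j').symm.inv_left
    calc (x ^ i')⁻¹ * (y ^ j')⁻¹ * (x ^ i * y ^ j) = (x ^ i')⁻¹ * ((y ^ j')⁻¹ * x ^ i) * y ^ j := by group
      _ = (x ^ i')⁻¹ * x ^ i * ((y ^ j')⁻¹ * y ^ j) := by rw [h2.eq]; group
  have hκm : ∀ i j, κ i j = κ (i % 2) (j % 2) := by
    intro i j
    change x ^ i * y ^ j = x ^ (i % 2) * y ^ (j % 2)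
    rw [zpow_eq_zpow_emod i (n := 2) (by exact_mod_cast hx2), zpow_eq_zpow_emod j (n := 2) (by exact_mod_cast hy2)]
  have hκ1 : ∀ i j, κ i j = 1 → i % 2 = 0 ∧ j % 2 = 0 := by
    intro i j h
    rw [hκm] at h
    have hi := Int.emod_two_eq_zero_or_one i
    have hj := Int.emod_two_eq_zero_or_one j
    change x ^ (i % 2) * y ^ (j % 2) = 1 at h
    rcases hi with hi | hi <;> rcases hj with hj | hj
    · exact ⟨hi, hj⟩
    · rw [hi, hj, zpow_zero, one_mul, zpow_one] at h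
      exact absurd h hy1
    · rw [hi, hj, zpow_zero, mul_one, zpow_one] at h
      exact absurd h hx1
    · rw [hi, hj, zpow_one, zpow_one] at h
      exfalso
      apply hxy
      have hyy : y * y = 1 := by rw [← pow_two, hy2]
      calc x = x * y * y := by rw [mul_assoc, hyy, mul_one]
        _ = y := by rw [h, one_mul]
  have hκf : ∀ i j a, κ i j a = a → i % 2 = 0 ∧ j % 2 = 0 := by
    intro i j a h
    apply hκ1
    by_contra h1
    exact hf _ (hκX i j) h1 a h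
  obtain ⟨a₀, -⟩ : ∃ a : α, a ∈ (Finset.univ : Finset α) := Finset.card_pos.1 (by rw [Finset.card_univ]; omega)
  obtain ⟨a₁, ha₁⟩ : ∃ a₁ : α, ∀ e f : Fin 2, κ e f a₀ ≠ a₁ := by
    by_contra hcon
    push Not at hcon
    have h1 : (Finset.univ : Finset α) ⊆ Finset.univ.image fun ef : Fin 2 × Fin 2 => κ ef.1 ef.2 a₀ := by
      intro b _
      obtain ⟨e, f, h⟩ := hcon b
      exact Finset.mem_image.2 ⟨(e, f), Finset.mem_univ _, h⟩
    have h2 := (Finset.card_le_card h1).trans Finset.card_image_le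
    rw [Finset.card_univ, Finset.card_univ, Fintype.card_prod, Fintype.card_fin] at h2
    omega
  have ha₁' : ∀ i j : ℤ, κ i j a₀ ≠ a₁ := by
    intro i j
    rw [hκm]
    have h1 : (i % 2).toNat < 2 := by omega
    have h2 : (j % 2).toNat < 2 := by omega
    have h3 := ha₁ ⟨_, h1⟩ ⟨_, h2⟩
    have h4 : (((⟨(i % 2).toNat, h1⟩ : Fin 2) : ℕ) : ℤ) = i % 2 := by
      change (((i % 2).toNat : ℕ) : ℤ) = i % 2
      omega
    have h5 : (((⟨(j % 2).toNat, h2⟩ : Fin 2) : ℕ) : ℤ) = j % 2 := by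
      change (((j % 2).toNat : ℕ) : ℤ) = j % 2
      omega
    rwa [h4, h5] at h3
  let aa : Fin 2 → α := ![a₀, a₁]
  have hsub : ∀ {i j i' j' : ℤ} {b b' : α}, κ i j b = κ i' j' b' → κ (i - i') (j - j') b = b' := by
    intro i j i' j' b b' h
    rw [← hκs, mul_apply, h]
    exact (κ i' j').symm_apply_apply b'
  let ι : I8 ↪ α := ⟨fun t => κ t.2.1 t.2.2 (aa t.1), by
    rintro ⟨j, e, f⟩ ⟨j', e', f'⟩ h
    change κ e f (aa j) = κ e' f' (aa j') at h
    have h1 := hsub h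
    have key : j = j' := by
      fin_cases j <;> fin_cases j'
      · rfl
      · exact absurd h1 (ha₁' _ _)
      · exact absurd (hsub h.symm) (ha₁' _ _)
      · rfl
    subst key
    obtain ⟨h2, h3⟩ := hκf _ _ _ h1
    have b1 := e.isLt
    have b2 := e'.isLt
    have b3 := f.isLt
    have b4 := f'.isLt
    have e1 : e = e' := Fin.ext (by omega)
    have e2 : f = f' := Fin.ext (by omega)
    rw [e1, e2]⟩
  have hsurj : Function.Surjective ι := by
    have h1 : Function.Bijective ι := by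
      rw [Fintype.bijective_iff_injective_and_card]
      exact ⟨ι.injective, by rw [h8]; rfl⟩
    exact h1.2
  have hrot : ∀ e : Fin 2, ((finRotate 2 e : Fin 2) : ℤ) % 2 = ((e : ℤ) + 1) % 2 := by decide
  have hxV : x = V ι x8 := by
    apply eq_V hsurj
    rintro ⟨j, e, f⟩
    change x (κ e f (aa j)) = κ (finRotate 2 e : Fin 2) f (aa j)
    have h1 : x * κ e f = κ (e + 1) f := by
      change x * (x ^ (e : ℤ) * y ^ (f : ℤ)) = x ^ ((e : ℤ) + 1) * y ^ (f : ℤ)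
      rw [← mul_assoc, ← zpow_one_add, add_comm]
    rw [← mul_apply, h1, hκm, ← hrot, ← hκm]
  have hyV : y = V ι y8 := by
    apply eq_V hsurj
    rintro ⟨j, e, f⟩
    change y (κ e f (aa j)) = κ e (finRotate 2 f : Fin 2) (aa j)
    have h1 : y * κ e f = κ e (f + 1) := by
      change y * (x ^ (e : ℤ) * y ^ (f : ℤ)) = x ^ (e : ℤ) * y ^ ((f : ℤ) + 1)
      have hcc : Commute y (x ^ (e : ℤ)) := (show Commute y x from hc.symm).zpow_right _
      rw [← mul_assoc, hcc.eq, mul_assoc, ← zpow_one_add, add_comm]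
    rw [← mul_apply, h1, hκm, ← hrot, ← hκm]
  have hY := hpair (V ι c8)⁻¹ (inv_mem (V_mem ι s8))
  have h1 : x * ((V ι c8)⁻¹ * y * V ι c8) ∈ YY X (V ι c8)⁻¹ := mul_mem (mem_YY_left hx) (mem_YY_right hy)
  have h2 : y * ((V ι c8)⁻¹ * y * V ι c8) ∈ YY X (V ι c8)⁻¹ := mul_mem (mem_YY_left hy) (mem_YY_right hy)
  have h3 : x * ((V ι c8)⁻¹ * y * V ι c8) = V ι (x8 * (c8⁻¹ * y8 * c8)) := by
    rw [hxV, hyV, map_mul (V ι) x8, map_mul (V ι) (c8⁻¹ * y8), map_mul (V ι) c8⁻¹, map_inv (V ι) c8]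
  have h4 : y * ((V ι c8)⁻¹ * y * V ι c8) = V ι (y8 * (c8⁻¹ * y8 * c8)) := by
    rw [hyV, map_mul (V ι) y8, map_mul (V ι) (c8⁻¹ * y8), map_mul (V ι) c8⁻¹, map_inv (V ι) c8]
  rw [h3] at h1
  rw [h4] at h2
  have h5 := forb_four hY h1 h2 (by rw [← map_pow, a8, map_one]) (by rw [← map_pow, b8, map_one])
    (fun h => b8' (V_inj ι (h.trans (map_one _).symm)))
  rw [← map_pow] at h5
  exact a8' (V_inj ι (h5.trans (map_one _).symm))

/-! ### `p = 3`, `q = 3` -/

theorem pow12 [Fintype F] (h3 : Fintype.card F = 3) (a : Matrix.SpecialLinearGroup (Fin 2) F) : a ^ 12 = 1 := by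
  obtain ⟨A, hA⟩ : ∃ A : Matrix (Fin 2) (Fin 2) F, A = a.1 := ⟨_, rfl⟩
  have hd : A.det = 1 := by rw [hA]; exact a.2
  obtain ⟨t, ht⟩ : ∃ t, t = A.trace := ⟨_, rfl⟩
  have h2 : A * A = t • A - 1 := by rw [ch2, hd, one_smul, ht]
  have ht3 : t ^ 3 = t := by rw [← h3]; exact FiniteField.pow_card t
  have h4 : A ^ 12 = 1 := by
    have h5 : t * ((t - 1) * (t + 1)) = 0 := by linear_combination ht3
    rcases mul_eq_zero.1 h5 with h6 | h6
    · rw [h6, zero_smul, zero_sub] at h2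
      calc A ^ 12 = (A * A) ^ 6 := by rw [← pow_two, ← pow_mul]
        _ = 1 := by rw [h2, Even.neg_one_pow (by decide)]
    · rcases mul_eq_zero.1 h6 with h7 | h7
      · have h8 : t = 1 := sub_eq_zero.1 h7
        rw [h8, one_smul] at h2
        have h9 : A ^ 3 = -1 := by
          rw [pow_succ, pow_two, h2, sub_mul, h2, one_mul]; abel
        calc A ^ 12 = (A ^ 3) ^ 4 := by rw [← pow_mul]
          _ = 1 := by rw [h9, Even.neg_one_pow (by decide)]
      · have h8 : t = -1 := eq_neg_of_add_eq_zero_left h7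
        rw [h8, neg_smul, one_smul] at h2
        have h9 : A ^ 3 = 1 := by
          rw [pow_succ, pow_two, h2, sub_mul, neg_mul, h2, one_mul]; abel
        calc A ^ 12 = (A ^ 3) ^ 4 := by rw [← pow_mul]
          _ = 1 := by rw [h9, one_pow]
  apply Subtype.ext
  exact (Matrix.SpecialLinearGroup.coe_pow a 12).trans (by rw [← hA, h4]; rfl)

abbrev c33 : Perm ((Fin 1 × Fin 3) ⊕ Fin 2) := swap (P 0 0) (Q 0) * swap (P 0 1) (Q 1)

theorem s33 : sign c33 = 1 := by decide +kernel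
theorem a33 : (w0 (x0 2 1 2) c33) ^ 5 = 1 := by decide +kernel
theorem b33 : (w0 (x0 2 1 2) c33) ≠ 1 := by decide +kernel

theorem case_three' [CharP F 3] [Fintype F] (h3 : Fintype.card F = 3) (hm : 5 ≤ Fintype.card α)
    {X : Subgroup (Perm α)} (hpair : ∀ t ∈ alternatingGroup α, PairP 3 F (YY X t)) {x : Perm α} (hx : x ∈ X)
    (hx3 : x ^ 3 = 1) (hx1 : x ≠ 1) (hs : x.support.card ≤ 3) : False := by
  have : Fact (Nat.Prime 3) := ⟨Nat.prime_three⟩
  have h0 : 0 < x.support.card := Finset.card_pos.2 (by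
    rw [Finset.nonempty_iff_ne_empty]
    exact fun h => hx1 (support_eq_empty_iff.1 h))
  obtain ⟨ι, hι⟩ := exists_emb (n := 2) Nat.prime_three hx3 1 2 (by omega) (by omega)
  have hY := hpair (V ι c33)⁻¹ (inv_mem (V_mem ι s33))
  obtain ⟨w, hw⟩ : ∃ w, w = V ι (w0 (x0 2 1 2) c33) := ⟨_, rfl⟩
  have hwY : w ∈ YY X (V ι c33)⁻¹ := by
    rw [hw, ← V_comm hι]
    exact mul_mem (mem_YY_right hx) (inv_mem (mem_YY_left hx))
  have hw5 : w ^ 5 = 1 := by rw [hw, ← map_pow, a33, map_one]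
  have hw1 : w ≠ 1 := by
    intro h
    rw [hw] at h
    exact b33 (V_inj ι (h.trans (map_one _).symm))
  rcases hY with hY | ⟨φ, hφ, hker⟩
  · exact hw1 (eq_one_of_coprime hY hwY hw5 (by norm_num))
  · rw [← hφ] at hwY
    obtain ⟨a, rfl⟩ := hwY
    have h12 : φ a ^ 12 = 1 := by rw [← map_pow, pow12 h3, map_one]
    apply hw1
    have h4 : orderOf (φ a) ∣ Nat.gcd 5 12 := Nat.dvd_gcd (orderOf_dvd_of_pow_eq_one hw5)
      (orderOf_dvd_of_pow_eq_one h12)
    exact orderOf_eq_one_iff.1 (Nat.dvd_one.1 h4)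

end Cfsg.Agent.H884.NA
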