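import Mathlib

/-!
# S3509, exceptional row: root-like classes in alternating groups (helper884)

Forbidden configurations in quotients of `SL₂(F)` by central subgroups.
-/

set_option autoImplicit false

namespace Cfsg.Agent.H884.NA

open Matrix

/-- pair property: a `p`-group or a central quotient of `SL₂(F)` -/
def PairP (p : ℕ) (F : Type*) [Field F] {G : Type*} [Group G] (Y : Subgroup G) : Prop :=
  IsPGroup p Y ∨ ∃ φ : SpecialLinearGroup (Fin 2) F →* G, φ.range = Y ∧ φ.ker ≤ Subgroup.center _

section mat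

variable {F : Type*} [Field F]

theorem ch2 (N : Matrix (Fin 2) (Fin 2) F) : N * N = N.trace • N - N.det • (1 : Matrix (Fin 2) (Fin 2) F) := by
  ext i j
  fin_cases i <;> fin_cases j <;>
    simp [Matrix.mul_apply, Matrix.trace, Matrix.det_fin_two, Fin.sum_univ_two] <;> ring

theorem sq_zero_of_pow {N : Matrix (Fin 2) (Fin 2) F} {k : ℕ} (hk : k ≠ 0) (h : N ^ k = 0) : N * N = 0 := by
  have hd : N.det = 0 := by
    have h1 := congrArg Matrix.det h
    rw [Matrix.det_pow, Matrix.det_zero] at h1
    exact pow_eq_zero_iff hk |>.1 h1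
  have h1 : N * N = N.trace • N := by rw [ch2, hd, zero_smul, sub_zero]
  have h2 : ∀ j : ℕ, N ^ (j + 1) = N.trace ^ j • N := by
    intro j
    induction j with
    | zero => simp
    | succ j ih => rw [pow_succ, ih, smul_mul_assoc, h1, smul_smul, pow_succ]
  obtain ⟨j, rfl⟩ : ∃ j, k = j + 1 := ⟨k - 1, by omega⟩
  rw [h2, smul_eq_zero] at h
  rcases h with h | h
  · have h3 : N.trace = 0 := by
      by_contra h4
      exact pow_ne_zero j h4 h
    rw [h1, h3, zero_smul]
  · rw [h, mul_zero]

theorem tr_det_of_sq {N : Matrix (Fin 2) (Fin 2) F} (h : N * N = 0) : N.trace = 0 ∧ N.det = 0 := by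
  have hd : N.det = 0 := by
    have h1 := congrArg Matrix.det h
    rw [Matrix.det_mul, Matrix.det_zero] at h1
    exact mul_self_eq_zero.1 h1
  refine ⟨?_, hd⟩
  have h1 := ch2 N
  rw [h, hd, zero_smul, sub_zero] at h1
  rcases smul_eq_zero.1 h1.symm with h2 | h2
  · exact h2
  · rw [h2, Matrix.trace_zero]

/-- the centraliser of a non-scalar matrix -/
theorem comm2 {A B : Matrix (Fin 2) (Fin 2) F} (h : A * B = B * A)
    (hA : ¬ (A 0 1 = 0 ∧ A 1 0 = 0 ∧ A 0 0 = A 1 1)) :
    ∃ α β : F, B = α • (1 : Matrix (Fin 2) (Fin 2) F) + β • A := by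
  have e00 := congrFun (congrFun h 0) 0
  have e01 := congrFun (congrFun h 0) 1
  have e10 := congrFun (congrFun h 1) 0
  have e11 := congrFun (congrFun h 1) 1
  simp only [Matrix.mul_apply, Fin.sum_univ_two] at e00 e01 e10 e11
  by_cases h1 : A 0 1 = 0
  · by_cases h2 : A 1 0 = 0
    · have h3 : A 0 0 - A 1 1 ≠ 0 := fun h3 => hA ⟨h1, h2, sub_eq_zero.1 h3⟩
      have b01 : B 0 1 = 0 := by
        have : (A 0 0 - A 1 1) * B 0 1 = 0 := by rw [h1] at e01; linear_combination e01
        exact (mul_eq_zero.1 this).resolve_left h3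
      have b10 : B 1 0 = 0 := by
        have : (A 0 0 - A 1 1) * B 1 0 = 0 := by rw [h2] at e10; linear_combination -e10
        exact (mul_eq_zero.1 this).resolve_left h3
      refine ⟨B 0 0 - (B 0 0 - B 1 1) / (A 0 0 - A 1 1) * A 0 0, (B 0 0 - B 1 1) / (A 0 0 - A 1 1), ?_⟩
      ext i j
      fin_cases i <;> fin_cases j
      · simp
      · simp [h1, b01]
      · simp [h2, b10]
      · simp
        field_simp
        ring
    · refine ⟨B 0 0 - B 1 0 / A 1 0 * A 0 0, B 1 0 / A 1 0, ?_⟩
      ext i j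
      fin_cases i <;> fin_cases j
      · simp
      · simp
        field_simp
        linear_combination e11
      · simp [h2]
      · simp
        field_simp
        linear_combination -e10
  · refine ⟨B 0 0 - B 0 1 / A 0 1 * A 0 0, B 0 1 / A 0 1, ?_⟩
    ext i j
    fin_cases i <;> fin_cases j
    · simp
    · simp [h1]
    · simp
      field_simp
      linear_combination e00
    · simp
      field_simp
      linear_combination e01

theorem one_add_pow {N : Matrix (Fin 2) (Fin 2) F} (h : N * N = 0) (γ : F) (k : ℕ) :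
    (1 + γ • N) ^ k = 1 + ((k : F) * γ) • N := by
  induction k with
  | zero => simp
  | succ k ih =>
    rw [pow_succ, ih, add_mul, mul_add, mul_add, one_mul, mul_one, one_mul, smul_mul_smul_comm, h, smul_zero,
      add_zero, Nat.cast_succ, add_assoc, ← add_smul]
    congr 2
    ring

end mat

section center

variable {F : Type*} [Field F]

theorem center_scalar {c : SpecialLinearGroup (Fin 2) F} (hc : c ∈ Subgroup.center (SpecialLinearGroup (Fin 2) F)) :
    ∃ r : F, r * r = 1 ∧ (c : Matrix (Fin 2) (Fin 2) F) = r • 1 := by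
  obtain ⟨r, h1, h2⟩ := Matrix.SpecialLinearGroup.mem_center_iff.1 hc
  refine ⟨r, by simpa [pow_two] using h1, ?_⟩
  rw [← h2, Matrix.scalar_apply, Matrix.smul_one_eq_diagonal]

theorem center_of_scalar {c : SpecialLinearGroup (Fin 2) F} {r : F} (h : (c : Matrix (Fin 2) (Fin 2) F) = r • 1) :
    c ∈ Subgroup.center (SpecialLinearGroup (Fin 2) F) := by
  rw [Subgroup.mem_center_iff]
  intro g
  apply Subtype.ext
  change (g : Matrix (Fin 2) (Fin 2) F) * c = c * g
  rw [h, mul_smul_comm, smul_mul_assoc, one_mul, mul_one]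

theorem center_sq {c : SpecialLinearGroup (Fin 2) F} (hc : c ∈ Subgroup.center (SpecialLinearGroup (Fin 2) F)) :
    c * c = 1 := by
  obtain ⟨r, h1, h2⟩ := center_scalar hc
  apply Subtype.ext
  change (c : Matrix (Fin 2) (Fin 2) F) * c = 1
  rw [h2, smul_mul_smul_comm, h1, one_smul, one_mul]

theorem center_two [CharP F 2] {c : SpecialLinearGroup (Fin 2) F}
    (hc : c ∈ Subgroup.center (SpecialLinearGroup (Fin 2) F)) : c = 1 := by
  obtain ⟨r, h1, h2⟩ := center_scalar hc
  have h3 : (r - 1) * (r - 1) = 0 := by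
    have h4 : (2 : F) = 0 := CharTwo.two_eq_zero
    linear_combination h1 + (1 - r) * h4
  have h4 : r = 1 := sub_eq_zero.1 (mul_self_eq_zero.1 h3)
  apply Subtype.ext
  rw [h2, h4, one_smul]
  rfl

end center

end Cfsg.Agent.H884.NA
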