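import Cfsg.Agent.H884.NA.Quot
import Cfsg.Agent.Lib.SL2Mat

/-!
# S3509, exceptional row: kernels of homomorphisms from `SL₂(q)` (helper884)
-/

set_option autoImplicit false
set_option linter.unusedSectionVars false
set_option linter.unusedSimpArgs false

namespace Cfsg.Agent.H884.NA

open Cfsg.Agent.Lib.SL2Mat

section ker

variable {F : Type*} [Field F]

theorem center_ent {g : Matrix.SpecialLinearGroup (Fin 2) F}
    (h : g ∈ Subgroup.center (Matrix.SpecialLinearGroup (Fin 2) F)) :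
    ent g 0 1 = 0 ∧ ent g 1 0 = 0 ∧ ent g 0 0 = ent g 1 1 := by
  obtain ⟨r, -, h2⟩ := center_scalar h
  refine ⟨?_, ?_, ?_⟩
  · change (g : Matrix (Fin 2) (Fin 2) F) 0 1 = 0
    rw [h2]; simp
  · change (g : Matrix (Fin 2) (Fin 2) F) 1 0 = 0
    rw [h2]; simp
  · change (g : Matrix (Fin 2) (Fin 2) F) 0 0 = (g : Matrix (Fin 2) (Fin 2) F) 1 1
    rw [h2]; simp

theorem center_of_ent {g : Matrix.SpecialLinearGroup (Fin 2) F} (h1 : ent g 0 1 = 0) (h2 : ent g 1 0 = 0)
    (h3 : ent g 0 0 = ent g 1 1) : g ∈ Subgroup.center (Matrix.SpecialLinearGroup (Fin 2) F) := by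
  refine center_of_scalar (r := ent g 0 0) ?_
  ext i j
  fin_cases i <;> fin_cases j
  · simp [ent]
  · simpa [ent] using h1
  · simpa [ent] using h2
  · simpa [ent] using h3.symm

theorem conj_center {g x : Matrix.SpecialLinearGroup (Fin 2) F}
    (h : x * g * x⁻¹ ∈ Subgroup.center (Matrix.SpecialLinearGroup (Fin 2) F)) :
    g ∈ Subgroup.center (Matrix.SpecialLinearGroup (Fin 2) F) := by
  have h1 := Subgroup.Normal.conj_mem (inferInstance : (Subgroup.center _).Normal) _ h x⁻¹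
  have h2 : x⁻¹ * (x * g * x⁻¹) * x⁻¹⁻¹ = g := by group
  rwa [h2] at h1

variable {N : Subgroup (Matrix.SpecialLinearGroup (Fin 2) F)} (hN : N.Normal) (hU : ∀ t : F, up t ∈ N → t = 0)

include hN

theorem comm_memN {g : Matrix.SpecialLinearGroup (Fin 2) F} (hg : g ∈ N) (x : Matrix.SpecialLinearGroup (Fin 2) F) :
    g * (x * g⁻¹ * x⁻¹) ∈ N := mul_mem hg (hN.conj_mem _ (inv_mem hg) x)

theorem conj_memN {g x : Matrix.SpecialLinearGroup (Fin 2) F} (hg : x * g * x⁻¹ ∈ N) : g ∈ N := by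
  have h1 := hN.conj_mem _ hg x⁻¹
  have h2 : x⁻¹ * (x * g * x⁻¹) * x⁻¹⁻¹ = g := by group
  rwa [h2] at h1

include hU

/-- upper triangular elements of `N` are central -/
theorem bor {g : Matrix.SpecialLinearGroup (Fin 2) F} (hg : g ∈ N) (h : ent g 1 0 = 0) :
    g ∈ Subgroup.center (Matrix.SpecialLinearGroup (Fin 2) F) := by
  have hd := det_eq g
  rw [h, mul_zero, sub_zero] at hd
  have h1 : g * (up 1 * g⁻¹ * (up 1)⁻¹) = up (ent g 0 0 ^ 2 - 1) := by
    rw [up_inv]
    refine ext_ent ?_ ?_ ?_ ?_ <;> simp only [ent_mul, ent_inv g, mk_00, mk_01, mk_10, mk_11, up_00, up_01, up_10,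
      up_11, h]
    · linear_combination hd
    · linear_combination -hd
    · ring
    · linear_combination hd
  have h2 := hU _ (h1 ▸ comm_memN hN hg (up 1))
  have ha2 : ent g 0 0 * ent g 0 0 = 1 := by linear_combination h2
  have ha0 : ent g 0 0 ≠ 0 := by
    intro h0
    rw [h0, zero_mul] at ha2
    exact zero_ne_one ha2
  have had : ent g 0 0 = ent g 1 1 := mul_left_cancel₀ ha0 (ha2.trans hd.symm)
  have h3 : g * g = up (2 * ent g 0 0 * ent g 0 1) := by
    refine ext_ent ?_ ?_ ?_ ?_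
    · simp only [ent_mul, up_00, h]; linear_combination ha2
    · simp only [ent_mul, up_01, ← had]; ring
    · simp only [ent_mul, up_10, h]; ring
    · simp only [ent_mul, up_11, h, ← had]; linear_combination ha2
  have h4 := hU _ (h3 ▸ mul_mem hg hg)
  by_cases hb : ent g 0 1 = 0
  · exact center_of_ent hb h had
  · exfalso
    have h5 : (2 : F) = 0 := by
      rcases mul_eq_zero.1 h4 with h5 | h5
      · exact (mul_eq_zero.1 h5).resolve_right ha0
      · exact absurd h5 hb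
    have h6 : (ent g 0 0 - 1) * (ent g 0 0 - 1) = 0 := by linear_combination ha2 + (1 - ent g 0 0) * h5
    have h7 : ent g 0 0 = 1 := sub_eq_zero.1 (mul_self_eq_zero.1 h6)
    have h8 : g = up (ent g 0 1) := ext_ent (by rw [h7, up_00]) (by rw [up_01]) (by rw [h, up_10])
      (by rw [← had, h7, up_11])
    exact hb (hU _ (h8 ▸ hg))

/-- lower triangular elements of `N` are central -/
theorem bor' {g : Matrix.SpecialLinearGroup (Fin 2) F} (hg : g ∈ N) (h : ent g 0 1 = 0) :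
    g ∈ Subgroup.center (Matrix.SpecialLinearGroup (Fin 2) F) := by
  apply conj_center (x := wm 1 one_ne_zero)
  apply bor hN hU (hN.conj_mem _ hg _)
  simp only [ent_mul, ent_inv (wm (1 : F) one_ne_zero), mk_00, mk_01, mk_10, mk_11, wm_00, wm_01, wm_10, wm_11, h]
  ring

omit hU in
/-- normal form -/
theorem nf {g : Matrix.SpecialLinearGroup (Fin 2) F} (hc : ent g 1 0 ≠ 0) :
    up (-(ent g 0 0 / ent g 1 0)) * g * (up (-(ent g 0 0 / ent g 1 0)))⁻¹ =
      mk 0 (-(ent g 1 0)⁻¹) (ent g 1 0) (ent g 0 0 + ent g 1 1) (by field_simp; ring) := by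
  have hd := det_eq g
  rw [up_inv]
  refine ext_ent ?_ ?_ ?_ ?_ <;> simp only [ent_mul, mk_00, mk_01, mk_10, mk_11, up_00, up_01, up_10, up_11]
  · field_simp; ring
  · field_simp
    linear_combination -hd
  · ring
  · field_simp; ring

/-- the torus -/
theorem four {c t : F} {h : 0 * t - (-c⁻¹) * c = 1} (hc : c ≠ 0) (hg : mk 0 (-c⁻¹) c t h ∈ N) {s : F} (hs : s ≠ 0) :
    s ^ 4 = 1 ∧ t * (1 - (s ^ 2)⁻¹) = 0 := by
  obtain ⟨k, hk⟩ : ∃ k, k = mk 0 (-c⁻¹) c t h * (dg s hs * (mk 0 (-c⁻¹) c t h)⁻¹ * (dg s hs)⁻¹) := ⟨_, rfl⟩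
  have hkN : k ∈ N := by rw [hk]; exact comm_memN hN hg _
  have k01 : ent k 0 1 = 0 := by
    rw [hk]
    simp only [ent_mul, ent_inv, mk_00, mk_01, mk_10, mk_11, dg_00, dg_01, dg_10, dg_11]
    ring
  have k00 : ent k 0 0 = (s ^ 2)⁻¹ := by
    rw [hk]
    simp only [ent_mul, ent_inv, mk_00, mk_01, mk_10, mk_11, dg_00, dg_01, dg_10, dg_11]
    field_simp; ring
  have k11 : ent k 1 1 = s ^ 2 := by
    rw [hk]
    simp only [ent_mul, ent_inv, mk_00, mk_01, mk_10, mk_11, dg_00, dg_01, dg_10, dg_11]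
    field_simp; ring
  have k10 : ent k 1 0 = c * (t * (1 - (s ^ 2)⁻¹)) := by
    rw [hk]
    simp only [ent_mul, ent_inv, mk_00, mk_01, mk_10, mk_11, dg_00, dg_01, dg_10, dg_11]
    field_simp; ring
  obtain ⟨-, h2, h3⟩ := center_ent (bor' hN hU hkN k01)
  rw [k00, k11] at h3
  rw [k10] at h2
  refine ⟨?_, (mul_eq_zero.1 h2).resolve_left hc⟩
  have h4 : (s ^ 2)⁻¹ * s ^ 2 = 1 := inv_mul_cancel₀ (pow_ne_zero 2 hs)
  rw [h3] at h4
  linear_combination h4

theorem four' {g : Matrix.SpecialLinearGroup (Fin 2) F} (hg : g ∈ N) (hc : ent g 1 0 ≠ 0) {s : F} (hs : s ≠ 0) :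
    s ^ 4 = 1 ∧ (ent g 0 0 + ent g 1 1) * (1 - (s ^ 2)⁻¹) = 0 := by
  have h1 := hN.conj_mem _ hg (up (-(ent g 0 0 / ent g 1 0)))
  rw [nf hN hc] at h1
  exact four hN hU hc h1 hs

/-- large fields -/
theorem big (hs : ∃ s : F, s ≠ 0 ∧ s ^ 4 ≠ 1) : N ≤ Subgroup.center (Matrix.SpecialLinearGroup (Fin 2) F) := by
  obtain ⟨s, hs, hs4⟩ := hs
  intro g hg
  by_cases hc : ent g 1 0 = 0
  · exact bor hN hU hg hc
  · exact absurd (four' hN hU hg hc hs).1 hs4

/-- five elements -/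
theorem five (h5 : (5 : F) = 0) : N ≤ Subgroup.center (Matrix.SpecialLinearGroup (Fin 2) F) := by
  have h2 : (2 : F) ≠ 0 := by
    intro h2
    have : (1 : F) = 0 := by linear_combination h5 - 2 * h2
    exact one_ne_zero this
  have h3 : (3 : F) ≠ 0 := by
    intro h3
    have : (1 : F) = 0 := by linear_combination 2 * h3 - h5
    exact one_ne_zero this
  have htr : ∀ g ∈ N, ent g 1 0 ≠ 0 → ent g 0 0 + ent g 1 1 = 0 := by
    intro g hg hc
    have h4 := (four' hN hU hg hc h2).2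
    refine (mul_eq_zero.1 h4).resolve_right fun h6 => h3 ?_
    have h7 : ((2 : F) ^ 2)⁻¹ * 2 ^ 2 = 1 := inv_mul_cancel₀ (pow_ne_zero 2 h2)
    linear_combination 4 * h6 + h7
  intro g hg
  by_cases hc : ent g 1 0 = 0
  · exact bor hN hU hg hc
  exfalso
  have h1 := hN.conj_mem _ hg (up (-(ent g 0 0 / ent g 1 0)))
  rw [nf hN hc] at h1
  obtain ⟨c, hcc⟩ : ∃ c, c = ent g 1 0 := ⟨_, rfl⟩
  obtain ⟨t, htt⟩ : ∃ t, t = ent g 0 0 + ent g 1 1 := ⟨_, rfl⟩
  have ht0 : t = 0 := by rw [htt]; exact htr g hg hc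
  obtain ⟨g₁, hg₁, e00, e01, e10, e11⟩ : ∃ g₁ ∈ N, ent g₁ 0 0 = 0 ∧ ent g₁ 0 1 = -c⁻¹ ∧ ent g₁ 1 0 = c ∧
      ent g₁ 1 1 = 0 := ⟨_, h1, rfl, by rw [mk_01, hcc], by rw [mk_10, hcc], by rw [mk_11, ← htt, ht0]⟩
  have hc0 : c ≠ 0 := by rw [hcc]; exact hc
  have key : ∀ x : F, x ≠ 0 → 2 + x ^ 2 * c ^ 2 = 0 := by
    intro x hx
    obtain ⟨k, hk⟩ : ∃ k, k = g₁⁻¹ * (up x * g₁⁻¹⁻¹ * (up x)⁻¹) := ⟨_, rfl⟩
    have hkN : k ∈ N := by rw [hk]; exact comm_memN hN (inv_mem hg₁) (up x)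
    rw [inv_inv, up_inv] at hk
    have k00 : ent k 0 0 = 1 := by
      rw [hk]
      simp only [ent_mul, ent_inv g₁, mk_00, mk_01, mk_10, mk_11, up_00, up_01, up_10, up_11, e00, e01, e10, e11]
      field_simp; ring
    have k11 : ent k 1 1 = x ^ 2 * c ^ 2 + 1 := by
      rw [hk]
      simp only [ent_mul, ent_inv g₁, mk_00, mk_01, mk_10, mk_11, up_00, up_01, up_10, up_11, e00, e01, e10, e11]
      field_simp; ring
    have k10 : ent k 1 0 = -(x * c ^ 2) := by
      rw [hk]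
      simp only [ent_mul, ent_inv g₁, mk_00, mk_01, mk_10, mk_11, up_00, up_01, up_10, up_11, e00, e01, e10, e11]
      field_simp; ring
    have h7 := htr k hkN (by rw [k10]; exact neg_ne_zero.2 (mul_ne_zero hx (pow_ne_zero 2 hc0)))
    rw [k00, k11] at h7
    linear_combination h7
  have k1 := key 1 one_ne_zero
  have k2 := key 2 h2
  have k3 : (3 : F) * c ^ 2 = 0 := by linear_combination k2 - k1
  rcases mul_eq_zero.1 k3 with h | h
  · exact h3 h
  · exact hc0 (pow_eq_zero_iff (two_ne_zero) |>.1 h)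

omit hU in
/-- two elements -/
theorem two (hU : ∀ t : F, up t ∈ N → t = 0) (h2 : (2 : F) = 0) (hF : ∀ s : F, s = 0 ∨ s = 1)
    (hne : ¬ N ≤ Subgroup.center (Matrix.SpecialLinearGroup (Fin 2) F)) (a : Matrix.SpecialLinearGroup (Fin 2) F) :
    a ^ 2 ∈ N := by
  have hnf : ∀ g : Matrix.SpecialLinearGroup (Fin 2) F, ent g 1 0 ≠ 0 → ∃ x t : Matrix.SpecialLinearGroup (Fin 2) F,
      x * g * x⁻¹ = t ∧ ent t 0 0 = 0 ∧ ent t 0 1 = -1 ∧ ent t 1 0 = 1 ∧ ent t 1 1 = ent g 0 0 + ent g 1 1 := by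
    intro g hc
    have hc1 : ent g 1 0 = 1 := (hF _).resolve_left hc
    exact ⟨_, _, nf hN hc, rfl, by rw [mk_01, hc1, inv_one], by rw [mk_10, hc1], rfl⟩
  obtain ⟨g, hg, hgc⟩ := Set.not_subset.1 hne
  have hc : ent g 1 0 ≠ 0 := fun h => hgc (bor hN hU hg h)
  obtain ⟨x, g₁, hx, e00, e01, e10, e11⟩ := hnf g hc
  have hg₁ : g₁ ∈ N := by rw [← hx]; exact hN.conj_mem _ hg _
  have ht : ent g₁ 1 1 = 1 := by
    rcases hF (ent g₁ 1 1) with h | h
    · exfalso
      have h3 := bor hN hU (hN.conj_mem _ hg₁ (lo 1)) (by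
        rw [lo_inv]
        simp only [ent_mul, mk_00, mk_01, mk_10, mk_11, lo_00, lo_01, lo_10, lo_11, e00, e01, e10, h]
        linear_combination h2)
      have h4 := (center_ent (conj_center h3)).2.1
      rw [e10] at h4
      exact one_ne_zero h4
    · exact h
  by_cases ha : ent a 1 0 = 0
  · have hd := det_eq a
    rw [ha, mul_zero, sub_zero] at hd
    have h1 : ent a 0 0 = 1 := (hF _).resolve_left fun h => by rw [h, zero_mul] at hd; exact zero_ne_one hd
    have h3 : ent a 1 1 = 1 := by rw [h1, one_mul] at hd; exact hd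
    have h4 : a ^ 2 = 1 := by
      rw [pow_two]
      refine ext_ent ?_ ?_ ?_ ?_ <;> simp only [ent_mul, ent_one_00, ent_one_01, ent_one_10, ent_one_11, ha, h1, h3]
      · ring
      · linear_combination ent a 0 1 * h2
      · ring
      · ring
    rw [h4]
    exact one_mem _
  · obtain ⟨y, a₁, hy, f00, f01, f10, f11⟩ := hnf a ha
    have h5 : a₁ ^ 2 ∈ N := by
      rcases hF (ent a₁ 1 1) with h | h
      · have h6 : a₁ ^ 2 = 1 := by
          rw [pow_two]
          refine ext_ent ?_ ?_ ?_ ?_ <;> simp only [ent_mul, ent_one_00, ent_one_01, ent_one_10, ent_one_11, f00,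
            f01, f10, h]
          · linear_combination -h2
          · ring
          · ring
          · linear_combination -h2
        rw [h6]
        exact one_mem _
      · have h6 : a₁ = g₁ := ext_ent (f00.trans e00.symm) (f01.trans e01.symm) (f10.trans e10.symm) (h.trans ht.symm)
        rw [h6]
        exact pow_mem hg₁ 2
    apply conj_memN hN (x := y)
    have h7 : y * a ^ 2 * y⁻¹ = a₁ ^ 2 := by rw [← hy]; simp [pow_two, mul_assoc]
    rw [h7]
    exact h5

omit hU in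
/-- three elements -/
theorem three (hU : ∀ t : F, up t ∈ N → t = 0) (h3 : (3 : F) = 0) (hF : ∀ s : F, s ≠ 0 → s * s = 1)
    (hne : ¬ N ≤ Subgroup.center (Matrix.SpecialLinearGroup (Fin 2) F)) (a : Matrix.SpecialLinearGroup (Fin 2) F) :
    a ^ 3 ∈ N := by
  have h2 : (2 : F) ≠ 0 := by
    intro h2
    have : (1 : F) = 0 := by linear_combination h3 - h2
    exact one_ne_zero this
  obtain ⟨g, hg, hgc⟩ := Set.not_subset.1 hne
  have hc : ent g 1 0 ≠ 0 := fun h => hgc (bor hN hU hg h)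
  have h1 := hN.conj_mem _ hg (up (-(ent g 0 0 / ent g 1 0)))
  rw [nf hN hc] at h1
  obtain ⟨c, hcc⟩ : ∃ c, c = ent g 1 0 := ⟨_, rfl⟩
  obtain ⟨t, htt⟩ : ∃ t, t = ent g 0 0 + ent g 1 1 := ⟨_, rfl⟩
  have hc0 : c ≠ 0 := by rw [hcc]; exact hc
  have hci : c⁻¹ = c := by
    exact inv_eq_of_mul_eq_one_left (hF c hc0)
  obtain ⟨g₁, hg₁, e00, e01, e10, e11⟩ : ∃ g₁ ∈ N, ent g₁ 0 0 = 0 ∧ ent g₁ 0 1 = -c ∧ ent g₁ 1 0 = c ∧
      ent g₁ 1 1 = t := ⟨_, h1, rfl, by rw [mk_01, ← hcc, hci], by rw [mk_10, hcc], by rw [mk_11, htt]⟩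
  have ht0 : t = 0 := by
    by_contra ht
    have ht2 := hF t ht
    have h4 := bor hN hU (hN.conj_mem _ hg₁ (lo (-(c * t)))) (by
      rw [lo_inv]
      simp only [ent_mul, mk_00, mk_01, mk_10, mk_11, lo_00, lo_01, lo_10, lo_11, e00, e01, e10, e11]
      have hc2 := hF c hc0
      linear_combination c * h3 + c * ht2 + c ^ 3 * ht2 + c * hc2)
    have h5 := (center_ent (conj_center h4)).2.1
    rw [e10] at h5
    exact hc0 h5
  rw [ht0] at e11
  have hg₁' : ∀ b : Matrix.SpecialLinearGroup (Fin 2) F, ent b 0 0 = 0 → ent b 1 1 = 0 → b ∈ N := by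
    intro b b00 b11
    have hd := det_eq b
    rw [b00, zero_mul, zero_sub] at hd
    have hb0 : ent b 1 0 ≠ 0 := by
      intro h
      rw [h, mul_zero, neg_zero] at hd
      exact zero_ne_one hd
    have hb2 := hF _ hb0
    have hb1 : ent b 0 1 = - ent b 1 0 := by linear_combination (-ent b 1 0) * hd - ent b 0 1 * hb2
    have hs := hF c hc0
    have h6 : (ent b 1 0 - c) * (ent b 1 0 + c) = 0 := by linear_combination hb2 - hs
    rcases mul_eq_zero.1 h6 with h6 | h6
    · have h7 : ent b 1 0 = c := sub_eq_zero.1 h6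
      have h8 : b = g₁ := ext_ent (b00.trans e00.symm) (by rw [hb1, h7, e01]) (by rw [h7, e10]) (b11.trans e11.symm)
      rw [h8]; exact hg₁
    · have h7 : ent b 1 0 = -c := eq_neg_of_add_eq_zero_left h6
      have h8 : b = g₁⁻¹ := ext_ent (by rw [b00, ent_inv g₁, mk_00, e11]) (by rw [hb1, h7, ent_inv g₁, mk_01, e01])
        (by rw [h7, ent_inv g₁, mk_10, e10]) (by rw [b11, ent_inv g₁, mk_11, e00])
      rw [h8]; exact inv_mem hg₁
  have hm1 : mk (-1) 0 0 (-1) (by ring) ∈ N := by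
    have h6 : mk (-1) 0 0 (-1) (by ring) = (mk 0 (-1) 1 0 (by ring) : Matrix.SpecialLinearGroup (Fin 2) F) *
        mk 0 (-1) 1 0 (by ring) := by
      refine ext_ent ?_ ?_ ?_ ?_ <;> simp [ent_mul]
    rw [h6]
    exact mul_mem (hg₁' _ rfl rfl) (hg₁' _ rfl rfl)
  by_cases hT : ent a 0 0 + ent a 1 1 = 0
  · have ha : a ∈ N := by
      by_cases h : ent a 1 0 = 0
      · exfalso
        have hd := det_eq a
        rw [h, mul_zero, sub_zero] at hd
        have ha0 : ent a 0 0 ≠ 0 := by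
          intro h0
          rw [h0, zero_mul] at hd
          exact zero_ne_one hd
        have h6 := hF _ ha0
        apply h2
        linear_combination ent a 0 0 * hT - h6 - hd
      · apply conj_memN hN (x := up (-(ent a 0 0 / ent a 1 0)))
        rw [nf hN h]
        exact hg₁' _ rfl hT
    exact pow_mem ha 3
  · have hT2 := hF _ hT
    have hd := det_eq a
    have h6 : (ent a 0 0 + ent a 1 1 - 1) * (ent a 0 0 + ent a 1 1 + 1) = 0 := by linear_combination hT2
    have h7 : a ^ 3 = 1 ∨ a ^ 3 = mk (-1) 0 0 (-1) (by ring) := by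
      rcases mul_eq_zero.1 h6 with h6 | h6
      · right
        rw [pow_succ, pow_two]
        have h8 : ent a 1 1 = 1 - ent a 0 0 := by linear_combination h6
        rw [h8] at hd
        refine ext_ent ?_ ?_ ?_ ?_ <;> simp only [ent_mul, mk_00, mk_01, mk_10, mk_11, h8]
        · linear_combination (-ent a 0 0 - 1) * hd
        · linear_combination (-ent a 0 1) * hd
        · linear_combination (-ent a 1 0) * hd
        · linear_combination (ent a 0 0 - 2) * hd
      · left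
        rw [pow_succ, pow_two]
        have h8 : ent a 1 1 = -1 - ent a 0 0 := by linear_combination h6
        rw [h8] at hd
        refine ext_ent ?_ ?_ ?_ ?_ <;> simp only [ent_mul, ent_one_00, ent_one_01, ent_one_10, ent_one_11, h8]
        · linear_combination (-ent a 0 0 + 1) * hd
        · linear_combination (-ent a 0 1) * hd
        · linear_combination (-ent a 1 0) * hd
        · linear_combination (ent a 0 0 + 2) * hd
    rcases h7 with h7 | h7
    · rw [h7]; exact one_mem _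
    · rw [h7]; exact hm1

end ker

end Cfsg.Agent.H884.NA
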