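import Cfsg.Agent.H884.NA.Main

/-!
# S3509, exceptional row: five and six points (helper884)
-/

set_option autoImplicit false
set_option linter.unusedSectionVars false
set_option maxRecDepth 100000

namespace Cfsg.Agent.H884.NA

open Equiv Equiv.Perm

variable {α : Type*} [Fintype α] [DecidableEq α] {F : Type*} [Field F]

theorem pow6 [Fintype F] (h2F : Fintype.card F = 2) (a : Matrix.SpecialLinearGroup (Fin 2) F) : a ^ 6 = 1 := by
  obtain ⟨A, hA⟩ : ∃ A : Matrix (Fin 2) (Fin 2) F, A = a.1 := ⟨_, rfl⟩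
  have hd : A.det = 1 := by rw [hA]; exact a.2
  obtain ⟨t, ht⟩ : ∃ t, t = A.trace := ⟨_, rfl⟩
  have h2 : A * A = t • A - 1 := by rw [ch2, hd, one_smul, ht]
  have ht2 : t ^ 2 = t := by rw [← h2F]; exact FiniteField.pow_card t
  have h4 : A ^ 6 = 1 := by
    have h5 : t * (t - 1) = 0 := by linear_combination ht2
    have h22 : (2 : F) = 0 := by
      have h := FiniteField.pow_card (2 : F)
      rw [h2F] at h
      linear_combination h
    rcases mul_eq_zero.1 h5 with h6 | h6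
    · rw [h6, zero_smul, zero_sub] at h2
      have h7 : (-1 : Matrix (Fin 2) (Fin 2) F) = 1 := by
        have h8 : (-1 : F) = 1 := by linear_combination -h22
        calc (-1 : Matrix (Fin 2) (Fin 2) F) = (-1 : F) • 1 := by rw [neg_smul, one_smul]
          _ = 1 := by rw [h8, one_smul]
      calc A ^ 6 = (A * A) ^ 3 := by rw [← pow_two, ← pow_mul]
        _ = 1 := by rw [h2, h7, one_pow]
    · have h8 : t = 1 := sub_eq_zero.1 h6
      rw [h8, one_smul] at h2
      have h9 : A ^ 3 = -1 := by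
        rw [pow_succ, pow_two, h2, sub_mul, h2, one_mul]; abel
      calc A ^ 6 = (A ^ 3) ^ 2 := by rw [← pow_mul]
        _ = 1 := by rw [h9, Even.neg_one_pow (by decide)]
  apply Subtype.ext
  exact (Matrix.SpecialLinearGroup.coe_pow a 6).trans (by rw [← hA, h4]; rfl)

/-- a word of order five in the pair, for small `q` -/
theorem kill_five {p : ℕ} [Fact p.Prime] (hp5 : (5 : ℕ).Coprime p) (N : ℕ) (hN : Nat.gcd 5 N = 1)
    (hSL : ∀ a : Matrix.SpecialLinearGroup (Fin 2) F, a ^ N = 1)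
    {X : Subgroup (Perm α)} (hpair : ∀ t ∈ alternatingGroup α, PairP p F (YY X t)) {x : Perm α} (hx : x ∈ X)
    {I : Type*} [Fintype I] [DecidableEq I] {ι : I ↪ α} {x₀ : Perm I} (hι : ∀ i, x (ι i) = ι (x₀ i))
    (c₀ : Perm I) (hc : sign c₀ = 1) (h5 : (w0 x₀ c₀) ^ 5 = 1) (h1 : w0 x₀ c₀ ≠ 1) : False := by
  have hY := hpair (V ι c₀)⁻¹ (inv_mem (V_mem ι hc))
  obtain ⟨w, hw⟩ : ∃ w, w = V ι (w0 x₀ c₀) := ⟨_, rfl⟩
  have hwY : w ∈ YY X (V ι c₀)⁻¹ := by
    rw [hw, ← V_comm hι]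
    exact mul_mem (mem_YY_right hx) (inv_mem (mem_YY_left hx))
  have hw5 : w ^ 5 = 1 := by rw [hw, ← map_pow, h5, map_one]
  have hw1 : w ≠ 1 := by
    intro h
    rw [hw] at h
    exact h1 (V_inj ι (h.trans (map_one _).symm))
  rcases hY with hY | ⟨φ, hφ, hker⟩
  · exact hw1 (eq_one_of_coprime hY hwY hw5 hp5)
  · rw [← hφ] at hwY
    obtain ⟨a, rfl⟩ := hwY
    have h12 : φ a ^ N = 1 := by rw [← map_pow, hSL, map_one]
    apply hw1
    have h4 : orderOf (φ a) ∣ Nat.gcd 5 N := Nat.dvd_gcd (orderOf_dvd_of_pow_eq_one hw5)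
      (orderOf_dvd_of_pow_eq_one h12)
    rw [hN] at h4
    exact orderOf_eq_one_iff.1 (Nat.dvd_one.1 h4)

abbrev c25 : Perm ((Fin 2 × Fin 2) ⊕ Fin 1) := swap (P 0 1) (P 1 0) * swap (P 1 0) (Q 0)

theorem s25 : sign c25 = 1 := by decide +kernel
theorem a25 : (w0 (x0 1 2 1) c25) ^ 5 = 1 := by decide +kernel
theorem b25 : (w0 (x0 1 2 1) c25) ≠ 1 := by decide +kernel

abbrev c36 : Perm ((Fin 2 × Fin 3) ⊕ Fin 0) := swap (P 0 2) (P 1 0) * swap (P 1 0) (P 1 1)

theorem s36 : sign c36 = 1 := by decide +kernel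
theorem a36 : (w0 (x0 2 2 0) c36) ^ 5 = 1 := by decide +kernel
theorem b36 : (w0 (x0 2 2 0) c36) ≠ 1 := by decide +kernel

/-! ### `p = 5`, six points -/

abbrev c56 : Perm ((Fin 1 × Fin 5) ⊕ Fin 1) :=
  swap (P 0 1) (P 0 2) * swap (P 0 2) (P 0 4) * swap (P 0 4) (Q 0) * swap (Q 0) (P 0 3)

abbrev g6 (j : ℕ) : Perm ((Fin 1 × Fin 5) ⊕ Fin 1) := (x0 4 1 1) ^ j * w0 (x0 4 1 1) c56 * ((x0 4 1 1) ^ j)⁻¹

theorem s56 : sign c56 = 1 := by decide +kernel
theorem a56 : (g6 0 * g6 2) ^ 3 = 1 := by decide +kernel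
theorem b56 : (g6 2 * g6 0) ^ 3 = 1 := by decide +kernel
theorem a56' : (g6 0 * g6 2) ≠ 1 := by decide +kernel
theorem b56' : (g6 2 * g6 0) ≠ 1 := by decide +kernel
theorem d56 : (g6 0 * g6 2) * (g6 2 * g6 0) = (g6 2 * g6 0) * (g6 0 * g6 2) := by decide +kernel
theorem e56 : (g6 2 * g6 0) ≠ (g6 0 * g6 2) := by decide +kernel
theorem f56 : (g6 2 * g6 0) ≠ (g6 0 * g6 2) * (g6 0 * g6 2) := by decide +kernel

theorem case_five' [CharP F 5] (hm : 6 ≤ Fintype.card α) {X : Subgroup (Perm α)}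
    (hpair : ∀ t ∈ alternatingGroup α, PairP 5 F (YY X t)) {x : Perm α} (hx : x ∈ X) (hx5 : x ^ 5 = 1)
    (hx1 : x ≠ 1) (hs : x.support.card ≤ 5) : False := by
  have : Fact (Nat.Prime 5) := ⟨Nat.prime_five⟩
  have h0 : 0 < x.support.card := Finset.card_pos.2 (by
    rw [Finset.nonempty_iff_ne_empty]
    exact fun h => hx1 (support_eq_empty_iff.1 h))
  obtain ⟨ι, hι⟩ := exists_emb (n := 4) Nat.prime_five hx5 1 1 (by omega) (by omega)
  have hY := hpair (V ι c56)⁻¹ (inv_mem (V_mem ι s56))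
  have hxY : x ∈ YY X (V ι c56)⁻¹ := mem_YY_left hx
  have hg : ∀ j, V ι (g6 j) ∈ YY X (V ι c56)⁻¹ := by
    intro j
    rw [← V_conj (pow_ι hι j), ← V_comm hι]
    exact mul_mem (mul_mem (pow_mem hxY j) (mul_mem (mem_YY_right hx) (inv_mem hxY))) (inv_mem (pow_mem hxY j))
  have h1 : V ι (g6 0 * g6 2) ∈ YY X (V ι c56)⁻¹ := by
    have h := mul_mem (hg 0) (hg 2)
    rw [← map_mul (V ι) (g6 0)] at h
    exact h
  have h2 : V ι (g6 2 * g6 0) ∈ YY X (V ι c56)⁻¹ := by
    have h := mul_mem (hg 2) (hg 0)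
    rw [← map_mul (V ι) (g6 2)] at h
    exact h
  rcases forb33 hY (by norm_num) h1 h2 (by rw [← map_pow, a56, map_one]) (by rw [← map_pow, b56, map_one])
    (by rw [← map_mul, ← map_mul, d56]) (fun h => a56' (V_inj ι (h.trans (map_one _).symm)))
    (fun h => b56' (V_inj ι (h.trans (map_one _).symm))) with h3 | h3
  · exact e56 (V_inj ι h3)
  · rw [← map_mul] at h3
    exact f56 (V_inj ι h3)

/-! ### `q = 4`, six points -/

abbrev I6 := (Fin 2 × Fin 2) ⊕ Fin 2

abbrev x6 : Perm I6 := x0 1 2 2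
abbrev yA : Perm I6 := swap (P 0 0) (P 1 0) * swap (P 0 1) (P 1 1)
abbrev yB : Perm I6 := swap (P 0 0) (P 1 1) * swap (P 0 1) (P 1 0)
abbrev yC : Perm I6 := swap (P 0 0) (P 0 1) * swap (Q 0) (Q 1)
abbrev yD : Perm I6 := swap (P 1 0) (P 1 1) * swap (Q 0) (Q 1)

/-- check -/
def chk (y : Perm I6) : Bool :=
  if y * x6 = x6 * y then
    if y ^ 2 = 1 then
      if sign y = 1 then
        decide (y = 1) || decide (y = x6) || decide (y = yA) || decide (y = yB) || decide (y = yC) || decide (y = yD)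
      else true
    else true
  else true

theorem chk_all : ∀ y : Perm I6, chk y = true := by decide +kernel

theorem inv6 {y : Perm I6} (h1 : y * x6 = x6 * y) (h2 : y ^ 2 = 1) (h3 : sign y = 1) (h4 : y ≠ 1) (h5 : y ≠ x6) :
    y = yA ∨ y = yB ∨ y = yC ∨ y = yD := by
  have h := chk_all y
  rw [chk, if_pos h1, if_pos h2, if_pos h3, decide_eq_false h4, decide_eq_false h5] at h
  simpa [or_assoc] using h

theorem kill_four [CharP F 2] {X : Subgroup (Perm α)} (hpair : ∀ t ∈ alternatingGroup α, PairP 2 F (YY X t))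
    {I : Type*} [Fintype I] [DecidableEq I] (ι : I ↪ α) (c₀ : Perm I) (hc : sign c₀ = 1) (u v u' v' : Perm I)
    (hu : V ι u ∈ X) (hv : V ι v ∈ X) (hu' : V ι u' ∈ X) (hv' : V ι v' ∈ X)
    (h4 : (u * (c₀⁻¹ * v * c₀)) ^ 4 = 1) (h4' : (u * (c₀⁻¹ * v * c₀)) ^ 2 ≠ 1)
    (h3 : (u' * (c₀⁻¹ * v' * c₀)) ^ 3 = 1) (h3' : (u' * (c₀⁻¹ * v' * c₀)) ≠ 1) : False := by
  have hY := hpair (V ι c₀)⁻¹ (inv_mem (V_mem ι hc))
  have key : ∀ u v : Perm I, V ι u ∈ X → V ι v ∈ X → V ι (u * (c₀⁻¹ * v * c₀)) ∈ YY X (V ι c₀)⁻¹ := by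
    intro u v hu hv
    rw [map_mul (V ι) u, map_mul (V ι) (c₀⁻¹ * v), map_mul (V ι) c₀⁻¹, map_inv (V ι) c₀]
    exact mul_mem (mem_YY_left hu) (mem_YY_right hv)
  have h5 := forb_four hY (key u v hu hv) (key u' v' hu' hv') (by rw [← map_pow, h4, map_one])
    (by rw [← map_pow, h3, map_one]) (fun h => h3' (V_inj ι (h.trans (map_one _).symm)))
  rw [← map_pow] at h5
  exact h4' (V_inj ι (h5.trans (map_one _).symm))

abbrev cAB : Perm I6 := swap (P 1 0) (Q 0) * swap (P 1 1) (Q 1)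
abbrev cCD : Perm I6 := swap (P 1 1) (Q 0) * swap (Q 0) (Q 1)

theorem sAB : sign cAB = 1 := by decide +kernel
theorem sCD : sign cCD = 1 := by decide +kernel
theorem A1 : (x6 * (cAB⁻¹ * yA * cAB)) ^ 4 = 1 := by decide +kernel
theorem A2 : (x6 * (cAB⁻¹ * yA * cAB)) ^ 2 ≠ 1 := by decide +kernel
theorem A3 : (yA * (cAB⁻¹ * yA * cAB)) ^ 3 = 1 := by decide +kernel
theorem A4 : (yA * (cAB⁻¹ * yA * cAB)) ≠ 1 := by decide +kernel
theorem B1 : (x6 * (cAB⁻¹ * yB * cAB)) ^ 4 = 1 := by decide +kernel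
theorem B2 : (x6 * (cAB⁻¹ * yB * cAB)) ^ 2 ≠ 1 := by decide +kernel
theorem B3 : (yB * (cAB⁻¹ * yB * cAB)) ^ 3 = 1 := by decide +kernel
theorem B4 : (yB * (cAB⁻¹ * yB * cAB)) ≠ 1 := by decide +kernel
theorem C1 : (x6 * (cCD⁻¹ * (x6 * yC) * cCD)) ^ 4 = 1 := by decide +kernel
theorem C2 : (x6 * (cCD⁻¹ * (x6 * yC) * cCD)) ^ 2 ≠ 1 := by decide +kernel
theorem C3 : (x6 * (cCD⁻¹ * x6 * cCD)) ^ 3 = 1 := by decide +kernel
theorem C4 : (x6 * (cCD⁻¹ * x6 * cCD)) ≠ 1 := by decide +kernel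
theorem D1 : (x6 * (cCD⁻¹ * yD * cCD)) ^ 4 = 1 := by decide +kernel
theorem D2 : (x6 * (cCD⁻¹ * yD * cCD)) ^ 2 ≠ 1 := by decide +kernel

theorem V_surj {I : Type*} [Fintype I] [DecidableEq I] (ι : I ↪ α) (h : Fintype.card α = Fintype.card I) :
    Function.Surjective (V ι) := by
  have h1 : Function.Bijective (V ι) := by
    rw [Fintype.bijective_iff_injective_and_card]
    exact ⟨V_inj ι, by rw [Fintype.card_perm, Fintype.card_perm, h]⟩
  exact h1.2

theorem case_six [CharP F 2] (h6 : Fintype.card α = 6) {X : Subgroup (Perm α)} (hA : X ≤ alternatingGroup α)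
    (hpair : ∀ t ∈ alternatingGroup α, PairP 2 F (YY X t)) {x y : Perm α} (hx : x ∈ X) (hy : y ∈ X)
    (hx2 : x ^ 2 = 1) (hy2 : y ^ 2 = 1) (hx1 : x ≠ 1) (hy1 : y ≠ 1) (hxy : x ≠ y) (hc : x * y = y * x) : False := by
  obtain ⟨h4, h0⟩ := support_two (hA hx) hx2 hx1
  have hle : x.support.card ≤ Fintype.card α := Finset.card_le_univ _
  obtain ⟨ι, hι⟩ := exists_emb (n := 1) Nat.prime_two hx2 2 2 (by omega) (by omega)
  have hcard : Fintype.card α = Fintype.card I6 := by rw [h6]; rfl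
  have hιs : Function.Surjective ι := by
    have h1 : Function.Bijective ι := by
      rw [Fintype.bijective_iff_injective_and_card]
      exact ⟨ι.injective, hcard.symm⟩
    exact h1.2
  have hxV : x = V ι x6 := eq_V hιs hι
  obtain ⟨y₀, hyV⟩ := V_surj ι hcard y
  have h1 : y₀ * x6 = x6 * y₀ := V_inj ι (by rw [map_mul, map_mul, hyV, ← hxV, hc])
  have h2 : y₀ ^ 2 = 1 := V_inj ι (by rw [map_pow, map_one, hyV, hy2])
  have h3 : sign y₀ = 1 := by rw [← V_sign ι y₀, hyV]; exact mem_alternatingGroup.1 (hA hy)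
  have h5 : y₀ ≠ 1 := by rintro rfl; exact hy1 (by rw [← hyV, map_one])
  have h7 : y₀ ≠ x6 := by rintro rfl; exact hxy (by rw [← hyV, ← hxV])
  have hX : V ι x6 ∈ X := by rw [← hxV]; exact hx
  have hYm : V ι y₀ ∈ X := by rw [hyV]; exact hy
  have hXY : V ι (x6 * y₀) ∈ X := by rw [map_mul]; exact mul_mem hX hYm
  rcases inv6 h1 h2 h3 h5 h7 with rfl | rfl | rfl | rfl
  · exact kill_four hpair ι cAB sAB _ _ _ _ hX hYm hYm hYm A1 A2 A3 A4
  · exact kill_four hpair ι cAB sAB _ _ _ _ hX hYm hYm hYm B1 B2 B3 B4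
  · exact kill_four hpair ι cCD sCD _ _ _ _ hX hXY hX hX C1 C2 C3 C4
  · exact kill_four hpair ι cCD sCD _ _ _ _ hX hYm hX hX D1 D2 C3 C4

/-- the exceptional isomorphisms -/
def ExcAlt (q m : ℕ) : Prop := (q = 4 ∧ m = 5) ∨ (q = 5 ∧ m = 5) ∨ (q = 9 ∧ m = 6) ∨ (q = 2 ∧ m = 8)

theorem support_prime {p : ℕ} (hp : p.Prime) {x : Perm α} (hxp : x ^ p = 1) (hx1 : x ≠ 1) :
    ∃ k, x.support.card = p * k ∧ 0 < k := by
  haveI : Fact p.Prime := ⟨hp⟩
  have ho : orderOf x = p := orderOf_eq_prime hxp hx1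
  obtain ⟨n, hn⟩ := cycleType_prime_order (σ := x) (by rw [ho]; exact hp)
  refine ⟨n + 1, ?_, by omega⟩
  rw [← sum_cycleType, hn, Multiset.sum_replicate, ho, smul_eq_mul, mul_comm]

/-- **F6** in all degrees -/
theorem not_alt_all {p : ℕ} [Fact p.Prime] {F : Type*} [Field F] [Fintype F] [CharP F p]
    (hm : 5 ≤ Fintype.card α) (hex : ¬ ExcAlt (Fintype.card F) (Fintype.card α))
    (X : Subgroup (Perm α)) (hA : X ≤ alternatingGroup α) (hc : Nat.card X = Fintype.card F)
    (hab : ∀ x ∈ X, ∀ y ∈ X, x * y = y * x) (hp : ∀ x ∈ X, x ^ p = 1)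
    (hpair : ∀ t ∈ alternatingGroup α, PairP p F (YY X t)) : False := by
  classical
  have hpp : p.Prime := Fact.out
  by_cases h7 : 7 ≤ Fintype.card α
  · exact not_alt_perm h7 (fun h1 h2 => hex (Or.inr (Or.inr (Or.inr ⟨h1, h2⟩)))) X hA hc hab hp hpair
  have hF : 1 < Nat.card X := by rw [hc]; exact Fintype.one_lt_card
  obtain ⟨x, hx, hx1⟩ : ∃ x ∈ X, x ≠ 1 := by
    by_contra h
    push Not at h
    rw [(Subgroup.eq_bot_iff_forall X).2 h, Subgroup.card_bot] at hF
    omega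
  have hle : ∀ z : Perm α, z.support.card ≤ Fintype.card α := fun z => Finset.card_le_univ _
  rcases hpp.eq_two_or_odd with h2 | hodd
  · subst h2
    have h4 : ∀ z ∈ X, z ≠ 1 → z.support.card = 4 := by
      intro z hz hz1
      obtain ⟨h1, h2⟩ := support_two (hA hz) (hp z hz) hz1
      have := hle z
      omega
    have hd := card_dvd_support X 4 h4 ⟨x, hx, hx1⟩
    have hq : Nat.card X = 2 ∨ Nat.card X = 4 := by
      have h5 : Nat.card X ≤ 4 := Nat.le_of_dvd (by norm_num) hd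
      interval_cases h : Nat.card X <;> omega
    rcases hq with hq | hq
    · have hF2 : Fintype.card F = 2 := by rw [← hc, hq]
      have hs := h4 x hx hx1
      obtain ⟨ι, hι⟩ := exists_emb (n := 1) Nat.prime_two (hp x hx) 2 1 (by omega) (by omega)
      exact kill_five (by norm_num) 6 (by norm_num) (pow6 hF2) hpair hx hι c25 s25 a25 b25
    · have hF4 : Fintype.card F = 4 := by rw [← hc, hq]
      have h6 : Fintype.card α = 6 := by
        by_contra h6
        exact hex (Or.inl ⟨hF4, by omega⟩)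
      obtain ⟨y, hy, hy1, hxy⟩ : ∃ y ∈ X, y ≠ 1 ∧ x ≠ y := by
        by_contra h
        push Not at h
        have h1 : (X : Set (Perm α)) ⊆ {1, x} := by
          intro z hz
          by_cases hz1 : z = 1
          · exact Or.inl hz1
          · exact Or.inr (h z hz hz1).symm
        have h2 : Nat.card X ≤ ({1, x} : Set (Perm α)).ncard := Set.ncard_le_ncard h1 (Set.toFinite _)
        rw [Set.ncard_pair (Ne.symm hx1), hq] at h2
        omega
      exact case_six h6 hA hpair hx hy (hp x hx) (hp y hy) hx1 hy1 hxy (hab x hx y hy)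
  · by_cases h3 : p = 3
    · subst h3
      have hs : ∀ z ∈ X, z ≠ 1 → z.support.card = 3 ∨ z.support.card = 6 := by
        intro z hz hz1
        obtain ⟨k, hk, hk0⟩ := support_prime hpp (hp z hz) hz1
        have := hle z
        omega
      have hq : Fintype.card F = 3 := by
        obtain ⟨n, -, hn⟩ := FiniteField.card F 3
        by_cases h5 : Fintype.card α = 5
        · have h6 : ∀ z ∈ X, z ≠ 1 → z.support.card = 3 := by
            intro z hz hz1
            have := hs z hz hz1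
            have := hle z
            omega
          have hd := card_dvd_support X 3 h6 ⟨x, hx, hx1⟩
          rw [← hc]
          rcases (Nat.dvd_prime Nat.prime_three).1 hd with h | h
          · omega
          · exact h
        · have h6 : Fintype.card α = 6 := by omega
          have h9 : Nat.card X ∣ 720 := by
            have h1 := Subgroup.card_subgroup_dvd_card X
            rwa [Nat.card_eq_fintype_card (α := Perm α), Fintype.card_perm, h6] at h1
          rw [hc, hn] at h9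
          have hn3 : (n : ℕ) < 3 := by
            by_contra h10
            have h11 : 3 ^ 3 ∣ 720 := (pow_dvd_pow 3 (by omega)).trans h9
            revert h11
            norm_num
          have hn0 : 0 < (n : ℕ) := n.pos
          have h12 : (n : ℕ) = 1 ∨ (n : ℕ) = 2 := by omega
          rcases h12 with h12 | h12
          · rw [hn, h12]; norm_num
          · exact absurd (Or.inr (Or.inr (Or.inl ⟨by rw [hn, h12]; norm_num, h6⟩))) hex
      rcases hs x hx hx1 with h | h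
      · exact case_three' hq hm hpair hx (hp x hx) hx1 h.le
      · obtain ⟨ι, hι⟩ := exists_emb (n := 2) Nat.prime_three (hp x hx) 2 0 (by omega) (by have := hle x; omega)
        exact kill_five (by norm_num) 12 (by norm_num) (pow12 hq) hpair hx hι c36 s36 a36 b36
    · by_cases h5 : p = 5
      · subst h5
        have hs : ∀ z ∈ X, z ≠ 1 → z.support.card = 5 := by
          intro z hz hz1
          obtain ⟨k, hk, hk0⟩ := support_prime hpp (hp z hz) hz1
          have := hle z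
          omega
        have hd := card_dvd_support X 5 hs ⟨x, hx, hx1⟩
        have hq : Fintype.card F = 5 := by
          rw [← hc]
          rcases (Nat.dvd_prime Nat.prime_five).1 hd with h | h
          · omega
          · exact h
        have h6 : 6 ≤ Fintype.card α := by
          by_contra h6
          exact hex (Or.inr (Or.inl ⟨hq, by omega⟩))
        exact case_five' h6 hpair hx (hp x hx) hx1 (hs x hx hx1).le
      · have h7' : 7 ≤ p := by
          by_contra hlt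
          have h1 : p < 7 := by omega
          have h2 := hpp.two_le
          interval_cases p <;> omega
        obtain ⟨k, hk, hk0⟩ := support_prime hpp (hp x hx) hx1
        have h8 := hle x
        have h9 : p * 1 ≤ p * k := Nat.mul_le_mul_left p hk0
        omega

end Cfsg.Agent.H884.NA
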